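import Cfsg.Agent.Lib.Helper34.TrioGL

set_option autoImplicit false

/-! The stabiliser of a trio in `M24`, third part: the structure `2^6 : (GL(3,2) × S3)`. -/

namespace Cfsg.Agent.Lib.Helper34

open Cfsg Cfsg.Agent.Lib.Helper33
open scoped Pointwise

theorem gl3_det_ne (A : GL (Fin 3) (ZMod 2)) :
    det9 (A.1 0 0) (A.1 0 1) (A.1 0 2) (A.1 1 0) (A.1 1 1) (A.1 1 2) (A.1 2 0) (A.1 2 1) (A.1 2 2) ≠ 0 := by
  have h : IsUnit A.1 := A.isUnit
  rw [Matrix.isUnit_iff_isUnit_det, Matrix.det_fin_three] at h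
  exact h.ne_zero

/-- the packed permutation attached to a matrix -/
def tglP (A : GL (Fin 3) (ZMod 2)) : ℕ :=
  fldP trGL (code9 (A.1 0 0) (A.1 0 1) (A.1 0 2) (A.1 1 0) (A.1 1 1) (A.1 1 2) (A.1 2 0) (A.1 2 1) (A.1 2 2))

theorem tglP_spec (A : GL (Fin 3) (ZMod 2)) : inM24 (tglP A) = true ∧ permOf (tglP A) ∈ KerP trT0 := by
  have h := tgl_mem _ _ _ _ _ _ _ _ _ (gl3_det_ne A)
  rw [force_eq, Bool.and_eq_true] at h
  exact ⟨h.1, trFixO_spec h.1 h.2⟩

noncomputable def tglFun (A : GL (Fin 3) (ZMod 2)) : ↥(StabP trT0) :=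
  ⟨permOf (tglP A), KerP_le _ (tglP_spec A).2⟩

theorem tglFun_mul (A B : GL (Fin 3) (ZMod 2)) : tglFun (A * B) = tglFun A * tglFun B := by
  apply Subtype.ext
  show permOf (tglP (A * B)) = permOf (tglP A) * permOf (tglP B)
  apply mulChk_spec (isPerm_of_inM24 (tglP_spec _).1) (isPerm_of_inM24 (tglP_spec _).1)
    (isPerm_of_inM24 (tglP_spec _).1)
  have h := tgl_mul _ _ _ _ _ _ _ _ _ (gl3_det_ne A) _ _ _ _ _ _ _ _ _ (gl3_det_ne B)
  rw [force_eq, force_eq, force_eq] at h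
  have e : ∀ i j, (A * B).1 i j = A.1 i 0 * B.1 0 j + A.1 i 1 * B.1 1 j + A.1 i 2 * B.1 2 j := by
    intro i j
    rw [Units.val_mul, Matrix.mul_apply, Fin.sum_univ_three]
  unfold tglP
  rw [e, e, e, e, e, e, e, e, e]
  exact h

noncomputable def tglHom : GL (Fin 3) (ZMod 2) →* ↥(StabP trT0) := MonoidHom.mk' tglFun tglFun_mul

theorem tglHom_apply (A : GL (Fin 3) (ZMod 2)) : (tglHom A).1 = permOf (tglP A) := by
  unfold tglHom
  rw [MonoidHom.mk'_apply]
  rfl

theorem trStabChk_spec {P : ℕ} (h : trStabChk P = true) : inM24 P = true ∧ permOf P ∈ StabP trT0 := by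
  rw [trStabChk, Bool.and_eq_true, allBelow_iff] at h
  obtain ⟨h1, h2⟩ := h
  refine ⟨h1, permOf_mem_M24 h1, ?_⟩
  show permOf P • trT0 = trT0
  apply Finset.eq_of_subset_of_card_le
  · intro t ht
    obtain ⟨t', ht', rfl⟩ := Finset.mem_smul_finset.1 ht
    obtain ⟨l, hl, rfl⟩ := mem_objM.1 ht'
    obtain ⟨m, hm, e⟩ := (anyBelow_iff _ _).1 (h2 l hl)
    rw [smul_unmask (isPerm_of_inM24 h1), Nat.eq_of_beq_eq_true e]
    exact mem_objM.2 ⟨m, hm, rfl⟩
  · rw [Finset.card_smul_finset]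

/-- the packed permutation attached to a permutation of three letters -/
def tsP (σ : Equiv.Perm (Fin 3)) : ℕ := fldP trS3 (codeS σ)

theorem tsP_spec (σ : Equiv.Perm (Fin 3)) : inM24 (tsP σ) = true ∧ permOf (tsP σ) ∈ StabP trT0 :=
  trStabChk_spec (ts_mem σ)

noncomputable def tsFun (σ : Equiv.Perm (Fin 3)) : ↥(StabP trT0) := ⟨permOf (tsP σ), (tsP_spec σ).2⟩

theorem tsFun_mul (σ τ : Equiv.Perm (Fin 3)) : tsFun (σ * τ) = tsFun σ * tsFun τ := by
  apply Subtype.ext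
  show permOf (tsP (σ * τ)) = permOf (tsP σ) * permOf (tsP τ)
  exact mulChk_spec (isPerm_of_inM24 (tsP_spec _).1) (isPerm_of_inM24 (tsP_spec _).1)
    (isPerm_of_inM24 (tsP_spec _).1) (ts_mul σ τ)

noncomputable def tsHom : Equiv.Perm (Fin 3) →* ↥(StabP trT0) := MonoidHom.mk' tsFun tsFun_mul

theorem tsHom_apply (σ : Equiv.Perm (Fin 3)) : (tsHom σ).1 = permOf (tsP σ) := by
  unfold tsHom
  rw [MonoidHom.mk'_apply]
  rfl

theorem t_comm (A : GL (Fin 3) (ZMod 2)) (σ : Equiv.Perm (Fin 3)) : Commute (tglHom A) (tsHom σ) := by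
  apply Subtype.ext
  show (tglHom A).1 * (tsHom σ).1 = (tsHom σ).1 * (tglHom A).1
  rw [tglHom_apply, tsHom_apply]
  have h := tgl_comm _ _ _ _ _ _ _ _ _ (gl3_det_ne A) σ
  rw [force_eq, force_eq] at h
  exact commChk_spec (isPerm_of_inM24 (tglP_spec _).1) (isPerm_of_inM24 (tsP_spec _).1) h

/-- the complement -/
noncomputable def tHom : GL (Fin 3) (ZMod 2) × Equiv.Perm (Fin 3) →* ↥(StabP trT0) :=
  MonoidHom.noncommCoprod tglHom tsHom t_comm

theorem trFixO_of_mem {P : ℕ} (hP : isPerm P = true) (h : permOf P ∈ KerP trT0) : trFixO P = true := by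
  rw [trFixO, allBelow_iff]
  intro l hl
  have h1 := h.2 _ (mem_objM.2 ⟨l, hl, rfl⟩)
  rw [smul_unmask hP] at h1
  rw [unmask_inj (permMask_lt hP _) (fld24_lt _ _) h1]
  exact Nat.beq_refl _

theorem tHom_mem {x : GL (Fin 3) (ZMod 2) × Equiv.Perm (Fin 3)} (h : (tHom x).1 ∈ trioN trT0) : x = 1 := by
  obtain ⟨A, σ⟩ := x
  have e : (tHom (A, σ)).1 = permOf (tglP A) * permOf (tsP σ) := by
    unfold tHom
    rw [MonoidHom.noncommCoprod_apply, Subgroup.coe_mul, tglHom_apply, tsHom_apply]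
  rw [e] at h
  have h1 : permOf (tsP σ) ∈ KerP trT0 := by
    have := (KerP trT0).mul_mem ((KerP trT0).inv_mem (tglP_spec A).2) h.1
    rwa [inv_mul_cancel_left] at this
  have hσ : σ = 1 := ts_inj σ (trFixO_of_mem (isPerm_of_inM24 (tsP_spec σ).1) h1)
  subst hσ
  have h2 : permOf (tsP 1) = 1 := by
    rw [← tsHom_apply, map_one]; rfl
  rw [h2, mul_one] at h
  have h3 : trRef.all (fun k => sxFix (tglP A) k) = true := by
    rw [List.all_eq_true]
    intro k hk
    obtain ⟨ha, hb⟩ := trRef_refines hk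
    exact (sxFix_iff (tglP_spec A).1 (trRef_scan' k hk).1).2 (h.2 _ ha hb)
  have h4 := tgl_inj _ _ _ _ _ _ _ _ _ (gl3_det_ne A) (by rw [force_eq]; exact h3)
  obtain ⟨a, b, c, d, e, f, g, h, i⟩ := code9_one _ _ _ _ _ _ _ _ _ h4
  have hA : A = 1 := by
    apply Units.ext
    ext i j
    fin_cases i <;> fin_cases j <;> assumption
  rw [hA]
  rfl

theorem card_le_of_complement {G X : Type*} [Group G] [Group X] [Finite G] (N : Subgroup G)
    [N.Normal] (f : X →* G) (hf : ∀ x, f x ∈ N → x = 1) : Nat.card N * Nat.card X ≤ Nat.card G := by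
  have hinj : Function.Injective ((QuotientGroup.mk' N).comp f) := by
    rw [injective_iff_map_eq_one]
    intro x hx
    apply hf
    rwa [MonoidHom.comp_apply, QuotientGroup.mk'_apply, QuotientGroup.eq_one_iff] at hx
  have h1 := Subgroup.card_eq_card_quotient_mul_card_subgroup N
  have h2 := Nat.card_le_card_of_injective _ hinj
  rw [h1, mul_comm]
  exact Nat.mul_le_mul_right _ h2

theorem card_gl32 : Nat.card (GL (Fin 3) (ZMod 2)) = 168 := by
  have : Fact (Nat.Prime 2) := ⟨by norm_num⟩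
  rw [Matrix.card_GL_field, ZMod.card]
  simp [Fin.prod_univ_three]

theorem card_tX : Nat.card (GL (Fin 3) (ZMod 2) × Equiv.Perm (Fin 3)) = 1008 := by
  rw [Nat.card_prod, card_gl32, Nat.card_eq_fintype_card, Fintype.card_perm, Fintype.card_fin]
  rfl

theorem trN_normal : ((trioN trT0).subgroupOf (StabP trT0)).Normal := by
  refine ⟨fun h hh k => ?_⟩
  rw [Subgroup.mem_subgroupOf] at hh ⊢
  exact trioN_conj hh k.2

theorem card_trioN : Nat.card (trioN trT0) = 64 := by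
  have hn := trN_normal
  have : Finite ↥(StabP trT0) := Nat.finite_of_card_ne_zero (by rw [card_StabP_trT0]; norm_num)
  have h := card_le_of_complement ((trioN trT0).subgroupOf (StabP trT0)) tHom
    (fun x hx => tHom_mem (Subgroup.mem_subgroupOf.1 hx))
  rw [Nat.card_congr (Subgroup.subgroupOfEquivOfLe (trioN_le trT0)).toEquiv, card_tX, card_StabP_trT0] at h
  have h2 := le_card_trioN
  omega

theorem trioN_sq : ∀ g ∈ trioN trT0, g * g = 1 := by
  intro g hg
  obtain ⟨i, hi, rfl⟩ := enum_of_card trNf (fun _ hi => trNf_mem hi) trNf_inj card_trioN g hg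
  exact trNf_sq hi

theorem trT0_structure : ∃ (N : Subgroup ↥(StabP trT0)) (_ : N.Normal), Nat.card N = 64 ∧
    (∀ x ∈ N, x * x = 1) ∧
    Nonempty (↥(StabP trT0) ⧸ N ≃* GL (Fin 3) (ZMod 2) × Equiv.Perm (Fin 3)) := by
  have hn := trN_normal
  have hc : Nat.card ((trioN trT0).subgroupOf (StabP trT0)) = 64 := by
    rw [Nat.card_congr (Subgroup.subgroupOfEquivOfLe (trioN_le trT0)).toEquiv, card_trioN]
  refine ⟨(trioN trT0).subgroupOf (StabP trT0), hn, hc, ?_, ?_⟩
  · intro x hx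
    apply Subtype.ext
    exact trioN_sq _ (Subgroup.mem_subgroupOf.1 hx)
  · have : Finite ↥(StabP trT0) := Nat.finite_of_card_ne_zero (by rw [card_StabP_trT0]; norm_num)
    apply quotient_equiv_of_complement _ tHom
    · intro x hx
      exact tHom_mem (Subgroup.mem_subgroupOf.1 hx)
    · rw [card_StabP_trT0, hc, card_tX]

/-- transport of a normal elementary subgroup with prescribed quotient along an isomorphism -/
theorem structure_transport2 {G H X : Type*} [Group G] [Group H] [Group X] (E : G ≃* H) {n : ℕ}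
    (h : ∃ (N : Subgroup H) (_ : N.Normal), Nat.card N = n ∧ (∀ x ∈ N, x * x = 1) ∧ Nonempty (H ⧸ N ≃* X)) :
    ∃ (N : Subgroup G) (_ : N.Normal), Nat.card N = n ∧ (∀ x ∈ N, x * x = 1) ∧ Nonempty (G ⧸ N ≃* X) := by
  obtain ⟨N, hN, hc, hsq, ⟨F⟩⟩ := h
  have hn : (N.map E.symm.toMonoidHom).Normal := hN.map _ E.symm.surjective
  refine ⟨N.map E.symm.toMonoidHom, hn, ?_, ?_, ?_⟩
  · rw [← hc]
    exact Nat.card_congr (E.symm.subgroupMap N).symm.toEquiv
  · rintro _ ⟨y, hy, rfl⟩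
    rw [← map_mul, hsq y hy, map_one]
  · refine ⟨(QuotientGroup.congr _ N E ?_).trans F⟩
    ext x
    simp only [Subgroup.mem_map]
    constructor
    · rintro ⟨y, ⟨z, hz, rfl⟩, rfl⟩
      simpa using hz
    · intro hx
      exact ⟨E.symm x, ⟨x, hx, rfl⟩, by simp⟩

theorem trio_structure {T : Finset (Finset GolayPt)} (hT : T ∈ trios) :
    ∃ (N : Subgroup ↥(MulAction.stabilizer M24 T)) (_ : N.Normal), Nat.card N = 64 ∧
    (∀ x ∈ N, x * x = 1) ∧
    Nonempty (↥(MulAction.stabilizer M24 T) ⧸ N ≃* GL (Fin 3) (ZMod 2) × Equiv.Perm (Fin 3)) := by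
  obtain ⟨u, hu, huT⟩ := trio_to_base hT
  exact structure_transport2 (conjEquiv (StabP_le_M24 trT0) hu (stabP_key hu huT)) trT0_structure

end Cfsg.Agent.Lib.Helper34
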