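import Cfsg.Agent.Lib.Helper34.ESCent2
import Cfsg.Agent.Lib.Helper34.TrioStr

set_option autoImplicit false

/-! Groups of shape `2^{1+6} : GL(3,2)` presented by a Heisenberg law and a Levi complement. -/

namespace Cfsg.Agent.Lib.Helper34

open Cfsg Matrix

/-- vectors of length three over the field with two elements -/
abbrev V3 := Fin 3 → ZMod 2

theorem v3_add_self (c : V3) : c + c = 0 := by
  ext i; exact CharTwo.add_self_eq_zero _

/-- a Heisenberg group over the field with two elements together with a Levi complement -/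
structure HL {G : Type*} [Group G] (ρ : ZMod 2 → V3 → V3 → G) (φ : GL (Fin 3) (ZMod 2) →* G) : Prop where
  mul : ∀ t c b t' c' b', ρ t c b * ρ t' c' b' = ρ (t + t' + b ⬝ᵥ c') (c + c') (b + b')
  R1 : ∀ (B : GL (Fin 3) (ZMod 2)) t c, φ B * ρ t c 0 = ρ t (B.1 *ᵥ c) 0 * φ B
  R2 : ∀ (B : GL (Fin 3) (ZMod 2)) b, φ B * ρ 0 0 (b ᵥ* B.1) = ρ 0 0 b * φ B
  inj : ∀ t c b t' c' b', ρ t c b = ρ t' c' b' → t = t' ∧ c = c' ∧ b = b'

/-- a subgroup of the right order is the product of two disjoint subgroups -/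
theorem exists_mul_of_card {G : Type*} [Group G] (C Q K : Subgroup G) [Finite C] (hQ : Q ≤ C) (hK : K ≤ C)
    (disj : ∀ x ∈ Q, x ∈ K → x = 1) (hcard : Nat.card C = Nat.card Q * Nat.card K) {x : G} (hx : x ∈ C) :
    ∃ q ∈ Q, ∃ k ∈ K, x = q * k := by
  let f : ↥Q × ↥K → ↥C := fun p => ⟨p.1.1 * p.2.1, Subgroup.mul_mem _ (hQ p.1.2) (hK p.2.2)⟩
  have hinj : Function.Injective f := by
    rintro ⟨q, k⟩ ⟨q', k'⟩ hf
    have h1 : q.1 * k.1 = q'.1 * k'.1 := congrArg Subtype.val hf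
    have h2 : q'.1⁻¹ * q.1 = k'.1 * k.1⁻¹ := by
      calc q'.1⁻¹ * q.1 = q'.1⁻¹ * (q.1 * k.1) * k.1⁻¹ := by group
        _ = k'.1 * k.1⁻¹ := by rw [h1]; group
    have h3 := disj _ (Q.mul_mem (Q.inv_mem q'.2) q.2) (by rw [h2]; exact K.mul_mem k'.2 (K.inv_mem k.2))
    have h4 : q = q' := Subtype.ext (inv_mul_eq_one.1 h3).symm
    have h5 : k = k' := by
      rw [h3] at h2
      exact Subtype.ext (mul_inv_eq_one.1 h2.symm).symm
    rw [h4, h5]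
  have hbij := (Nat.bijective_iff_injective_and_card f).2 ⟨hinj, by rw [Nat.card_prod, hcard]⟩
  obtain ⟨⟨q, k⟩, hqk⟩ := hbij.2 ⟨x, hx⟩
  exact ⟨q.1, q.2, k.1, k.2, (congrArg Subtype.val hqk).symm⟩

namespace HL

variable {G : Type*} [Group G] {ρ : ZMod 2 → V3 → V3 → G} {φ : GL (Fin 3) (ZMod 2) →* G}

theorem one (h : HL ρ φ) : ρ 0 0 0 = 1 := by
  have := h.mul 0 0 0 0 0 0
  simpa using this

theorem inv (h : HL ρ φ) (t : ZMod 2) (c b : V3) : (ρ t c b)⁻¹ = ρ (t + b ⬝ᵥ c) c b := by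
  rw [inv_eq_iff_mul_eq_one, h.mul, ← h.one, v3_add_self, v3_add_self]
  have : t + (t + b ⬝ᵥ c) + b ⬝ᵥ c = (t + t) + (b ⬝ᵥ c + b ⬝ᵥ c) := by ring
  rw [this, CharTwo.add_self_eq_zero, CharTwo.add_self_eq_zero, add_zero]

theorem split (h : HL ρ φ) (t : ZMod 2) (c b : V3) : ρ t c b = ρ t c 0 * ρ 0 0 b := by
  rw [h.mul]; simp

/-- the Heisenberg group -/
def Q (h : HL ρ φ) : Subgroup G where
  carrier := {g | ∃ t c b, g = ρ t c b}
  one_mem' := ⟨0, 0, 0, h.one.symm⟩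
  mul_mem' := by
    rintro _ _ ⟨t, c, b, rfl⟩ ⟨t', c', b', rfl⟩
    exact ⟨_, _, _, h.mul _ _ _ _ _ _⟩
  inv_mem' := by
    rintro _ ⟨t, c, b, rfl⟩
    exact ⟨_, _, _, h.inv _ _ _⟩

/-- an elementary abelian subgroup of order 16 -/
def E (h : HL ρ φ) : Subgroup G where
  carrier := {g | ∃ t c, g = ρ t c 0}
  one_mem' := ⟨0, 0, h.one.symm⟩
  mul_mem' := by
    rintro _ _ ⟨t, c, rfl⟩ ⟨t', c', rfl⟩
    exact ⟨_, _, by rw [h.mul, add_zero]⟩
  inv_mem' := by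
    rintro _ ⟨t, c, rfl⟩
    exact ⟨_, _, h.inv _ _ _⟩

theorem mem_Q (h : HL ρ φ) {g : G} : g ∈ h.Q ↔ ∃ t c b, g = ρ t c b := Iff.rfl

theorem mem_E (h : HL ρ φ) {g : G} : g ∈ h.E ↔ ∃ t c, g = ρ t c 0 := Iff.rfl

theorem card_Q (h : HL ρ φ) : Nat.card h.Q = 128 := by
  have e : ZMod 2 × V3 × V3 ≃ ↥h.Q := Equiv.ofBijective
    (fun v => ⟨ρ v.1 v.2.1 v.2.2, ⟨_, _, _, rfl⟩⟩) ⟨by
      rintro ⟨t, c, b⟩ ⟨t', c', b'⟩ hab
      obtain ⟨h1, h2, h3⟩ := h.inj _ _ _ _ _ _ (congrArg Subtype.val hab)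
      simp only at h1 h2 h3
      rw [h1, h2, h3], by
      rintro ⟨g, t, c, b, rfl⟩
      exact ⟨⟨t, c, b⟩, rfl⟩⟩
  rw [← Nat.card_congr e, Nat.card_eq_fintype_card]
  simp [Fintype.card_prod, ZMod.card]

theorem card_E (h : HL ρ φ) : Nat.card h.E = 16 := by
  have e : ZMod 2 × V3 ≃ ↥h.E := Equiv.ofBijective
    (fun v => ⟨ρ v.1 v.2 0, ⟨_, _, rfl⟩⟩) ⟨by
      rintro ⟨t, c⟩ ⟨t', c'⟩ hab
      obtain ⟨h1, h2, -⟩ := h.inj _ _ _ _ _ _ (congrArg Subtype.val hab)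
      simp only at h1 h2
      rw [h1, h2], by
      rintro ⟨g, t, c, rfl⟩
      exact ⟨⟨t, c⟩, rfl⟩⟩
  rw [← Nat.card_congr e, Nat.card_eq_fintype_card]
  simp [Fintype.card_prod, ZMod.card]

theorem phi_triv (h : HL ρ φ) {B : GL (Fin 3) (ZMod 2)} (hB : ∀ c, ∃ t, φ B * ρ 0 c 0 = ρ t c 0 * φ B) :
    B = 1 := by
  have h1 : ∀ c, B.1 *ᵥ c = c := by
    intro c
    obtain ⟨t, ht⟩ := hB c
    rw [h.R1] at ht
    exact (h.inj _ _ _ _ _ _ (mul_right_cancel ht)).2.1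
  apply Units.ext
  ext i j
  have h2 := congrFun (h1 (Pi.single j 1)) i
  rw [Matrix.mulVec_single_one] at h2
  simpa [Matrix.one_apply, Pi.single_apply] using h2

theorem phi_disj (h : HL ρ φ) {B : GL (Fin 3) (ZMod 2)} {t : ZMod 2} {c b : V3} (hB : φ B = ρ t c b) :
    B = 1 := by
  apply h.phi_triv
  intro c'
  refine ⟨b ⬝ᵥ c', ?_⟩
  rw [hB, h.mul, h.mul]
  congr 1
  · simp; ring
  · rw [add_comm]
  · rw [add_comm]

theorem phi_inj (h : HL ρ φ) : Function.Injective φ := by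
  rw [injective_iff_map_eq_one]
  intro B hB
  exact h.phi_disj (hB.trans h.one.symm)

theorem card_K (h : HL ρ φ) : Nat.card φ.range = 168 := by
  rw [← Nat.card_congr (MonoidHom.ofInjective h.phi_inj).toEquiv, card_gl32]

theorem R2' (h : HL ρ φ) (B : GL (Fin 3) (ZMod 2)) (b : V3) :
    φ B * ρ 0 0 b = ρ 0 0 (b ᵥ* (B⁻¹ : GL (Fin 3) (ZMod 2)).1) * φ B := by
  rw [← h.R2, Matrix.vecMul_vecMul, ← Units.val_mul, inv_mul_cancel, Units.val_one, Matrix.vecMul_one]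

theorem conj (h : HL ρ φ) (B : GL (Fin 3) (ZMod 2)) (t : ZMod 2) (c b : V3) :
    φ B * ρ t c b = ρ t (B.1 *ᵥ c) (b ᵥ* (B⁻¹ : GL (Fin 3) (ZMod 2)).1) * φ B := by
  rw [h.split t c b, ← mul_assoc, h.R1, mul_assoc, h.R2', ← mul_assoc, ← h.split]

theorem comm_z (h : HL ρ φ) (t : ZMod 2) (c b : V3) : ρ t c b * ρ 1 0 0 = ρ 1 0 0 * ρ t c b := by
  rw [h.mul, h.mul]
  congr 1
  · simp; ring
  · simp
  · simp

theorem commutator (h : HL ρ φ) (t : ZMod 2) (c b : V3) (t' : ZMod 2) (c' b' : V3) :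
    ρ t c b * ρ t' c' b' * (ρ t c b)⁻¹ * (ρ t' c' b')⁻¹ = ρ (b ⬝ᵥ c' + b' ⬝ᵥ c) 0 0 := by
  rw [mul_inv_eq_iff_eq_mul, mul_inv_eq_iff_eq_mul, h.mul, h.mul, h.mul]
  congr 1
  · have e : b ⬝ᵥ c' + b' ⬝ᵥ c + t' + (0 : V3) ⬝ᵥ c' + t + (0 + b') ⬝ᵥ c =
      t + t' + b ⬝ᵥ c' + (b' ⬝ᵥ c + b' ⬝ᵥ c) := by simp; ring
    rw [e, CharTwo.add_self_eq_zero, add_zero]
  · simp [add_comm]
  · simp [add_comm]

theorem zmod2_cases (s : ZMod 2) : s = 0 ∨ s = 1 := by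
  revert s; decide

theorem center (h : HL ρ φ) {t : ZMod 2} {c b : V3}
    (hc : ∀ t' c' b', ρ t c b * ρ t' c' b' = ρ t' c' b' * ρ t c b) : c = 0 ∧ b = 0 := by
  have key : ∀ c' b' : V3, b ⬝ᵥ c' + b' ⬝ᵥ c = 0 := by
    intro c' b'
    have h1 := h.commutator t c b 0 c' b'
    rw [hc, mul_inv_cancel_right, mul_inv_cancel, ← h.one] at h1
    exact ((h.inj _ _ _ _ _ _ h1).1).symm
  constructor
  · ext i
    have := key 0 (Pi.single i 1)
    simpa using this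
  · ext i
    have := key (Pi.single i 1) 0
    simpa using this

/-- the abstract description of the involution centraliser -/
theorem esc (h : HL ρ φ) (hC : Nat.card (Subgroup.centralizer ({ρ 1 0 0} : Set G)) = 21504) :
    ESC (ρ 1 0 0) h.Q φ.range h.E := by
  have Kc : ∀ k ∈ φ.range, k * ρ 1 0 0 = ρ 1 0 0 * k := by
    rintro _ ⟨B, rfl⟩
    rw [h.R1, Matrix.mulVec_zero]
  have hdisj : ∀ x ∈ h.Q, x ∈ φ.range → x = 1 := by
    rintro _ ⟨t, c, b, rfl⟩ ⟨B, hB⟩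
    rw [← hB, h.phi_disj hB, map_one]
  have hfin : Finite ↥(Subgroup.centralizer ({ρ 1 0 0} : Set G)) :=
    Nat.finite_of_card_ne_zero (by rw [hC]; norm_num)
  refine
  { z_ne := fun e => by
      have := (h.inj _ _ _ _ _ _ (e.trans h.one.symm)).1
      exact absurd this (by decide)
    z_sq := by
      rw [h.mul, ← h.one]
      congr 1
    z_mem := ⟨_, _, _, rfl⟩
    Q_comm := by
      rintro _ ⟨t, c, b, rfl⟩
      exact h.comm_z t c b
    K_comm := Kc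
    cardQ := h.card_Q
    cardK := h.card_K
    cardC := hC
    disj := hdisj
    norm := by
      rintro _ ⟨B, rfl⟩ _ ⟨t, c, b, rfl⟩
      rw [h.conj, mul_inv_cancel_right]
      exact ⟨_, _, _, rfl⟩
    comm := by
      rintro _ ⟨t, c, b, rfl⟩ _ ⟨t', c', b', rfl⟩
      rw [h.commutator]
      rcases zmod2_cases (b ⬝ᵥ c' + b' ⬝ᵥ c) with e | e
      · left; rw [e, h.one]
      · right; rw [e]
    cent := by
      intro x hx
      have hxz : x ∈ Subgroup.centralizer ({ρ 1 0 0} : Set G) :=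
        Subgroup.mem_centralizer_singleton_iff.2 (hx _ ⟨_, _, _, rfl⟩)
      obtain ⟨_, ⟨t, c, b, rfl⟩, _, ⟨B, rfl⟩, rfl⟩ := exists_mul_of_card _ h.Q φ.range
        (fun q hq => by
          obtain ⟨t, c, b, rfl⟩ := hq
          exact Subgroup.mem_centralizer_singleton_iff.2 (h.comm_z t c b))
        (fun k hk => Subgroup.mem_centralizer_singleton_iff.2 (Kc k hk)) hdisj
        (by rw [hC, h.card_Q, h.card_K]) hxz
      have hB : B = 1 := by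
        apply h.phi_triv
        intro c'
        refine ⟨b ⬝ᵥ c', ?_⟩
        have h1 := hx (ρ 0 c' 0) ⟨_, _, _, rfl⟩
        have h2 : φ B * ρ 0 c' 0 = (ρ t c b)⁻¹ * ρ 0 c' 0 * ρ t c b * φ B := by
          rw [mul_assoc] at h1
          rw [mul_assoc ((ρ t c b)⁻¹ * ρ 0 c' 0), mul_assoc (ρ t c b)⁻¹, ← h1, inv_mul_cancel_left]
        rw [h2, h.inv, h.mul, h.mul]
        congr 2
        · have e : t + b ⬝ᵥ c + 0 + b ⬝ᵥ c' + t + (b + 0) ⬝ᵥ c = b ⬝ᵥ c' + (t + t) + (b ⬝ᵥ c + b ⬝ᵥ c) := by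
            simp; ring
          rw [e, CharTwo.add_self_eq_zero, CharTwo.add_self_eq_zero, add_zero, add_zero]
        · rw [add_comm c c', add_assoc, v3_add_self, add_zero]
        · rw [add_zero, v3_add_self]
      subst hB
      rw [map_one, mul_one] at hx ⊢
      obtain ⟨rfl, rfl⟩ := h.center (fun t' c' b' => hx _ ⟨_, _, _, rfl⟩)
      rcases zmod2_cases t with e | e
      · left; rw [e, h.one]
      · right; rw [e]
    E_le := by
      rintro _ ⟨t, c, rfl⟩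
      exact ⟨_, _, _, rfl⟩
    E_comm := by
      rintro _ ⟨t, c, rfl⟩ _ ⟨t', c', rfl⟩
      rw [h.mul, h.mul]
      congr 1
      · simp; ring
      · rw [add_comm]
    E_sq := by
      rintro _ ⟨t, c, rfl⟩
      rw [h.mul, ← h.one, v3_add_self]
      congr 1
      · simp [CharTwo.add_self_eq_zero]
    cardE := h.card_E
    sympl := ?_ }
  refine ⟨ρ 0 (Pi.single 0 1) 0, ⟨_, _, _, rfl⟩, ρ 0 0 (Pi.single 0 1), ⟨_, _, _, rfl⟩,
    ρ 0 (Pi.single 1 1) 0, ⟨_, _, _, rfl⟩, ρ 0 0 (Pi.single 1 1), ⟨_, _, _, rfl⟩,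
    ρ 0 (Pi.single 2 1) 0, ⟨_, _, _, rfl⟩, ρ 0 0 (Pi.single 2 1), ⟨_, _, _, rfl⟩, ?_, ?_, ?_, ?_, ?_, ?_,
    ?_, ?_, ?_, ?_, ?_, ?_⟩
  all_goals first
    | (rw [h.mul, ← h.one]; congr 1 <;> decide +kernel)
    | (rw [mul_inv_eq_iff_eq_mul, h.mul, h.mul, h.mul]; congr 1 <;> decide +kernel)
    | (rw [h.mul, h.mul]; congr 1 <;> decide +kernel)

end HL

end Cfsg.Agent.Lib.Helper34
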