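import Cfsg.Agent.Lib.Helper34.ES24GL
import Cfsg.Agent.Lib.Helper34.HeisLevi
import Cfsg.Agent.Lib.Helper34.OctStab

set_option autoImplicit false

/-! The centraliser of an involution of `M24` fixing an octad: the Heisenberg law and the complement. -/

namespace Cfsg.Agent.Lib.Helper34

open Cfsg Cfsg.Agent.Lib.Helper33 Matrix
open scoped Pointwise

/-- the packed permutation attached to an element of the Heisenberg group -/
def esRP (t : ZMod 2) (c b : V3) : ℕ := fldP esQ (code7 t (c 0) (c 1) (c 2) (b 0) (b 1) (b 2))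

theorem esRP_mem (t : ZMod 2) (c b : V3) : inM24 (esRP t c b) = true :=
  (allBelow_iff _ _).1 esQ_mem _ (es_code_lt _ _ _ _ _ _ _)

noncomputable def esRho (t : ZMod 2) (c b : V3) : ↥M24 :=
  ⟨permOf (esRP t c b), permOf_mem_M24 (esRP_mem t c b)⟩

theorem esRho_mul (t : ZMod 2) (c b : V3) (t' : ZMod 2) (c' b' : V3) :
    esRho t c b * esRho t' c' b' = esRho (t + t' + b ⬝ᵥ c') (c + c') (b + b') := by
  apply Subtype.ext
  show permOf (esRP t c b) * permOf (esRP t' c' b') = permOf (esRP (t + t' + b ⬝ᵥ c') (c + c') (b + b'))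
  symm
  apply mulChk_spec (isPerm_of_inM24 (esRP_mem _ _ _)) (isPerm_of_inM24 (esRP_mem _ _ _))
    (isPerm_of_inM24 (esRP_mem _ _ _))
  have h := es_mul t (c 0) (c 1) (c 2) (b 0) (b 1) (b 2) t' (c' 0) (c' 1) (c' 2) (b' 0) (b' 1) (b' 2)
  rw [force_eq, force_eq, force_eq] at h
  have e : b ⬝ᵥ c' = b 0 * c' 0 + b 1 * c' 1 + b 2 * c' 2 := by simp [dotProduct, Fin.sum_univ_three]
  unfold esRP
  rw [e]
  exact h

set_option synthInstance.maxSize 2000 in
set_option synthInstance.maxHeartbeats 2000000 in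
set_option maxRecDepth 1000000 in
theorem code7_inj : ∀ t c0 c1 c2 b0 b1 b2 t' c0' c1' c2' b0' b1' b2' : ZMod 2,
    code7 t c0 c1 c2 b0 b1 b2 = code7 t' c0' c1' c2' b0' b1' b2' →
    t = t' ∧ c0 = c0' ∧ c1 = c1' ∧ c2 = c2' ∧ b0 = b0' ∧ b1 = b1' ∧ b2 = b2' := by
  decide +kernel

theorem esQ_inj : ∀ i < 128, ∀ j < 128, permOf (fldP esQ i) = permOf (fldP esQ j) → i = j := by
  intro i hi j hj e
  have hp : ∀ k < 128, isPerm (fldP esQ k) = true := (allBelow_iff _ _).1 es_perm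
  have h1 := (allBelow_iff _ _).1 ((allBelow_iff _ _).1 es_inj i hi) j hj
  rw [Bool.or_eq_true] at h1
  rcases h1 with h1 | h1
  · exact Nat.eq_of_beq_eq_true h1
  · exfalso
    obtain ⟨p, hp', h2⟩ := (anyBelow_iff _ _).1 h1
    have h3 : idx (permOf (fldP esQ i) (pt p)) = idx (permOf (fldP esQ j) (pt p)) := by rw [e]
    rw [idx_permOf (hp i hi), idx_permOf (hp j hj), idx_pt hp'] at h3
    rw [h3, Nat.beq_refl] at h2
    exact absurd h2 (by decide)

theorem esRho_inj (t : ZMod 2) (c b : V3) (t' : ZMod 2) (c' b' : V3) (h : esRho t c b = esRho t' c' b') :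
    t = t' ∧ c = c' ∧ b = b' := by
  have h1 := esQ_inj _ (es_code_lt _ _ _ _ _ _ _) _ (es_code_lt _ _ _ _ _ _ _) (congrArg Subtype.val h)
  obtain ⟨e0, e1, e2, e3, e4, e5, e6⟩ := code7_inj _ _ _ _ _ _ _ _ _ _ _ _ _ _ h1
  refine ⟨e0, ?_, ?_⟩
  · ext i; fin_cases i <;> assumption
  · ext i; fin_cases i <;> assumption

/-- the packed permutation attached to a matrix -/
def egP (A : GL (Fin 3) (ZMod 2)) : ℕ :=
  fldP esGL (code9 (A.1 0 0) (A.1 0 1) (A.1 0 2) (A.1 1 0) (A.1 1 1) (A.1 1 2) (A.1 2 0) (A.1 2 1) (A.1 2 2))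

theorem egP_mem (A : GL (Fin 3) (ZMod 2)) : inM24 (egP A) = true := by
  have h := eg_mem _ _ _ _ _ _ _ _ _ (gl3_det_ne A)
  rw [force_eq, Bool.and_eq_true] at h
  exact h.1

noncomputable def egFun (A : GL (Fin 3) (ZMod 2)) : ↥M24 := ⟨permOf (egP A), permOf_mem_M24 (egP_mem A)⟩

theorem egFun_mul (A B : GL (Fin 3) (ZMod 2)) : egFun (A * B) = egFun A * egFun B := by
  apply Subtype.ext
  show permOf (egP (A * B)) = permOf (egP A) * permOf (egP B)
  apply mulChk_spec (isPerm_of_inM24 (egP_mem _)) (isPerm_of_inM24 (egP_mem _))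
    (isPerm_of_inM24 (egP_mem _))
  have h := eg_mul _ _ _ _ _ _ _ _ _ (gl3_det_ne A) _ _ _ _ _ _ _ _ _ (gl3_det_ne B)
  rw [force_eq, force_eq, force_eq] at h
  have e : ∀ i j, (A * B).1 i j = A.1 i 0 * B.1 0 j + A.1 i 1 * B.1 1 j + A.1 i 2 * B.1 2 j := by
    intro i j
    rw [Units.val_mul, Matrix.mul_apply, Fin.sum_univ_three]
  unfold egP
  rw [e, e, e, e, e, e, e, e, e]
  exact h

noncomputable def esPhi : GL (Fin 3) (ZMod 2) →* ↥M24 := MonoidHom.mk' egFun egFun_mul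

theorem esPhi_apply (A : GL (Fin 3) (ZMod 2)) : (esPhi A).1 = permOf (egP A) := by
  unfold esPhi
  rw [MonoidHom.mk'_apply]
  rfl

theorem esPhi_R1 (B : GL (Fin 3) (ZMod 2)) (t : ZMod 2) (c : V3) :
    esPhi B * esRho t c 0 = esRho t (B.1 *ᵥ c) 0 * esPhi B := by
  apply Subtype.ext
  show (esPhi B).1 * permOf (esRP t c 0) = permOf (esRP t (B.1 *ᵥ c) 0) * (esPhi B).1
  rw [esPhi_apply]
  apply conjChk_spec (isPerm_of_inM24 (egP_mem _)) (isPerm_of_inM24 (esRP_mem _ _ _))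
    (isPerm_of_inM24 (esRP_mem _ _ _))
  have h := eg_R1 _ _ _ _ _ _ _ _ _ (gl3_det_ne B) t (c 0) (c 1) (c 2)
  rw [force_eq] at h
  have e : ∀ i, (B.1 *ᵥ c) i = B.1 i 0 * c 0 + B.1 i 1 * c 1 + B.1 i 2 * c 2 := by
    intro i
    simp [Matrix.mulVec, dotProduct, Fin.sum_univ_three]
  unfold esRP
  rw [e, e, e]
  exact h

theorem esPhi_R2 (B : GL (Fin 3) (ZMod 2)) (b : V3) :
    esPhi B * esRho 0 0 (b ᵥ* B.1) = esRho 0 0 b * esPhi B := by
  apply Subtype.ext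
  show (esPhi B).1 * permOf (esRP 0 0 (b ᵥ* B.1)) = permOf (esRP 0 0 b) * (esPhi B).1
  rw [esPhi_apply]
  apply conjChk_spec (isPerm_of_inM24 (egP_mem _)) (isPerm_of_inM24 (esRP_mem _ _ _))
    (isPerm_of_inM24 (esRP_mem _ _ _))
  have h := eg_R2 _ _ _ _ _ _ _ _ _ (gl3_det_ne B) (b 0) (b 1) (b 2)
  rw [force_eq] at h
  have e : ∀ j, (b ᵥ* B.1) j = b 0 * B.1 0 j + b 1 * B.1 1 j + b 2 * B.1 2 j := by
    intro j
    simp [Matrix.vecMul, dotProduct, Fin.sum_univ_three]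
  unfold esRP
  rw [e, e, e]
  exact h

theorem es_HL : HL esRho esPhi := ⟨esRho_mul, esPhi_R1, esPhi_R2, esRho_inj⟩

end Cfsg.Agent.Lib.Helper34
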