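import Cfsg.Agent.Lib.Helper34.ES24
import Cfsg.Agent.Lib.Helper6.SLGen
import Cfsg.Agent.Lib.Helper6.SLCard

set_option autoImplicit false

/-! The centraliser of an involution of `M24` fixing an octad: order, conjugacy and structure. -/

namespace Cfsg.Agent.Lib.Helper34

open Cfsg Cfsg.Agent.Lib.Helper33 Matrix
open scoped Pointwise

theorem pinv_apply_self {α : Type*} (f : Equiv.Perm α) (x : α) : f⁻¹ (f x) = x := f.symm_apply_apply x

theorem papply_inv_self {α : Type*} (f : Equiv.Perm α) (x : α) : f (f⁻¹ x) = x := f.apply_symm_apply x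

theorem esz_val : (esRho 1 0 0).1 = permOf esZ := by
  show permOf (fldP esQ (code7 1 0 0 0 0 0 0)) = permOf (fldP esQ 1)
  rw [show code7 1 0 0 0 0 0 0 = 1 from by decide]

theorem esZ_perm : isPerm esZ = true := (allBelow_iff _ _).1 es_perm 1 (by norm_num)

theorem O3_mem : unmask 0xf08320 ∈ octads :=
  (unmask_mem_octads_iff (by decide)).2 (by decide +kernel)

theorem esz_fix (p : GolayPt) : (esRho 1 0 0).1 p = p ↔ p ∈ unmask 0xf08320 := by
  rw [esz_val, mem_unmask]
  have h := (allBelow_iff _ _).1 esZ_fix _ (idx_lt p)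
  rw [beq_iff_eq] at h
  rw [← h]
  constructor
  · intro e
    have := congrArg idx e
    rw [idx_permOf esZ_perm] at this
    rw [this]
    exact Nat.beq_refl _
  · intro e
    apply idx_injective
    rw [idx_permOf esZ_perm]
    exact Nat.eq_of_beq_eq_true e

theorem cent_stab {c : Equiv.Perm GolayPt} (hc : c * (esRho 1 0 0).1 = (esRho 1 0 0).1 * c) :
    c • unmask 0xf08320 = unmask 0xf08320 := by
  apply smul_eq_of_mem_iff
  intro x
  rw [← esz_fix, ← esz_fix]
  have h1 : (esRho 1 0 0).1 (c x) = c ((esRho 1 0 0).1 x) := by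
    have := congrArg (fun f : Equiv.Perm GolayPt => f x) hc
    simpa [Equiv.Perm.mul_apply] using this.symm
  rw [h1]
  exact c.injective.eq_iff

theorem esH_spec {y : ℕ} (hy : y < 24) (hb : Nat.testBit 0xf7cde y = true) :
    inM24 (fldP esH y) = true ∧ permOf (fldP esH y) • unmask 0xf08320 = unmask 0xf08320 ∧
    (esRho 1 0 0).1 (permOf (fldP esH y) (pt 0)) = permOf (fldP esH y) (pt y) := by
  have h := (allBelow_iff _ _).1 esH_ok y hy
  rw [hb, Bool.not_true, Bool.false_or, esHOK, force_eq, Bool.and_eq_true, Bool.and_eq_true] at h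
  obtain ⟨h1, h2, h3⟩ := h
  refine ⟨h1, ?_, ?_⟩
  · rw [smul_unmask (isPerm_of_inM24 h1), Nat.eq_of_beq_eq_true h2]
  · apply idx_injective
    rw [esz_val, idx_permOf esZ_perm, idx_permOf (isPerm_of_inM24 h1), idx_permOf (isPerm_of_inM24 h1),
      idx_pt (by norm_num), idx_pt hy]
    exact Nat.eq_of_beq_eq_true h3

theorem es_F {c : Equiv.Perm GolayPt} (hc : c * (esRho 1 0 0).1 = (esRho 1 0 0).1 * c) {y : ℕ} (hy : y < 24)
    (hb : Nat.testBit 0xf7cde y = true) :
    ((c * permOf (fldP esH y))⁻¹ * (esRho 1 0 0).1 * (c * permOf (fldP esH y))) (pt 0) = pt y := by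
  have e : (c * permOf (fldP esH y))⁻¹ * (esRho 1 0 0).1 * (c * permOf (fldP esH y)) =
      (permOf (fldP esH y))⁻¹ * (esRho 1 0 0).1 * permOf (fldP esH y) := by
    calc _ = (permOf (fldP esH y))⁻¹ * (c⁻¹ * ((esRho 1 0 0).1 * c)) * permOf (fldP esH y) := by group
      _ = (permOf (fldP esH y))⁻¹ * (c⁻¹ * (c * (esRho 1 0 0).1)) * permOf (fldP esH y) := by rw [hc]
      _ = _ := by group
  rw [e, Equiv.Perm.mul_apply, Equiv.Perm.mul_apply, (esH_spec hy hb).2.2, pinv_apply_self]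

theorem card_mul_le {G : Type*} [Group G] (C Q K : Subgroup G) [Finite C] (hQ : Q ≤ C) (hK : K ≤ C)
    (disj : ∀ x ∈ Q, x ∈ K → x = 1) : Nat.card Q * Nat.card K ≤ Nat.card C := by
  let f : ↥Q × ↥K → ↥C := fun p => ⟨p.1.1 * p.2.1, Subgroup.mul_mem _ (hQ p.1.2) (hK p.2.2)⟩
  have hinj : Function.Injective f := by
    rintro ⟨q, k⟩ ⟨q', k'⟩ hf
    have h1 : q.1 * k.1 = q'.1 * k'.1 := congrArg Subtype.val hf
    have h2 : q'.1⁻¹ * q.1 = k'.1 * k.1⁻¹ := by
      calc q'.1⁻¹ * q.1 = q'.1⁻¹ * (q.1 * k.1) * k.1⁻¹ := by group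
        _ = k'.1 * k.1⁻¹ := by rw [h1]; group
    have h3 := disj _ (Q.mul_mem (Q.inv_mem q'.2) q.2) (by rw [h2]; exact K.mul_mem k'.2 (K.inv_mem k.2))
    have h4 : q = q' := Subtype.ext (inv_mul_eq_one.1 h3).symm
    have h5 : k = k' := by
      rw [h3] at h2
      exact Subtype.ext (mul_inv_eq_one.1 h2.symm).symm
    rw [h4, h5]
  rw [← Nat.card_prod]
  exact Nat.card_le_card_of_injective f hinj

/-- the index set of the conjugating elements -/
def esY : Finset ℕ := (Finset.range 24).filter (fun y => Nat.testBit 0xf7cde y = true)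

theorem card_esY : esY.card = 15 := by decide

theorem es_cardC : Nat.card (Subgroup.centralizer ({esRho 1 0 0} : Set ↥M24)) = 21504 := by
  apply le_antisymm
  · have hcomm : ∀ c : ↥(Subgroup.centralizer ({esRho 1 0 0} : Set ↥M24)),
        c.1.1 * (esRho 1 0 0).1 = (esRho 1 0 0).1 * c.1.1 := fun c =>
      congrArg Subtype.val (Subgroup.mem_centralizer_singleton_iff.1 c.2)
    have hY : ∀ y : ↥esY, y.1 < 24 ∧ Nat.testBit 0xf7cde y.1 = true := fun y => by
      have := Finset.mem_filter.1 y.2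
      exact ⟨Finset.mem_range.1 this.1, this.2⟩
    let f : ↥esY × ↥(Subgroup.centralizer ({esRho 1 0 0} : Set ↥M24)) →
        ↥(M24 ⊓ MulAction.stabilizer (Equiv.Perm GolayPt) (unmask 0xf08320)) := fun p =>
      ⟨p.2.1.1 * permOf (fldP esH p.1.1),
        M24.mul_mem p.2.1.2 (permOf_mem_M24 (esH_spec (hY p.1).1 (hY p.1).2).1), by
          show _ ∈ MulAction.stabilizer (Equiv.Perm GolayPt) (unmask 0xf08320)
          rw [MulAction.mem_stabilizer_iff, mul_smul, (esH_spec (hY p.1).1 (hY p.1).2).2.1,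
            cent_stab (hcomm p.2)]⟩
    have hinj : Function.Injective f := by
      rintro ⟨y, c⟩ ⟨y', c'⟩ hf
      have h1 : c.1.1 * permOf (fldP esH y.1) = c'.1.1 * permOf (fldP esH y'.1) := congrArg Subtype.val hf
      have h2 := es_F (hcomm c) (hY y).1 (hY y).2
      rw [h1, es_F (hcomm c') (hY y').1 (hY y').2] at h2
      have h3 : y'.1 = y.1 := by
        have := congrArg idx h2
        rwa [idx_pt (hY y').1, idx_pt (hY y).1] at this
      have h4 : y = y' := Subtype.ext h3.symm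
      subst h4
      have h5 : c = c' := Subtype.ext (Subtype.ext (mul_right_cancel h1))
      rw [h5]
    have h := Nat.card_le_card_of_injective f hinj
    rw [Nat.card_prod, card_octStab O3_mem, Nat.card_eq_fintype_card, Fintype.card_coe, card_esY] at h
    omega
  · have h := card_mul_le (Subgroup.centralizer ({esRho 1 0 0} : Set ↥M24)) es_HL.Q esPhi.range
      (fun q hq => by
        obtain ⟨t, c, b, rfl⟩ := hq
        exact Subgroup.mem_centralizer_singleton_iff.2 (es_HL.comm_z t c b))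
      (fun k hk => by
        obtain ⟨B, rfl⟩ := hk
        apply Subgroup.mem_centralizer_singleton_iff.2
        rw [es_HL.R1, Matrix.mulVec_zero])
      (by
        rintro _ ⟨t, c, b, rfl⟩ ⟨B, hB⟩
        rw [← hB, es_HL.phi_disj hB, map_one])
    rwa [es_HL.card_Q, es_HL.card_K] at h

theorem es_ESC : ESC (esRho 1 0 0) es_HL.Q esPhi.range es_HL.E := es_HL.esc es_cardC

theorem esY_key : ∀ q : GolayPt, q ≠ pt 0 → q ∉ unmask 0xf08320 → Nat.testBit 0xf7cde (idx q) = true := by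
  decide

theorem conj_to_esz (z : ↥M24)
    (hfix : (Finset.univ.filter fun p : GolayPt => (z : Equiv.Perm GolayPt) p = p) ∈ octads) :
    ∃ w : ↥M24, w * z * w⁻¹ = esRho 1 0 0 := by
  obtain ⟨u1, hu1, e1⟩ := Cfsg.Agent.Lib.Helper9.oct_to_base hfix
  obtain ⟨u2, hu2, e2⟩ := Cfsg.Agent.Lib.Helper9.oct_to_base O3_mem
  set u : Equiv.Perm GolayPt := u2⁻¹ * u1 with hu_def
  have hu : u ∈ M24 := M24.mul_mem (M24.inv_mem hu2) hu1
  have hufix : u • (Finset.univ.filter fun p : GolayPt => (z : Equiv.Perm GolayPt) p = p) =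
      unmask 0xf08320 := by rw [hu_def, mul_smul, e1, ← e2, inv_smul_smul]
  set z' : Equiv.Perm GolayPt := u * z.1 * u⁻¹ with hz'
  have hz'M : z' ∈ M24 := M24.mul_mem (M24.mul_mem hu z.2) (M24.inv_mem hu)
  have hz'fix : ∀ p, z' p = p ↔ p ∈ unmask 0xf08320 := by
    intro p
    rw [← hufix, ← Finset.inv_smul_mem_iff, Finset.mem_filter, hz', Equiv.Perm.mul_apply,
      Equiv.Perm.mul_apply, Equiv.Perm.smul_def]
    constructor
    · intro e
      refine ⟨Finset.mem_univ _, ?_⟩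
      apply u.injective
      rw [e, papply_inv_self]
    · rintro ⟨-, e⟩
      rw [e, papply_inv_self]
  have hp0 : pt 0 ∉ unmask 0xf08320 := by decide
  have h1 : z' (pt 0) ≠ pt 0 := fun e => hp0 ((hz'fix _).1 e)
  have h2 : z' (pt 0) ∉ unmask 0xf08320 := fun hm => h1 (z'.injective ((hz'fix _).2 hm))
  have hy : idx (z' (pt 0)) < 24 := idx_lt _
  obtain ⟨hH, hHs, hHz⟩ := esH_spec hy (esY_key _ h1 h2)
  rw [pt_idx] at hHz
  set H := permOf (fldP esH (idx (z' (pt 0)))) with hH_def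
  have hHM : H ∈ M24 := permOf_mem_M24 hH
  refine ⟨⟨H * u, M24.mul_mem hHM hu⟩, Subtype.ext ?_⟩
  show H * u * z.1 * (H * u)⁻¹ = (esRho 1 0 0).1
  have e3 : H * u * z.1 * (H * u)⁻¹ = H * z' * H⁻¹ := by rw [hz']; group
  rw [e3]
  have ht : (esRho 1 0 0).1⁻¹ * (H * z' * H⁻¹) ∈
      M24 ⊓ fixingSubgroup (Equiv.Perm GolayPt) ((unmask 0xf08320 : Finset GolayPt) : Set GolayPt) := by
    refine ⟨M24.mul_mem (M24.inv_mem (esRho 1 0 0).2) (M24.mul_mem (M24.mul_mem hHM hz'M) (M24.inv_mem hHM)), ?_⟩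
    show _ ∈ fixingSubgroup (Equiv.Perm GolayPt) ((unmask 0xf08320 : Finset GolayPt) : Set GolayPt)
    rw [mem_fixingSubgroup_iff]
    intro x hx
    have hx' : x ∈ unmask 0xf08320 := hx
    have h3 : H⁻¹ x ∈ unmask 0xf08320 := by
      rw [← mem_iff_of_smul_eq hHs, papply_inv_self]
      exact hx'
    rw [Equiv.Perm.smul_def, Equiv.Perm.mul_apply, Equiv.Perm.mul_apply, Equiv.Perm.mul_apply,
      (hz'fix _).2 h3, papply_inv_self, Equiv.Perm.inv_eq_iff_eq, (esz_fix x).2 hx']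
  have hp : H (pt 0) ∉ unmask 0xf08320 := by
    rw [mem_iff_of_smul_eq hHs]
    exact hp0
  have h4 := octT_free O3_mem hp ht (by
    rw [Equiv.Perm.mul_apply, Equiv.Perm.mul_apply, Equiv.Perm.mul_apply, pinv_apply_self,
      Equiv.Perm.inv_eq_iff_eq, hHz])
  exact (inv_mul_eq_one.1 h4).symm

/-- over the field with two elements the special and the general linear groups coincide -/
noncomputable def sl32_equiv : Matrix.SpecialLinearGroup (Fin 3) (ZMod 2) ≃* GL (Fin 3) (ZMod 2) :=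
  MulEquiv.ofBijective Matrix.SpecialLinearGroup.toGL ⟨Matrix.SpecialLinearGroup.toGL_injective, by
    intro A
    have h : IsUnit A.1 := A.isUnit
    rw [Matrix.isUnit_iff_isUnit_det] at h
    have h1 : A.1.det = 1 := by
      rcases HL.zmod2_cases A.1.det with e | e
      · exact absurd e h.ne_zero
      · exact e
    exact ⟨⟨A.1, h1⟩, Units.ext rfl⟩⟩

theorem simple_SL32 : IsSimpleGroup (Matrix.SpecialLinearGroup (Fin 3) (ZMod 2)) := by
  have : Fact (Nat.Prime 2) := ⟨by norm_num⟩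
  have hc : Subgroup.center (Matrix.SpecialLinearGroup (Fin 3) (ZMod 2)) = ⊥ := by
    apply Subgroup.eq_bot_of_card_eq
    rw [Cfsg.Agent.Lib.Helper6.card_center_SL_field (F := ZMod 2) 3 (by norm_num), ZMod.card]
    rfl
  have e2 : Matrix.ProjectiveSpecialLinearGroup (Fin 3) (ZMod 2) ≃*
      Matrix.SpecialLinearGroup (Fin 3) (ZMod 2) ⧸ (⊥ : Subgroup (Matrix.SpecialLinearGroup (Fin 3) (ZMod 2))) :=
    QuotientGroup.quotientMulEquivOfEq hc
  have hs : IsSimpleGroup (Matrix.ProjectiveSpecialLinearGroup (Fin 3) (ZMod 2)) :=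
    Cfsg.Agent.Lib.Helper6.PSL_isSimpleGroup_of_three_le (by simp)
  exact (e2.trans QuotientGroup.quotientBot).symm.isSimpleGroup

theorem es24_main (z : ↥M24)
    (hfix : (Finset.univ.filter fun p : GolayPt => (z : Equiv.Perm GolayPt) p = p) ∈ octads)
    (Q : Subgroup ↥M24)
    (hQ : Q = (pCore 2 ↥(Subgroup.centralizer ({z} : Set ↥M24))).map
      (Subgroup.centralizer ({z} : Set ↥M24)).subtype) :
    IsExtraspecial 2 ↥Q ∧ Nat.card ↥Q = 2 ^ 7 ∧
    (∃ E : Subgroup ↥M24, E ≤ Q ∧ IsElementaryAbelian 2 E ∧ Nat.card ↥E = 2 ^ 4) ∧ IsLargeExtraspecial Q ∧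
    ∃ K : Subgroup ↥M24, K ≤ Subgroup.centralizer ({z} : Set ↥M24) ∧ Q ⊓ K = ⊥ ∧
      Q ⊔ K = Subgroup.centralizer ({z} : Set ↥M24) ∧
      Nonempty (↥K ≃* Matrix.SpecialLinearGroup (Fin 3) (ZMod 2)) := by
  obtain ⟨w, hw⟩ := conj_to_esz z hfix
  have h1 := es_ESC.map (MulAut.conj w⁻¹)
  have e : MulAut.conj w⁻¹ (esRho 1 0 0) = z := by
    rw [MulAut.conj_apply, ← hw]; group
  rw [e] at h1
  exact h1.main Cfsg.Agent.Lib.Helper9.card_M24 simple_SL32
    ⟨(((MulAut.conj w⁻¹).subgroupMap esPhi.range).symm.trans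
      (MonoidHom.ofInjective es_HL.phi_inj).symm).trans sl32_equiv.symm⟩ Q hQ

end Cfsg.Agent.Lib.Helper34
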