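import Cfsg.Agent.Lib.Helper34.QuartetStr

set_option autoImplicit false

/-! Structure of the stabiliser of the base quartet, second part: the complement `GL(2,3)`. -/

namespace Cfsg.Agent.Lib.Helper34

open Cfsg Cfsg.Agent.Lib.Helper33
open Cfsg.Agent.Lib.Helper9 (D0 H12 fixL mem_fixL H12_mem_iff)
open scoped Pointwise

set_option maxRecDepth 1000000 in
theorem qgl_mem : ∀ a b c d : ZMod 3, a * d - b * c ≠ 0 →
    (inHQ [5] (fldP qGL (code4 a b c d))) = true := by
  decide +kernel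

set_option maxRecDepth 1000000 in
theorem qgl_mul : ∀ a b c d e f g h : ZMod 3, a * d - b * c ≠ 0 → e * h - f * g ≠ 0 →
    mulChk (fldP qGL (code4 (a * e + b * g) (a * f + b * h) (c * e + d * g) (c * f + d * h)))
      (fldP qGL (code4 a b c d)) (fldP qGL (code4 e f g h)) = true := by
  decide +kernel

set_option maxRecDepth 1000000 in
theorem qgl_inj : ∀ a b c d : ZMod 3, a * d - b * c ≠ 0 →
    fld5 (fldP qGL (code4 a b c d)) 0 = 0 → fld5 (fldP qGL (code4 a b c d)) 1 = 1 →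
    fld5 (fldP qGL (code4 a b c d)) 3 = 3 → fld5 (fldP qGL (code4 a b c d)) 4 = 4 →
    a = 1 ∧ b = 0 ∧ c = 0 ∧ d = 1 := by
  decide +kernel

/-- the packed permutation attached to a matrix -/
def qglP (A : GL (Fin 2) (ZMod 3)) : ℕ := fldP qGL (code4 (A.1 0 0) (A.1 0 1) (A.1 1 0) (A.1 1 1))

theorem qglP_spec (A : GL (Fin 2) (ZMod 3)) : isPerm (qglP A) = true ∧ permOf (qglP A) ∈ fixL HQ0 [5] :=
  inHQ_spec (by decide) (qgl_mem _ _ _ _ (gl_det_ne A))

noncomputable def qglFun (A : GL (Fin 2) (ZMod 3)) : ↥HQ0 := ⟨permOf (qglP A), (qglP_spec A).2.1⟩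

theorem qglFun_mul (A B : GL (Fin 2) (ZMod 3)) : qglFun (A * B) = qglFun A * qglFun B := by
  apply Subtype.ext
  show permOf (qglP (A * B)) = permOf (qglP A) * permOf (qglP B)
  apply mulChk_spec (qglP_spec _).1 (qglP_spec _).1 (qglP_spec _).1
  have h := qgl_mul _ _ _ _ _ _ _ _ (gl_det_ne A) (gl_det_ne B)
  have e : ∀ i j, (A * B).1 i j = A.1 i 0 * B.1 0 j + A.1 i 1 * B.1 1 j := by
    intro i j
    rw [Units.val_mul, Matrix.mul_apply, Fin.sum_univ_two]
  unfold qglP
  rw [e, e, e, e]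
  exact h

noncomputable def qglHom : GL (Fin 2) (ZMod 3) →* ↥HQ0 := MonoidHom.mk' qglFun qglFun_mul

theorem qglHom_apply (A : GL (Fin 2) (ZMod 3)) : (qglHom A).1 = permOf (qglP A) := by
  unfold qglHom
  rw [MonoidHom.mk'_apply]
  rfl

theorem qglHom_mem_N9 {A : GL (Fin 2) (ZMod 3)} (h : (qglHom A).1 ∈ N9) : A = 1 := by
  obtain ⟨x, hx⟩ := h
  rw [qglHom_apply] at hx
  obtain ⟨hp, hm⟩ := qglP_spec A
  have h5 : qNHom x (pt 5) = pt 5 := by rw [hx]; exact hm.2 5 (by simp)
  rw [qNHom_fix5 h5, map_one] at hx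
  have hfix : ∀ i < 24, fld5 (qglP A) i = i := by
    intro i hi
    have := idx_permOf hp (pt i)
    rw [← hx, Equiv.Perm.one_apply, idx_pt hi] at this
    exact this.symm
  obtain ⟨a, b, c, d⟩ := qgl_inj _ _ _ _ (gl_det_ne A) (hfix 0 (by norm_num)) (hfix 1 (by norm_num))
    (hfix 3 (by norm_num)) (hfix 4 (by norm_num))
  apply Units.ext
  ext i j
  fin_cases i <;> fin_cases j
  · exact a
  · exact b
  · exact c
  · exact d

/-- a normal subgroup with a complement-like homomorphic image of the right order -/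
theorem quotient_equiv_of_complement {G X : Type*} [Group G] [Group X] [Finite G] (N : Subgroup G)
    [N.Normal] (f : X →* G) (hf : ∀ x, f x ∈ N → x = 1) (hc : Nat.card G = Nat.card N * Nat.card X) :
    Nonempty (G ⧸ N ≃* X) := by
  have hinj : Function.Injective ((QuotientGroup.mk' N).comp f) := by
    rw [injective_iff_map_eq_one]
    intro x hx
    apply hf
    rwa [MonoidHom.comp_apply, QuotientGroup.mk'_apply, QuotientGroup.eq_one_iff] at hx
  have hX : Finite X := Finite.of_injective _ hinj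
  have hcard : Nat.card X = Nat.card (G ⧸ N) := by
    have h1 := Subgroup.card_eq_card_quotient_mul_card_subgroup N
    rw [hc, mul_comm] at h1
    exact Nat.eq_of_mul_eq_mul_right Nat.card_pos h1
  exact ⟨(MulEquiv.ofBijective _ ((Nat.bijective_iff_injective_and_card _).2 ⟨hinj, hcard⟩)).symm⟩

theorem card_gl23 : Nat.card (GL (Fin 2) (ZMod 3)) = 48 := by
  have : Fact (Nat.Prime 3) := ⟨by norm_num⟩
  rw [Matrix.card_GL_field, ZMod.card]
  simp [Fin.prod_univ_two]

theorem HQ0_structure : ∃ (N : Subgroup ↥HQ0) (_ : N.Normal), Nat.card N = 9 ∧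
    Nonempty (↥HQ0 ⧸ N ≃* GL (Fin 2) (ZMod 3)) := by
  have hn : (N9.subgroupOf HQ0).Normal := (Subgroup.normal_subgroupOf_iff_le_normalizer N9_le).2 HQ0_le_normalizer
  have hc : Nat.card (N9.subgroupOf HQ0) = 9 := by
    rw [Nat.card_congr (Subgroup.subgroupOfEquivOfLe N9_le).toEquiv, card_N9]
  refine ⟨N9.subgroupOf HQ0, hn, hc, ?_⟩
  have : Finite ↥HQ0 := Nat.finite_of_card_ne_zero (by rw [card_HQ0]; norm_num)
  apply quotient_equiv_of_complement (N9.subgroupOf HQ0) qglHom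
  · intro A hA
    exact qglHom_mem_N9 (Subgroup.mem_subgroupOf.1 hA)
  · rw [card_HQ0, hc, card_gl23]

/-- transport of a normal subgroup with prescribed quotient along an isomorphism -/
theorem structure_transport {G H X : Type*} [Group G] [Group H] [Group X] (E : G ≃* H) {n : ℕ}
    (h : ∃ (N : Subgroup H) (_ : N.Normal), Nat.card N = n ∧ Nonempty (H ⧸ N ≃* X)) :
    ∃ (N : Subgroup G) (_ : N.Normal), Nat.card N = n ∧ Nonempty (G ⧸ N ≃* X) := by
  obtain ⟨N, hN, hc, ⟨F⟩⟩ := h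
  have hn : (N.map E.symm.toMonoidHom).Normal := hN.map _ E.symm.surjective
  refine ⟨N.map E.symm.toMonoidHom, hn, ?_, ?_⟩
  · rw [← hc]
    exact Nat.card_congr (E.symm.subgroupMap N).symm.toEquiv
  · refine ⟨(QuotientGroup.congr _ N E ?_).trans F⟩
    ext x
    simp only [Subgroup.mem_map]
    constructor
    · rintro ⟨y, ⟨z, hz, rfl⟩, rfl⟩
      simpa using hz
    · intro hx
      exact ⟨E.symm x, ⟨x, hx, rfl⟩, by simp⟩

theorem HQ0_trans {x y : GolayPt} (hx : x ∈ unmask D0) (hy : y ∈ unmask D0) : ∃ t ∈ HQ0, t x = y := by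
  have := trans_of_transversal (K := HQ0) (b := 0) (D := D0) (by
    intro q hq hD
    obtain ⟨t, ht, h⟩ := transQ_T (by decide) (by decide) qT1_ok q hq hD
    exact ⟨t, ht.1, h⟩) hx hy
  exact this

end Cfsg.Agent.Lib.Helper34
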