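import Cfsg.Agent.Lib.Helper34.Halve
import Cfsg.Agent.Lib.Helper34.InvPattern
import Cfsg.Agent.Lib.Helper34.QuartetStr2
import Cfsg.Agent.Lib.Helper92.LargeES
import Cfsg.Agent.Lib.Helper92.ESSub

set_option autoImplicit false

/-! Involution centralisers of shape `2^{1+6} : L3(2)`, abstractly. -/

namespace Cfsg.Agent.Lib.Helper34

open Cfsg

/-- the data describing an involution centraliser `Q : K` with `Q` extraspecial of order `2^7` -/
structure ESC {G : Type*} [Group G] (z : G) (Q K E : Subgroup G) : Prop where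
  z_ne : z ≠ 1
  z_sq : z * z = 1
  z_mem : z ∈ Q
  Q_comm : ∀ q ∈ Q, q * z = z * q
  K_comm : ∀ k ∈ K, k * z = z * k
  cardQ : Nat.card Q = 128
  cardK : Nat.card K = 168
  cardC : Nat.card (Subgroup.centralizer ({z} : Set G)) = 21504
  disj : ∀ x ∈ Q, x ∈ K → x = 1
  norm : ∀ k ∈ K, ∀ q ∈ Q, k * q * k⁻¹ ∈ Q
  comm : ∀ a ∈ Q, ∀ b ∈ Q, a * b * a⁻¹ * b⁻¹ = 1 ∨ a * b * a⁻¹ * b⁻¹ = z
  cent : ∀ x : G, (∀ q ∈ Q, x * q = q * x) → x = 1 ∨ x = z
  E_le : E ≤ Q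
  E_comm : ∀ a ∈ E, ∀ b ∈ E, a * b = b * a
  E_sq : ∀ a ∈ E, a * a = 1
  cardE : Nat.card E = 16
  sympl : ∃ a1 ∈ Q, ∃ q1 ∈ Q, ∃ a2 ∈ Q, ∃ q2 ∈ Q, ∃ a3 ∈ Q, ∃ q3 ∈ Q,
    a1 * a1 = 1 ∧ a2 * a2 = 1 ∧ a3 * a3 = 1 ∧
    q1 * a1 * q1⁻¹ = a1 * z ∧ q2 * a2 * q2⁻¹ = a2 * z ∧ q3 * a3 * q3⁻¹ = a3 * z ∧
    a2 * a1 = a1 * a2 ∧ q2 * a1 = a1 * q2 ∧ a3 * a1 = a1 * a3 ∧ q3 * a1 = a1 * q3 ∧
    a3 * a2 = a2 * a3 ∧ q3 * a2 = a2 * q3

namespace ESC

variable {G : Type*} [Group G] {z : G} {Q K E : Subgroup G}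

theorem Q_le (h : ESC z Q K E) : Q ≤ Subgroup.centralizer ({z} : Set G) := fun q hq =>
  Subgroup.mem_centralizer_singleton_iff.2 (h.Q_comm q hq)

theorem K_le (h : ESC z Q K E) : K ≤ Subgroup.centralizer ({z} : Set G) := fun q hq =>
  Subgroup.mem_centralizer_singleton_iff.2 (h.K_comm q hq)

/-- every element of the centraliser is a product -/
theorem exists_mul (h : ESC z Q K E) {x : G} (hx : x * z = z * x) : ∃ q ∈ Q, ∃ k ∈ K, x = q * k := by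
  have hfin : Finite ↥(Subgroup.centralizer ({z} : Set G)) :=
    Nat.finite_of_card_ne_zero (by rw [h.cardC]; norm_num)
  let f : ↥Q × ↥K → ↥(Subgroup.centralizer ({z} : Set G)) := fun p =>
    ⟨p.1.1 * p.2.1, Subgroup.mul_mem _ (h.Q_le p.1.2) (h.K_le p.2.2)⟩
  have hinj : Function.Injective f := by
    rintro ⟨q, k⟩ ⟨q', k'⟩ hf
    have h1 : q.1 * k.1 = q'.1 * k'.1 := congrArg Subtype.val hf
    have h2 : q'.1⁻¹ * q.1 = k'.1 * k.1⁻¹ := by
      calc q'.1⁻¹ * q.1 = q'.1⁻¹ * (q.1 * k.1) * k.1⁻¹ := by group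
        _ = k'.1 * k.1⁻¹ := by rw [h1]; group
    have h3 := h.disj _ (Q.mul_mem (Q.inv_mem q'.2) q.2) (by rw [h2]; exact K.mul_mem k'.2 (K.inv_mem k.2))
    have h4 : q = q' := Subtype.ext (inv_mul_eq_one.1 h3).symm
    have h5 : k = k' := by
      rw [h3] at h2
      exact Subtype.ext (mul_inv_eq_one.1 h2.symm).symm
    rw [h4, h5]
  have hbij := (Nat.bijective_iff_injective_and_card f).2 ⟨hinj, by
    rw [Nat.card_prod, h.cardQ, h.cardK, h.cardC]⟩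
  obtain ⟨⟨q, k⟩, hqk⟩ := hbij.2 ⟨x, Subgroup.mem_centralizer_singleton_iff.2 hx⟩
  exact ⟨q.1, q.2, k.1, k.2, (congrArg Subtype.val hqk).symm⟩

theorem conj_mem (h : ESC z Q K E) {x : G} (hx : x * z = z * x) {r : G} (hr : r ∈ Q) : x * r * x⁻¹ ∈ Q := by
  obtain ⟨q, hq, k, hk, rfl⟩ := h.exists_mul hx
  have : q * k * r * (q * k)⁻¹ = q * (k * r * k⁻¹) * q⁻¹ := by group
  rw [this]
  exact Q.mul_mem (Q.mul_mem hq (h.norm k hk r hr)) (Q.inv_mem hq)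

theorem isPGroup (h : ESC z Q K E) : IsPGroup 2 Q := IsPGroup.of_card (n := 7) (by rw [h.cardQ]; norm_num)

theorem sup_eq (h : ESC z Q K E) : Q ⊔ K = Subgroup.centralizer ({z} : Set G) := by
  apply le_antisymm (sup_le h.Q_le h.K_le)
  intro x hx
  obtain ⟨q, hq, k, hk, rfl⟩ := h.exists_mul (Subgroup.mem_centralizer_singleton_iff.1 hx)
  exact Subgroup.mul_mem _ (Subgroup.mem_sup_left hq) (Subgroup.mem_sup_right hk)

theorem inf_eq (h : ESC z Q K E) : Q ⊓ K = ⊥ := by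
  rw [Subgroup.eq_bot_iff_forall]
  rintro x ⟨h1, h2⟩
  exact h.disj x h1 h2

theorem extraspecial [Finite G] (h : ESC z Q K E) : IsExtraspecial 2 ↥Q := by
  obtain ⟨a1, ha1, q1, hq1, _, _, _, _, _, _, _, _, _, _, _, e1, _⟩ := h.sympl
  apply Cfsg.Agent.Lib.Helper92.isExtraspecial_of_sub h.z_mem h.z_ne h.z_sq h.comm
    (fun a ha => h.Q_comm a ha)
    (fun c _ hc => h.cent c (fun q hq => (hc q hq).eq.symm)) ?_ h.isPGroup
  refine ⟨a1, ha1, ?_, ?_⟩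
  · rintro rfl
    rw [mul_one, mul_inv_cancel, one_mul] at e1
    exact h.z_ne e1.symm
  · rintro rfl
    have : q1 * a1 * q1⁻¹ = a1 := by rw [h.Q_comm q1 hq1]; group
    rw [this] at e1
    exact h.z_ne (by simpa using e1)

theorem mem_center_map (h : ESC z Q K E) {x : G} :
    x ∈ (Subgroup.center ↥Q).map Q.subtype ↔ x = 1 ∨ x = z := by
  constructor
  · rintro ⟨c, hc, rfl⟩
    apply h.cent
    intro q hq
    have := Subgroup.mem_center_iff.1 hc ⟨q, hq⟩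
    exact (congrArg Subtype.val this).symm
  · rintro (rfl | rfl)
    · exact Subgroup.one_mem _
    · refine ⟨⟨x, h.z_mem⟩, ?_, rfl⟩
      rw [SetLike.mem_coe, Subgroup.mem_center_iff]
      intro q
      exact Subtype.ext (h.Q_comm q.1 q.2)

theorem odd_trivial [Finite G] (h : ESC z Q K E) (hG : Nat.card G = 244823040) (O : Subgroup G)
    (hodd : Odd (Nat.card O)) (hQO : Q ≤ Subgroup.normalizer (O : Set G)) : O = ⊥ := by
  have hn : ∀ q ∈ Q, ∀ x ∈ O, q * x * q⁻¹ ∈ O := fun q hq x hx =>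
    (Subgroup.mem_normalizer_iff.1 (hQO hq) x).1 hx
  have hn' : ∀ q ∈ Q, ∀ x ∈ O, q⁻¹ * x * q ∈ O := fun q hq x hx => by
    have := hn q⁻¹ (Q.inv_mem hq) x hx
    rwa [inv_inv] at this
  have hzinv : z⁻¹ = z := inv_eq_of_mul_eq_one_left h.z_sq
  -- no fixed points of z
  have hfix : ∀ x ∈ O, z * x * z⁻¹ = x → x = 1 := by
    intro x hx hzx
    have hxz : x * z = z * x := by
      calc x * z = (z * x * z⁻¹) * z := by rw [hzx]
        _ = z * x := by group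
    have hc : ∀ q ∈ Q, x * q = q * x := by
      intro q hq
      have h1 : x * q * x⁻¹ * q⁻¹ ∈ Q := Q.mul_mem (h.conj_mem hxz hq) (Q.inv_mem hq)
      have h2 : x * q * x⁻¹ * q⁻¹ ∈ O := by
        have : x * q * x⁻¹ * q⁻¹ = x * (q * x⁻¹ * q⁻¹) := by group
        rw [this]
        exact O.mul_mem hx (hn q hq _ (O.inv_mem hx))
      have h3 := Cfsg.Agent.Lib.Helper92.eq_one_of_mem_odd_of_mem_two_group hodd h.isPGroup h2 h1
      calc x * q = (x * q * x⁻¹ * q⁻¹) * (q * x) := by group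
        _ = q * x := by rw [h3, one_mul]
    rcases h.cent x hc with h1 | h1
    · exact h1
    · exact Cfsg.Agent.Lib.Helper92.eq_one_of_mem_odd_of_mem_two_group hodd h.isPGroup hx (h1 ▸ h.z_mem)
  have hinv : ∀ x ∈ O, z * x * z⁻¹ = x⁻¹ :=
    Cfsg.Agent.Lib.Helper92.inverts_of_fixedPointFree h.z_sq (hn z h.z_mem) hfix
  obtain ⟨a1, ha1, q1, hq1, a2, ha2, q2, hq2, a3, ha3, q3, hq3, s1, s2, s3, c1, c2, c3,
    e21, f21, e31, f31, e32, f32⟩ := h.sympl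
  set O1 := O ⊓ Subgroup.centralizer ({a1} : Set G) with hO1
  set O2 := O1 ⊓ Subgroup.centralizer ({a2} : Set G) with hO2
  set O3 := O2 ⊓ Subgroup.centralizer ({a3} : Set G) with hO3
  have stab : ∀ (U : Subgroup G) (a g : G), g * a = a * g → (∀ x ∈ U, g * x * g⁻¹ ∈ U) →
      ∀ x ∈ U ⊓ Subgroup.centralizer ({a} : Set G), g * x * g⁻¹ ∈ U ⊓ Subgroup.centralizer ({a} : Set G) := by
    intro U a g hga hU x hx
    refine ⟨hU x hx.1, ?_⟩
    have hxa : x * a = a * x := Subgroup.mem_centralizer_singleton_iff.1 hx.2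
    have hga' : g⁻¹ * a = a * g⁻¹ := by
      calc g⁻¹ * a = g⁻¹ * (a * g) * g⁻¹ := by group
        _ = g⁻¹ * (g * a) * g⁻¹ := by rw [hga]
        _ = a * g⁻¹ := by group
    show g * x * g⁻¹ ∈ Subgroup.centralizer ({a} : Set G)
    rw [Subgroup.mem_centralizer_singleton_iff]
    calc g * x * g⁻¹ * a = g * x * (g⁻¹ * a) := by group
      _ = g * (x * a) * g⁻¹ := by rw [hga']; group
      _ = (g * a) * x * g⁻¹ := by rw [hxa]; group
      _ = a * (g * x * g⁻¹) := by rw [hga]; group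
  have inv_comm : ∀ {g a : G}, g * a = a * g → g⁻¹ * a = a * g⁻¹ := by
    intro g a hga
    calc g⁻¹ * a = g⁻¹ * (a * g) * g⁻¹ := by group
      _ = g⁻¹ * (g * a) * g⁻¹ := by rw [hga]
      _ = a * g⁻¹ := by group
  have conj' : ∀ (U : Subgroup G) (g : G), (∀ x ∈ U, g⁻¹ * x * g⁻¹⁻¹ ∈ U) → ∀ x ∈ U, g⁻¹ * x * g ∈ U := by
    intro U g hU x hx
    have := hU x hx
    rwa [inv_inv] at this
  have hodd1 : Odd (Nat.card O1) := Cfsg.Agent.Lib.Helper92.odd_card_of_le hodd inf_le_left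
  have hodd2 : Odd (Nat.card O2) := Cfsg.Agent.Lib.Helper92.odd_card_of_le hodd1 inf_le_left
  have hodd3 : Odd (Nat.card O3) := Cfsg.Agent.Lib.Helper92.odd_card_of_le hodd2 inf_le_left
  have k1 := card_halve O hodd hinv (hn a1 ha1) (hn q1 hq1) (hn' q1 hq1) s1 c1
  have k2 := card_halve O1 hodd1 (fun x hx => hinv x hx.1)
    (stab O a1 a2 e21 (hn a2 ha2)) (stab O a1 q2 f21 (hn q2 hq2))
    (conj' _ _ (stab O a1 q2⁻¹ (inv_comm f21) (hn q2⁻¹ (Q.inv_mem hq2)))) s2 c2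
  have k3 := card_halve O2 hodd2 (fun x hx => hinv x hx.1.1)
    (stab O1 a2 a3 e32 (stab O a1 a3 e31 (hn a3 ha3)))
    (stab O1 a2 q3 f32 (stab O a1 q3 f31 (hn q3 hq3)))
    (conj' _ _ (stab O1 a2 q3⁻¹ (inv_comm f32) (stab O a1 q3⁻¹ (inv_comm f31) (hn q3⁻¹ (Q.inv_mem hq3))))) s3 c3
  have hcard : Nat.card O = Nat.card O3 ^ 8 := by
    rw [k1, k2, k3]; ring
  have hdvd : Nat.card O3 ^ 8 ∣ 244823040 := by
    rw [← hcard, ← hG]; exact Subgroup.card_subgroup_dvd_card O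
  have hle : Nat.card O3 ≤ 11 := by
    by_contra hc
    have h12 : 12 ≤ Nat.card O3 := by omega
    have := Nat.le_of_dvd (by norm_num) hdvd
    have h2 : 12 ^ 8 ≤ Nat.card O3 ^ 8 := Nat.pow_le_pow_left h12 8
    norm_num at h2
    omega
  have hone : Nat.card O3 = 1 := by
    obtain ⟨m, hm⟩ := hodd3
    have hm5 : m ≤ 5 := by omega
    rw [hm] at hdvd
    interval_cases m
    · exact hm
    all_goals (exfalso; revert hdvd; decide)
  rw [hone, one_pow] at hcard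
  exact Subgroup.eq_bot_of_card_eq O hcard

end ESC

end Cfsg.Agent.Lib.Helper34
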