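import Cfsg.Agent.Lib.Helper34.ESCent

set_option autoImplicit false

/-! Involution centralisers of shape `2^{1+6} : L3(2)`, abstractly: the main consequences. -/

namespace Cfsg.Agent.Lib.Helper34

open Cfsg

namespace ESC

variable {G : Type*} [Group G] {z : G} {Q K E : Subgroup G}

theorem pCore_eq [Finite G] (h : ESC z Q K E) (hs : IsSimpleGroup ↥K) :
    (pCore 2 ↥(Subgroup.centralizer ({z} : Set G))).map (Subgroup.centralizer ({z} : Set G)).subtype = Q := by
  have : Fact (Nat.Prime 2) := ⟨Nat.prime_two⟩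
  set C := Subgroup.centralizer ({z} : Set G) with hC
  set QC := Q.subgroupOf C with hQC
  have hcardQC : Nat.card QC = 128 := by
    rw [← h.cardQ]; exact Nat.card_congr (Subgroup.subgroupOfEquivOfLe h.Q_le).toEquiv
  have hnorm : QC.Normal := by
    refine ⟨fun n hn g => ?_⟩
    rw [hQC, Subgroup.mem_subgroupOf] at hn ⊢
    exact h.conj_mem (Subgroup.mem_centralizer_singleton_iff.1 g.2) hn
  have hp : IsPGroup 2 QC := IsPGroup.of_card (n := 7) (by rw [hcardQC]; norm_num)
  obtain ⟨F⟩ := quotient_equiv_of_complement QC (Subgroup.inclusion h.K_le)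
    (by
      intro x hx
      rw [hQC, Subgroup.mem_subgroupOf] at hx
      exact Subtype.ext (h.disj x.1 hx x.2))
    (by rw [hcardQC, h.cardK, h.cardC])
  have hsq : IsSimpleGroup (↥C ⧸ QC) := F.isSimpleGroup
  have hcq : Nat.card (↥C ⧸ QC) = 168 := by rw [Nat.card_congr F.toEquiv, h.cardK]
  have key : pCore 2 ↥C = QC := by
    apply le_antisymm
    · apply sSup_le
      rintro N ⟨hN, hNp⟩
      have hmn : (N.map (QuotientGroup.mk' QC)).Normal := hN.map _ (QuotientGroup.mk'_surjective QC)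
      rcases hmn.eq_bot_or_eq_top with hb | ht
      · have := (Subgroup.map_eq_bot_iff N).1 hb
        rwa [QuotientGroup.ker_mk'] at this
      · exfalso
        have h1 : IsPGroup 2 (N.map (QuotientGroup.mk' QC)) := hNp.map _
        obtain ⟨n, hn⟩ := IsPGroup.iff_card.1 h1
        rw [ht, Subgroup.card_top, hcq] at hn
        have hn8 : n < 8 := by
          by_contra hc
          have : 2 ^ 8 ≤ 2 ^ n := Nat.pow_le_pow_right (by norm_num) (by omega)
          omega
        interval_cases n <;> omega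
    · exact le_sSup ⟨hnorm, hp⟩
  rw [key, hQC, Subgroup.subgroupOf_map_subtype]
  exact inf_eq_left.2 h.Q_le

theorem large [Finite G] (h : ESC z Q K E) (hG : Nat.card G = 244823040) : IsLargeExtraspecial Q := by
  refine ⟨h.extraspecial, ?_, ?_, fun O hO hQ => h.odd_trivial hG O hO hQ⟩
  · ext x
    rw [h.mem_center_map, Subgroup.mem_centralizer_iff]
    constructor
    · intro hx
      exact h.cent x (fun q hq => (hx q hq).symm)
    · rintro (rfl | rfl)
      · intro q _; simp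
      · intro q hq; exact h.Q_comm q hq
  · intro x hx
    have hxz : x * z = z * x :=
      ((Subgroup.mem_centralizer_iff.1 hx) z (h.mem_center_map.2 (Or.inr rfl))).symm
    have hxz' : x⁻¹ * z = z * x⁻¹ := by
      calc x⁻¹ * z = x⁻¹ * (z * x) * x⁻¹ := by group
        _ = x⁻¹ * (x * z) * x⁻¹ := by rw [hxz]
        _ = z * x⁻¹ := by group
    rw [Subgroup.mem_normalizer_iff]
    intro r
    constructor
    · exact fun hr => h.conj_mem hxz hr
    · intro hr
      have := h.conj_mem hxz' hr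
      have e : x⁻¹ * (x * r * x⁻¹) * x⁻¹⁻¹ = r := by group
      rwa [e] at this

theorem main [Finite G] (h : ESC z Q K E) (hG : Nat.card G = 244823040) {X : Type*} [Group X]
    (hs : IsSimpleGroup X) (hK : Nonempty (↥K ≃* X)) (Q' : Subgroup G)
    (hQ' : Q' = (pCore 2 ↥(Subgroup.centralizer ({z} : Set G))).map (Subgroup.centralizer ({z} : Set G)).subtype) :
    IsExtraspecial 2 ↥Q' ∧ Nat.card ↥Q' = 2 ^ 7 ∧
    (∃ E : Subgroup G, E ≤ Q' ∧ IsElementaryAbelian 2 E ∧ Nat.card ↥E = 2 ^ 4) ∧ IsLargeExtraspecial Q' ∧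
    ∃ K : Subgroup G, K ≤ Subgroup.centralizer ({z} : Set G) ∧ Q' ⊓ K = ⊥ ∧
      Q' ⊔ K = Subgroup.centralizer ({z} : Set G) ∧ Nonempty (↥K ≃* X) := by
  obtain ⟨F⟩ := hK
  have hsK : IsSimpleGroup ↥K := F.isSimpleGroup
  rw [h.pCore_eq hsK] at hQ'
  subst hQ'
  refine ⟨h.extraspecial, by rw [h.cardQ]; norm_num, ⟨E, h.E_le, ⟨⟨⟨fun a b => Subtype.ext (h.E_comm a.1 a.2 b.1 b.2)⟩⟩,
    fun a ha => by rw [pow_two]; exact h.E_sq a ha⟩, by rw [h.cardE]; norm_num⟩, h.large hG,
    ⟨K, h.K_le, h.inf_eq, h.sup_eq, ⟨F⟩⟩⟩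

/-- transport along an isomorphism -/
theorem map {G' : Type*} [Group G'] (h : ESC z Q K E) (e : G ≃* G') :
    ESC (e z) (Q.map e.toMonoidHom) (K.map e.toMonoidHom) (E.map e.toMonoidHom) := by
  have hcard : ∀ U : Subgroup G, Nat.card (U.map e.toMonoidHom) = Nat.card U := fun U =>
    (Nat.card_congr (e.subgroupMap U).toEquiv).symm
  obtain ⟨a1, ha1, q1, hq1, a2, ha2, q2, hq2, a3, ha3, q3, hq3, s1, s2, s3, c1, c2, c3,
    e21, f21, e31, f31, e32, f32⟩ := h.sympl
  have mm : ∀ {U : Subgroup G} {x : G}, x ∈ U → e x ∈ U.map e.toMonoidHom := fun hx => ⟨_, hx, rfl⟩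
  refine
  { z_ne := fun hz => h.z_ne (e.injective (by rw [hz, map_one]))
    z_sq := by rw [← map_mul, h.z_sq, map_one]
    z_mem := mm h.z_mem
    Q_comm := ?_
    K_comm := ?_
    cardQ := by rw [hcard, h.cardQ]
    cardK := by rw [hcard, h.cardK]
    cardC := by rw [← Nat.card_congr (centralizerEquiv e z).toEquiv, h.cardC]
    disj := ?_
    norm := ?_
    comm := ?_
    cent := ?_
    E_le := Subgroup.map_mono h.E_le
    E_comm := ?_
    E_sq := ?_
    cardE := by rw [hcard, h.cardE]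
    sympl := ⟨e a1, mm ha1, e q1, mm hq1, e a2, mm ha2, e q2, mm hq2, e a3, mm ha3, e q3, mm hq3,
      by rw [← map_mul, s1, map_one], by rw [← map_mul, s2, map_one], by rw [← map_mul, s3, map_one],
      by rw [← map_inv, ← map_mul, ← map_mul, c1, map_mul], by rw [← map_inv, ← map_mul, ← map_mul, c2, map_mul],
      by rw [← map_inv, ← map_mul, ← map_mul, c3, map_mul],
      by rw [← map_mul, e21, map_mul], by rw [← map_mul, f21, map_mul], by rw [← map_mul, e31, map_mul],
      by rw [← map_mul, f31, map_mul], by rw [← map_mul, e32, map_mul], by rw [← map_mul, f32, map_mul]⟩ }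
  · rintro _ ⟨q, hq, rfl⟩
    show e q * e z = e z * e q
    rw [← map_mul, h.Q_comm q hq, map_mul]
  · rintro _ ⟨q, hq, rfl⟩
    show e q * e z = e z * e q
    rw [← map_mul, h.K_comm q hq, map_mul]
  · rintro _ ⟨q, hq, rfl⟩ ⟨k, hk, hkq⟩
    have : k = q := e.injective hkq
    show e q = 1
    rw [h.disj q hq (this ▸ hk), map_one]
  · rintro _ ⟨k, hk, rfl⟩ _ ⟨q, hq, rfl⟩
    exact ⟨k * q * k⁻¹, h.norm k hk q hq, by simp⟩
  · rintro _ ⟨a, ha, rfl⟩ _ ⟨b, hb, rfl⟩
    show e a * e b * (e a)⁻¹ * (e b)⁻¹ = 1 ∨ e a * e b * (e a)⁻¹ * (e b)⁻¹ = e z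
    have e1 : e a * e b * (e a)⁻¹ * (e b)⁻¹ = e (a * b * a⁻¹ * b⁻¹) := by simp
    rw [e1]
    rcases h.comm a ha b hb with h1 | h1
    · left; rw [h1, map_one]
    · right; rw [h1]
  · intro x hx
    obtain ⟨x, rfl⟩ := e.surjective x
    have : ∀ q ∈ Q, x * q = q * x := by
      intro q hq
      apply e.injective
      rw [map_mul, map_mul]
      exact hx (e q) (mm hq)
    rcases h.cent x this with h1 | h1
    · left; rw [h1, map_one]
    · right; rw [h1]
  · rintro _ ⟨a, ha, rfl⟩ _ ⟨b, hb, rfl⟩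
    show e a * e b = e b * e a
    rw [← map_mul, h.E_comm a ha b hb, map_mul]
  · rintro _ ⟨a, ha, rfl⟩
    show e a * e a = 1
    rw [← map_mul, h.E_sq a ha, map_one]

end ESC

end Cfsg.Agent.Lib.Helper34
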