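import Mathlib

set_option autoImplicit false

/-! A concrete, kernel-computable field with four elements. -/

namespace Cfsg.Agent.Lib.Helper34

/-- the field with four elements `0, 1, ω, ω + 1` coded by `0, 1, 2, 3` -/
def F4c : Type := Fin 4

namespace F4c

instance instDecEq : DecidableEq F4c := inferInstanceAs (DecidableEq (Fin 4))
instance instFintype : Fintype F4c := inferInstanceAs (Fintype (Fin 4))

/-- the code of an element -/
def val (a : F4c) : ℕ := Fin.val a

/-- the element with a given code -/
def ofN (n : ℕ) : F4c := (⟨n % 4, Nat.mod_lt _ (by norm_num)⟩ : Fin 4)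

def add (a b : F4c) : F4c := ofN (Nat.xor (val a) (val b))

def mul (a b : F4c) : F4c := ofN (Nat.shiftRight 0x9c78e400 (2 * (4 * val a + val b)))

def inv (a : F4c) : F4c := ofN (Nat.shiftRight 0xB4 (2 * val a))

instance instZero : Zero F4c := ⟨ofN 0⟩
instance instOne : One F4c := ⟨ofN 1⟩
instance instAdd : Add F4c := ⟨add⟩
instance instMul : Mul F4c := ⟨mul⟩
instance instNeg : Neg F4c := ⟨id⟩
instance instInv : Inv F4c := ⟨inv⟩

instance instField : Field F4c where
  add_assoc := by decide
  zero_add := by decide
  add_zero := by decide
  nsmul := nsmulRec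
  zsmul := zsmulRec
  neg_add_cancel := by decide
  add_comm := by decide
  left_distrib := by decide
  right_distrib := by decide
  zero_mul := by decide
  mul_zero := by decide
  mul_assoc := by decide
  one_mul := by decide
  mul_one := by decide
  mul_comm := by decide
  exists_pair_ne := ⟨ofN 0, ofN 1, by decide⟩
  mul_inv_cancel := by decide
  inv_zero := by decide
  nnqsmul := _
  qsmul := _

theorem card : Fintype.card F4c = 4 := rfl

end F4c

end Cfsg.Agent.Lib.Helper34
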