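import Mathlib

set_option autoImplicit false

/-! Odd order groups inverted by an involution and acted on by a dihedral group of order 8. -/

namespace Cfsg.Agent.Lib.Helper34

theorem comm_of_inverted {G : Type*} [Group G] {O : Subgroup G} {z : G}
    (hinv : ∀ x ∈ O, z * x * z⁻¹ = x⁻¹) {x y : G} (hx : x ∈ O) (hy : y ∈ O) : x * y = y * x := by
  have h1 := hinv _ (O.mul_mem hx hy)
  have h2 : z * (x * y) * z⁻¹ = (z * x * z⁻¹) * (z * y * z⁻¹) := by group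
  rw [h2, hinv x hx, hinv y hy, mul_inv_rev] at h1
  have h3 := congrArg (fun t => t⁻¹) h1
  simpa using h3.symm

theorem card_halve {G : Type*} [Group G] (O : Subgroup G) [Finite O] (hodd : Odd (Nat.card O)) {z a q : G}
    (hinv : ∀ x ∈ O, z * x * z⁻¹ = x⁻¹)
    (ha : ∀ x ∈ O, a * x * a⁻¹ ∈ O) (hq : ∀ x ∈ O, q * x * q⁻¹ ∈ O) (hq' : ∀ x ∈ O, q⁻¹ * x * q ∈ O)
    (haa : a * a = 1) (hqa : q * a * q⁻¹ = a * z) :
    Nat.card O = Nat.card ↥(O ⊓ Subgroup.centralizer ({a} : Set G)) ^ 2 := by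
  have hcomm : ∀ x ∈ O, ∀ y ∈ O, x * y = y * x := fun x hx y hy => comm_of_inverted hinv hx hy
  have hainv : a⁻¹ = a := inv_eq_of_mul_eq_one_left haa
  let φ : ↥O →* ↥O :=
    { toFun := fun x => ⟨x.1 * (a * x.1 * a⁻¹), O.mul_mem x.2 (ha _ x.2)⟩
      map_one' := by apply Subtype.ext; simp
      map_mul' := fun x y => by
        apply Subtype.ext
        show x.1 * y.1 * (a * (x.1 * y.1) * a⁻¹) = x.1 * (a * x.1 * a⁻¹) * (y.1 * (a * y.1 * a⁻¹))
        have e1 : a * (x.1 * y.1) * a⁻¹ = (a * x.1 * a⁻¹) * (a * y.1 * a⁻¹) := by group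
        have e2 := hcomm _ y.2 _ (ha _ x.2)
        calc x.1 * y.1 * (a * (x.1 * y.1) * a⁻¹) = x.1 * (y.1 * (a * x.1 * a⁻¹)) * (a * y.1 * a⁻¹) := by
              rw [e1]; group
          _ = x.1 * (a * x.1 * a⁻¹) * (y.1 * (a * y.1 * a⁻¹)) := by rw [e2]; group }
  have hφ : ∀ x : ↥O, (φ x).1 = x.1 * (a * x.1 * a⁻¹) := fun _ => rfl
  have h1 := Subgroup.card_mul_index φ.ker
  rw [Subgroup.index_ker] at h1
  -- the range
  have hr : Nat.card φ.range = Nat.card ↥(O ⊓ Subgroup.centralizer ({a} : Set G)) := by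
    apply Nat.card_congr
    refine ⟨fun y => ⟨y.1.1, y.1.2, ?_⟩, fun g => ⟨⟨g.1, g.2.1⟩, ?_⟩, fun _ => rfl, fun _ => rfl⟩
    · obtain ⟨x, hx⟩ := y.2
      show y.1.1 ∈ Subgroup.centralizer ({a} : Set G)
      rw [Subgroup.mem_centralizer_singleton_iff, ← hx, hφ]
      have e2 := hcomm _ x.2 _ (ha _ x.2)
      calc x.1 * (a * x.1 * a⁻¹) * a = (a * x.1 * a⁻¹) * x.1 * a := by rw [e2]
        _ = a * (x.1 * (a⁻¹ * x.1 * a)) := by group
        _ = a * (x.1 * (a * x.1 * a⁻¹)) := by rw [hainv]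
    · obtain ⟨m, hm⟩ := hodd
      have hg : g.1 * a = a * g.1 := Subgroup.mem_centralizer_singleton_iff.1 g.2.2
      have hpow : g.1 ^ (2 * m + 1) = 1 := by
        have := pow_card_eq_one' (x := (⟨g.1, g.2.1⟩ : ↥O))
        rw [hm] at this
        exact congrArg Subtype.val this
      refine ⟨⟨g.1 ^ (m + 1), O.pow_mem g.2.1 _⟩, ?_⟩
      apply Subtype.ext
      rw [hφ]
      show g.1 ^ (m + 1) * (a * g.1 ^ (m + 1) * a⁻¹) = g.1
      have hc : a * g.1 ^ (m + 1) * a⁻¹ = g.1 ^ (m + 1) := by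
        have : Commute a g.1 := hg.symm
        rw [(this.pow_right (m + 1)).eq, mul_inv_cancel_right]
      rw [hc, ← pow_add]
      have : m + 1 + (m + 1) = (2 * m + 1) + 1 := by ring
      rw [this, pow_succ, hpow, one_mul]
  -- the kernel
  have hk : Nat.card φ.ker = Nat.card ↥(O ⊓ Subgroup.centralizer ({a} : Set G)) := by
    apply Nat.card_congr
    have ha' : a = q⁻¹ * (a * z) * q := by rw [← hqa]; group
    refine ⟨fun x => ⟨q⁻¹ * x.1.1 * q, hq' _ x.1.2, ?_⟩, fun y => ⟨⟨q * y.1 * q⁻¹, hq _ y.2.1⟩, ?_⟩, ?_, ?_⟩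
    · have hx : x.1.1 * (a * x.1.1 * a⁻¹) = 1 := by
        have := MonoidHom.mem_ker.1 x.2
        exact congrArg Subtype.val this
      have hx' : a * x.1.1 * a⁻¹ = x.1.1⁻¹ := (eq_inv_of_mul_eq_one_right hx)
      show q⁻¹ * x.1.1 * q ∈ Subgroup.centralizer ({a} : Set G)
      rw [Subgroup.mem_centralizer_singleton_iff]
      have key : a * (q⁻¹ * x.1.1 * q) * a⁻¹ = q⁻¹ * x.1.1 * q := by
        calc a * (q⁻¹ * x.1.1 * q) * a⁻¹
            = (q⁻¹ * (a * z) * q) * (q⁻¹ * x.1.1 * q) * (q⁻¹ * (a * z) * q)⁻¹ := by rw [← ha']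
          _ = q⁻¹ * (a * (z * x.1.1 * z⁻¹) * a⁻¹) * q := by group
          _ = q⁻¹ * (a * x.1.1 * a⁻¹)⁻¹ * q := by rw [hinv _ x.1.2]; group
          _ = q⁻¹ * x.1.1 * q := by rw [hx', inv_inv]
      calc q⁻¹ * x.1.1 * q * a = (a * (q⁻¹ * x.1.1 * q) * a⁻¹) * a := by rw [key]
        _ = a * (q⁻¹ * x.1.1 * q) := by group
    · rw [MonoidHom.mem_ker]
      apply Subtype.ext
      rw [hφ]
      show q * y.1 * q⁻¹ * (a * (q * y.1 * q⁻¹) * a⁻¹) = 1
      have hy : y.1 * a = a * y.1 := Subgroup.mem_centralizer_singleton_iff.1 y.2.2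
      have hxO := hq _ y.2.1
      have e1 : (a * z) * (q * y.1 * q⁻¹) * (a * z)⁻¹ = q * y.1 * q⁻¹ := by
        calc (a * z) * (q * y.1 * q⁻¹) * (a * z)⁻¹ = (q * a * q⁻¹) * (q * y.1 * q⁻¹) * (q * a * q⁻¹)⁻¹ := by
              rw [hqa]
          _ = q * (a * y.1) * a⁻¹ * q⁻¹ := by group
          _ = q * (y.1 * a) * a⁻¹ * q⁻¹ := by rw [hy]
          _ = q * y.1 * q⁻¹ := by group
      have e2 : (a * z) * (q * y.1 * q⁻¹) * (a * z)⁻¹ = a * (z * (q * y.1 * q⁻¹) * z⁻¹) * a⁻¹ := by group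
      rw [e2, hinv _ hxO] at e1
      have e3 : a * (q * y.1 * q⁻¹) * a⁻¹ = (a * (q * y.1 * q⁻¹)⁻¹ * a⁻¹)⁻¹ := by group
      rw [e3, e1, mul_inv_cancel]
    · intro x
      apply Subtype.ext; apply Subtype.ext
      show q * (q⁻¹ * x.1.1 * q) * q⁻¹ = x.1.1
      group
    · intro y
      apply Subtype.ext
      show q⁻¹ * (q * y.1 * q⁻¹) * q = y.1
      group
  rw [← h1, hr, hk, pow_two]

end Cfsg.Agent.Lib.Helper34
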