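import Cfsg.Agent.Lib.Helper34.HeisLevi

set_option autoImplicit false

/-! The centraliser of a transvection of `SL(5,2)` compared with a Heisenberg-Levi group. -/

namespace Cfsg.Agent.Lib.Helper34

open Cfsg Matrix

/-- five by five matrices over the field with two elements -/
abbrev M5 := Matrix (Fin 5) (Fin 5) (ZMod 2)

/-- the shape of the matrices commuting with the transvection -/
structure Pat0 (g : M5) : Prop where
  col : ∀ i, i ≠ 0 → g i 0 = 0
  row : ∀ j, j ≠ 1 → g 1 j = 0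
  diag : g 0 0 = g 1 1

theorem pat0_iff (g : M5) : g * transvection 0 1 1 = transvection 0 1 1 * g ↔ Pat0 g := by
  have h0 : g * transvection 0 1 1 = transvection 0 1 1 * g ↔ g * single 0 1 1 = single 0 1 1 * g := by
    rw [transvection, mul_add, add_mul, mul_one, one_mul]
    exact add_right_inj g
  rw [h0]
  constructor
  · intro h
    refine ⟨fun i hi => ?_, fun j hj => ?_, ?_⟩
    · have := congrFun (congrFun h i) 1
      rw [mul_single_apply_same, single_mul_apply_of_ne _ _ _ _ _ hi, mul_one] at this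
      exact this
    · have := congrFun (congrFun h 0) j
      rw [mul_single_apply_of_ne _ _ _ _ _ hj, single_mul_apply_same, one_mul] at this
      exact this.symm
    · have := congrFun (congrFun h 0) 1
      rw [mul_single_apply_same, single_mul_apply_same, mul_one, one_mul] at this
      exact this
  · intro h
    ext i j
    by_cases hi : i = 0
    · subst hi
      by_cases hj : j = 1
      · subst hj
        rw [mul_single_apply_same, single_mul_apply_same, mul_one, one_mul, h.diag]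
      · rw [mul_single_apply_of_ne _ _ _ _ _ hj, single_mul_apply_same, one_mul, h.row j hj]
    · by_cases hj : j = 1
      · subst hj
        rw [mul_single_apply_same, single_mul_apply_of_ne _ _ _ _ _ hi, mul_one, h.col i hi]
      · rw [mul_single_apply_of_ne _ _ _ _ _ hj, single_mul_apply_of_ne _ _ _ _ _ hi]

def pa (g : M5) : ZMod 2 := g 0 1
def pb (g : M5) : V3 := fun j => g 0 j.succ.succ
def pc (g : M5) : V3 := fun i => g i.succ.succ 1
def pB (g : M5) : Matrix (Fin 3) (Fin 3) (ZMod 2) := g.submatrix (fun i => i.succ.succ) (fun j => j.succ.succ)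

theorem sum5 (f : Fin 5 → ZMod 2) : ∑ k, f k = f 0 + f 1 + ∑ k : Fin 3, f k.succ.succ := by
  rw [Fin.sum_univ_succ, Fin.sum_univ_succ, add_assoc]
  rfl

theorem det_pat0 {g : M5} (h : Pat0 g) : g.det = g 0 0 * g 1 1 * (pB g).det := by
  rw [det_succ_column_zero, Finset.sum_eq_single 0]
  · rw [det_succ_row_zero, Finset.sum_eq_single 0]
    · simp only [Fin.val_zero, pow_zero, one_mul, Fin.succAbove_zero, submatrix_apply, submatrix_submatrix]
      rw [mul_assoc]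
      rfl
    · intro j _ hj
      have : (g.submatrix (Fin.succAbove 0) Fin.succ) 0 j = 0 := by
        rw [submatrix_apply]
        apply h.row
        intro e
        apply hj
        exact Fin.succ_injective _ e
      rw [this]
      simp
    · simp
  · intro i _ hi
    rw [h.col i hi]
    simp
  · simp

theorem zmod2_prod : ∀ x y z : ZMod 2, x * y * z = 1 → x = 1 ∧ y = 1 ∧ z = 1 := by decide

/-- the shape of the matrices of determinant one commuting with the transvection -/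
structure Pat (g : M5) : Prop where
  col : ∀ i, i ≠ 0 → g i 0 = 0
  row : ∀ j, j ≠ 1 → g 1 j = 0
  d0 : g 0 0 = 1
  d1 : g 1 1 = 1

theorem pat_of_comm {g : M5} (h : g * transvection 0 1 1 = transvection 0 1 1 * g) (hd : g.det = 1) :
    Pat g ∧ (pB g).det = 1 := by
  have h0 := (pat0_iff g).1 h
  rw [det_pat0 h0] at hd
  obtain ⟨h1, h2, h3⟩ := zmod2_prod _ _ _ hd
  exact ⟨⟨h0.col, h0.row, h1, h2⟩, h3⟩

theorem Pat.comm {g : M5} (h : Pat g) : g * transvection 0 1 1 = transvection 0 1 1 * g :=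
  (pat0_iff g).2 ⟨h.col, h.row, by rw [h.d0, h.d1]⟩

theorem Pat.det {g : M5} (h : Pat g) : g.det = (pB g).det := by
  rw [det_pat0 ⟨h.col, h.row, by rw [h.d0, h.d1]⟩, h.d0, h.d1, one_mul, one_mul]

theorem ss_ne_zero (i : Fin 3) : (i.succ.succ : Fin 5) ≠ 0 := Fin.succ_ne_zero _

theorem ss_ne_one (i : Fin 3) : (i.succ.succ : Fin 5) ≠ 1 := by
  revert i; decide

theorem pa_mul {g g' : M5} (h : Pat g) (h' : Pat g') : pa (g * g') = pa g + pa g' + pb g ⬝ᵥ pc g' := by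
  show (g * g') 0 1 = _
  rw [Matrix.mul_apply, sum5, h.d0, h'.d1, one_mul, mul_one, add_comm (g' 0 1)]
  rfl

theorem pb_mul {g g' : M5} (h : Pat g) (h' : Pat g') : pb (g * g') = pb g' + pb g ᵥ* pB g' := by
  ext j
  show (g * g') 0 j.succ.succ = _
  rw [Matrix.mul_apply, sum5, h.d0, h'.row _ (ss_ne_one j), one_mul, mul_zero, add_zero]
  rfl

theorem pc_mul {g g' : M5} (h : Pat g) (h' : Pat g') : pc (g * g') = pc g + pB g *ᵥ pc g' := by
  ext i
  show (g * g') i.succ.succ 1 = _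
  rw [Matrix.mul_apply, sum5, h.col _ (ss_ne_zero i), h'.d1, zero_mul, mul_one, zero_add]
  rfl

theorem pB_mul {g g' : M5} (h : Pat g) (h' : Pat g') : pB (g * g') = pB g * pB g' := by
  ext i j
  show (g * g') i.succ.succ j.succ.succ = _
  rw [Matrix.mul_apply, sum5, h.col _ (ss_ne_zero i), h'.row _ (ss_ne_one j), zero_mul, mul_zero, zero_add,
    zero_add, Matrix.mul_apply]
  rfl

/-- the matrix with given parameters -/
def mk5 (a : ZMod 2) (b c : V3) (B : Matrix (Fin 3) (Fin 3) (ZMod 2)) : M5 := fun i j =>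
  Fin.cases (Fin.cases 1 (Fin.cases a b) j)
    (Fin.cases (Fin.cases 0 (Fin.cases 1 (fun _ => 0)) j)
      (fun i' => Fin.cases 0 (Fin.cases (c i') (fun j' => B i' j')) j)) i

theorem mk5_pat (a : ZMod 2) (b c : V3) (B : Matrix (Fin 3) (Fin 3) (ZMod 2)) : Pat (mk5 a b c B) := by
  refine ⟨?_, ?_, rfl, rfl⟩
  · intro i hi
    fin_cases i
    · exact absurd rfl hi
    all_goals rfl
  · intro j hj
    fin_cases j
    · rfl
    · exact absurd rfl hj
    all_goals rfl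

theorem pa_mk5 (a : ZMod 2) (b c : V3) (B : Matrix (Fin 3) (Fin 3) (ZMod 2)) : pa (mk5 a b c B) = a := rfl
theorem pb_mk5 (a : ZMod 2) (b c : V3) (B : Matrix (Fin 3) (Fin 3) (ZMod 2)) : pb (mk5 a b c B) = b := rfl
theorem pc_mk5 (a : ZMod 2) (b c : V3) (B : Matrix (Fin 3) (Fin 3) (ZMod 2)) : pc (mk5 a b c B) = c := rfl
theorem pB_mk5 (a : ZMod 2) (b c : V3) (B : Matrix (Fin 3) (Fin 3) (ZMod 2)) : pB (mk5 a b c B) = B := rfl

theorem pat_ext {g : M5} (h : Pat g) (ha : pa g = 0) (hb : pb g = 0) (hc : pc g = 0) (hB : pB g = 1) : g = 1 := by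
  have hb' : ∀ j : Fin 3, g 0 j.succ.succ = 0 := fun j => congrFun hb j
  have hc' : ∀ i : Fin 3, g i.succ.succ 1 = 0 := fun i => congrFun hc i
  have hB' : ∀ i j : Fin 3, g i.succ.succ j.succ.succ = (1 : Matrix (Fin 3) (Fin 3) (ZMod 2)) i j :=
    fun i j => congrFun (congrFun hB i) j
  ext i j
  refine Fin.cases ?_ (fun i1 => Fin.cases ?_ (fun i2 => ?_) i1) i
  · refine Fin.cases ?_ (fun j1 => Fin.cases ?_ (fun j2 => ?_) j1) j
    · exact h.d0
    · exact ha
    · rw [hb', Matrix.one_apply_ne (ss_ne_zero j2).symm]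
  · refine Fin.cases ?_ (fun j1 => Fin.cases ?_ (fun j2 => ?_) j1) j
    · exact h.row 0 (by decide)
    · exact h.d1
    · have e : (Fin.succ (0 : Fin 4) : Fin 5) = 1 := rfl
      rw [e, h.row _ (ss_ne_one j2), Matrix.one_apply_ne (ss_ne_one j2).symm]
  · refine Fin.cases ?_ (fun j1 => Fin.cases ?_ (fun j2 => ?_) j1) j
    · rw [h.col _ (ss_ne_zero i2), Matrix.one_apply_ne (ss_ne_zero i2)]
    · have e : (Fin.succ (0 : Fin 4) : Fin 5) = 1 := rfl
      rw [e, hc', Matrix.one_apply_ne (ss_ne_one i2)]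
    · rw [hB', Matrix.one_apply, Matrix.one_apply]
      simp [Fin.succ_inj]

namespace HL

variable {G : Type*} [Group G] {ρ : ZMod 2 → V3 → V3 → G} {φ : GL (Fin 3) (ZMod 2) →* G}

theorem psi_mul (h : HL ρ φ) (a a' : ZMod 2) (b c b' c' : V3) (B B' : GL (Fin 3) (ZMod 2)) :
    (ρ a c 0 * φ B * ρ 0 0 b) * (ρ a' c' 0 * φ B' * ρ 0 0 b') =
      ρ (a + a' + b ⬝ᵥ c') (c + B.1 *ᵥ c') 0 * φ (B * B') * ρ 0 0 (b' + b ᵥ* B'.1) := by
  have e1 : ρ 0 0 b * ρ a' c' 0 = ρ (a' + b ⬝ᵥ c') c' 0 * ρ 0 0 b := by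
    rw [h.mul, h.mul]
    simp
  have e2 := h.R1 B (a' + b ⬝ᵥ c') c'
  have e3 := h.R2 B' b
  have e4 : ρ a c 0 * ρ (a' + b ⬝ᵥ c') (B.1 *ᵥ c') 0 = ρ (a + a' + b ⬝ᵥ c') (c + B.1 *ᵥ c') 0 := by
    rw [h.mul]
    simp [add_assoc]
  have e5 : ρ 0 0 (b ᵥ* B'.1) * ρ 0 0 b' = ρ 0 0 (b' + b ᵥ* B'.1) := by
    rw [h.mul]
    simp [add_comm]
  calc (ρ a c 0 * φ B * ρ 0 0 b) * (ρ a' c' 0 * φ B' * ρ 0 0 b')
      = ρ a c 0 * φ B * (ρ 0 0 b * ρ a' c' 0) * φ B' * ρ 0 0 b' := by simp only [mul_assoc]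
    _ = ρ a c 0 * (φ B * ρ (a' + b ⬝ᵥ c') c' 0) * (ρ 0 0 b * φ B') * ρ 0 0 b' := by
        rw [e1]; simp only [mul_assoc]
    _ = (ρ a c 0 * ρ (a' + b ⬝ᵥ c') (B.1 *ᵥ c') 0) * (φ B * φ B') * (ρ 0 0 (b ᵥ* B'.1) * ρ 0 0 b') := by
        rw [e2, ← e3]; simp only [mul_assoc]
    _ = _ := by rw [e4, e5, map_mul]

theorem psi_mem (h : HL ρ φ) (a : ZMod 2) (b c : V3) (B : GL (Fin 3) (ZMod 2)) :
    ρ a c 0 * φ B * ρ 0 0 b ∈ Subgroup.centralizer ({ρ 1 0 0} : Set G) := by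
  apply Subgroup.mul_mem _ (Subgroup.mul_mem _ _ _) _
  · exact Subgroup.mem_centralizer_singleton_iff.2 (h.comm_z _ _ _)
  · apply Subgroup.mem_centralizer_singleton_iff.2
    rw [h.R1, Matrix.mulVec_zero]
  · exact Subgroup.mem_centralizer_singleton_iff.2 (h.comm_z _ _ _)

theorem psi_one (h : HL ρ φ) {a : ZMod 2} {b c : V3} {B : GL (Fin 3) (ZMod 2)}
    (e : ρ a c 0 * φ B * ρ 0 0 b = 1) : a = 0 ∧ b = 0 ∧ c = 0 ∧ B = 1 := by
  have h1 : φ B = (ρ a c 0)⁻¹ * (ρ 0 0 b)⁻¹ := by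
    rw [eq_mul_inv_iff_mul_eq]
    exact eq_inv_of_mul_eq_one_right (by rw [← mul_assoc]; exact e)
  rw [h.inv, h.inv, h.mul] at h1
  have hB := h.phi_disj h1
  subst hB
  rw [map_one, mul_one, ← h.split, ← h.one] at e
  obtain ⟨e1, e2, e3⟩ := h.inj _ _ _ _ _ _ e
  exact ⟨e1, e3, e2, rfl⟩

theorem psi_surj (h : HL ρ φ) (hC : Nat.card (Subgroup.centralizer ({ρ 1 0 0} : Set G)) = 21504) {x : G}
    (hx : x ∈ Subgroup.centralizer ({ρ 1 0 0} : Set G)) :
    ∃ (a : ZMod 2) (b c : V3) (B : GL (Fin 3) (ZMod 2)), x = ρ a c 0 * φ B * ρ 0 0 b := by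
  obtain ⟨_, ⟨t, c, b, rfl⟩, _, ⟨B, rfl⟩, rfl⟩ :=
    (h.esc hC).exists_mul (Subgroup.mem_centralizer_singleton_iff.1 hx)
  refine ⟨t, b ᵥ* B.1, c, B, ?_⟩
  rw [mul_assoc, h.R2, ← mul_assoc, ← h.split]

/-- the comparison homomorphism -/
noncomputable def psiFun (h : HL ρ φ) (s : Matrix.SpecialLinearGroup (Fin 5) (ZMod 2))
    (hs : s.1 = Matrix.transvection 0 1 1)
    (x : ↥(Subgroup.centralizer ({s} : Set (Matrix.SpecialLinearGroup (Fin 5) (ZMod 2))))) :
    ↥(Subgroup.centralizer ({ρ 1 0 0} : Set G)) :=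
  ⟨ρ (pa x.1.1) (pc x.1.1) 0 * φ (Matrix.SpecialLinearGroup.toGL ⟨pB x.1.1, (pat_of_comm (by
      have := congrArg (fun m : Matrix.SpecialLinearGroup (Fin 5) (ZMod 2) => m.1)
        (Subgroup.mem_centralizer_singleton_iff.1 x.2)
      rw [← hs]
      exact this) x.1.2).2⟩) * ρ 0 0 (pb x.1.1), h.psi_mem _ _ _ _⟩

theorem iso_centralizer (h : HL ρ φ) (hC : Nat.card (Subgroup.centralizer ({ρ 1 0 0} : Set G)) = 21504)
    (s : Matrix.SpecialLinearGroup (Fin 5) (ZMod 2)) (hs : s.1 = Matrix.transvection 0 1 1) :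
    Nonempty (↥(Subgroup.centralizer ({ρ 1 0 0} : Set G)) ≃*
      ↥(Subgroup.centralizer ({s} : Set (Matrix.SpecialLinearGroup (Fin 5) (ZMod 2))))) := by
  have hpat : ∀ x : ↥(Subgroup.centralizer ({s} : Set (Matrix.SpecialLinearGroup (Fin 5) (ZMod 2)))),
      Pat x.1.1 := fun x => (pat_of_comm (by
      have := congrArg (fun m : Matrix.SpecialLinearGroup (Fin 5) (ZMod 2) => m.1)
        (Subgroup.mem_centralizer_singleton_iff.1 x.2)
      rw [← hs]
      exact this) x.1.2).1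
  have hmul : ∀ x y, h.psiFun s hs (x * y) = h.psiFun s hs x * h.psiFun s hs y := by
    intro x y
    apply Subtype.ext
    have e0 : (x * y).1.1 = x.1.1 * y.1.1 := rfl
    show _ = (ρ (pa x.1.1) (pc x.1.1) 0 * φ _ * ρ 0 0 (pb x.1.1)) * (ρ (pa y.1.1) (pc y.1.1) 0 * φ _ * ρ 0 0 (pb y.1.1))
    rw [h.psi_mul]
    show ρ (pa (x * y).1.1) (pc (x * y).1.1) 0 * φ _ * ρ 0 0 (pb (x * y).1.1) = _
    have e1 := pa_mul (hpat x) (hpat y)
    have e2 := pb_mul (hpat x) (hpat y)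
    have e3 := pc_mul (hpat x) (hpat y)
    have e4 := pB_mul (hpat x) (hpat y)
    congr 2
    · congr 1
    · congr 1
      apply Units.ext
      exact e4
  let Ψ : ↥(Subgroup.centralizer ({s} : Set (Matrix.SpecialLinearGroup (Fin 5) (ZMod 2)))) →*
      ↥(Subgroup.centralizer ({ρ 1 0 0} : Set G)) := MonoidHom.mk' (h.psiFun s hs) hmul
  have hinj : Function.Injective Ψ := by
    rw [injective_iff_map_eq_one]
    intro x hx
    have h1 : ρ (pa x.1.1) (pc x.1.1) 0 * φ _ * ρ 0 0 (pb x.1.1) = 1 := congrArg Subtype.val hx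
    obtain ⟨e1, e2, e3, e4⟩ := h.psi_one h1
    apply Subtype.ext
    apply Subtype.ext
    exact pat_ext (hpat x) e1 e2 e3 (congrArg Units.val e4)
  have hsurj : Function.Surjective Ψ := by
    rintro ⟨x, hx⟩
    obtain ⟨a, b, c, B, rfl⟩ := h.psi_surj hC hx
    have hdet : B.1.det = 1 := by
      have hu : IsUnit B.1 := B.isUnit
      rw [Matrix.isUnit_iff_isUnit_det] at hu
      rcases zmod2_cases B.1.det with e | e
      · exact absurd e hu.ne_zero
      · exact e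
    have hp := mk5_pat a b c B.1
    refine ⟨⟨⟨mk5 a b c B.1, by rw [hp.det, pB_mk5, hdet]⟩, ?_⟩, ?_⟩
    · apply Subgroup.mem_centralizer_singleton_iff.2
      apply Subtype.ext
      show mk5 a b c B.1 * s.1 = s.1 * mk5 a b c B.1
      rw [hs]
      exact hp.comm
    · apply Subtype.ext
      show ρ a c 0 * φ _ * ρ 0 0 b = _
      congr 3
      exact Units.ext rfl
  exact ⟨(MulEquiv.ofBijective Ψ ⟨hinj, hsurj⟩).symm⟩

end HL

end Cfsg.Agent.Lib.Helper34
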