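import Cfsg.Agent.Lib.Helper33.Bits
import Cfsg.Agent.Lib.Helper34.K9

set_option autoImplicit false

/-! Three by three matrices over the field with nine elements packed into natural numbers. -/

namespace Cfsg.Agent.Lib.Helper34

open Cfsg.Agent.Lib.Helper33

/-- the field element with a given code -/
def toK9 (c : ℕ) : K9 := ⟨((c % 3 : ℕ) : ZMod 3), ((c / 3 : ℕ) : ZMod 3)⟩

def cmul (a b : ℕ) : ℕ :=
  ((a % 3) * (b % 3) + 2 * ((a / 3) * (b / 3))) % 3 + 3 * (((a % 3) * (b / 3) + (a / 3) * (b % 3)) % 3)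

def cadd (a b : ℕ) : ℕ := ((a % 3) + (b % 3)) % 3 + 3 * (((a / 3) + (b / 3)) % 3)

def cneg (a : ℕ) : ℕ := (2 * (a % 3)) % 3 + 3 * ((2 * (a / 3)) % 3)

def cconj (a : ℕ) : ℕ := a % 3 + 3 * ((2 * (a / 3)) % 3)

theorem toK9_mk (r s : ℕ) : toK9 (r % 3 + 3 * s) = ⟨(r : ZMod 3), (s : ZMod 3)⟩ := by
  have h1 : (r % 3 + 3 * s) % 3 = r % 3 := by omega
  have h2 : (r % 3 + 3 * s) / 3 = s := by omega
  rw [toK9, h1, h2, ZMod.natCast_mod]

theorem k9_two : (2 : ZMod 3) = -1 := by decide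

theorem toK9_x (a : ℕ) : (toK9 a).x = ((a % 3 : ℕ) : ZMod 3) := rfl

theorem toK9_y (a : ℕ) : (toK9 a).y = ((a / 3 : ℕ) : ZMod 3) := rfl

theorem toK9_cmul (a b : ℕ) : toK9 (cmul a b) = toK9 a * toK9 b := by
  rw [cmul, toK9_mk, ZMod.natCast_mod]
  show _ = (⟨_, _⟩ : K9)
  congr 1
  · push_cast
    rw [k9_two, toK9_x, toK9_x, toK9_y, toK9_y]
    ring
  · push_cast
    rw [toK9_x, toK9_x, toK9_y, toK9_y]

theorem toK9_cadd (a b : ℕ) : toK9 (cadd a b) = toK9 a + toK9 b := by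
  rw [cadd, toK9_mk, ZMod.natCast_mod]
  show _ = (⟨_, _⟩ : K9)
  congr 1
  · push_cast
    rw [toK9_x, toK9_x]
  · push_cast
    rw [toK9_y, toK9_y]

theorem toK9_cneg (a : ℕ) : toK9 (cneg a) = -toK9 a := by
  rw [cneg, toK9_mk, ZMod.natCast_mod]
  show _ = (⟨_, _⟩ : K9)
  congr 1
  · push_cast
    rw [k9_two, toK9_x]
    ring
  · push_cast
    rw [k9_two, toK9_y]
    ring

theorem k9_cube : ∀ u : K9, u ^ 3 = ⟨u.x, -u.y⟩ := by decide

theorem toK9_cconj (a : ℕ) : toK9 (cconj a) = toK9 a ^ 3 := by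
  rw [cconj, toK9_mk, ZMod.natCast_mod, k9_cube]
  congr 1
  · rw [toK9_x, ZMod.natCast_mod]
  · push_cast
    rw [k9_two, toK9_y]
    ring

theorem toK9_zero : toK9 0 = 0 := rfl

theorem toK9_one : toK9 1 = 1 := rfl

/-- the entry of a packed matrix -/
def ent3 (A i j : ℕ) : ℕ := (A >>> (4 * (3 * i + j))) % 16

/-- the matrix described by a packed matrix -/
def toM9 (A : ℕ) : Matrix (Fin 3) (Fin 3) K9 := fun i j => toK9 (ent3 A i.1 j.1)

/-- kernel check of `A * B = C` -/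
noncomputable def mulChk9 (A B C : ℕ) : Bool :=
  allBelow (fun i => allBelow (fun j => Nat.beq (cadd (cadd (cmul (ent3 A i 0) (ent3 B 0 j))
    (cmul (ent3 A i 1) (ent3 B 1 j))) (cmul (ent3 A i 2) (ent3 B 2 j))) (ent3 C i j)) 3) 3

theorem mulChk9_spec {A B C : ℕ} (h : mulChk9 A B C = true) : toM9 A * toM9 B = toM9 C := by
  rw [mulChk9, allBelow_iff] at h
  ext i j
  have h1 := Nat.eq_of_beq_eq_true ((allBelow_iff _ _).1 (h i.1 i.2) j.1 j.2)
  have h2 := congrArg toK9 h1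
  rw [toK9_cadd, toK9_cadd, toK9_cmul, toK9_cmul, toK9_cmul] at h2
  rw [Matrix.mul_apply, Fin.sum_univ_three]
  exact h2

/-- kernel check of the unitarity of a matrix -/
noncomputable def gramChk9 (A : ℕ) : Bool :=
  allBelow (fun i => allBelow (fun j => Nat.beq (cadd (cadd (cmul (ent3 A 0 i) (cconj (ent3 A 0 j)))
    (cmul (ent3 A 1 i) (cconj (ent3 A 1 j)))) (cmul (ent3 A 2 i) (cconj (ent3 A 2 j))))
    (Bool.rec 0 1 (Nat.beq i j))) 3) 3

theorem gramChk9_spec {A : ℕ} (h : gramChk9 A = true) :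
    (toM9 A).transpose * (toM9 A).map (fun x => x ^ 3) = 1 := by
  rw [gramChk9, allBelow_iff] at h
  ext i j
  have h1 := Nat.eq_of_beq_eq_true ((allBelow_iff _ _).1 (h i.1 i.2) j.1 j.2)
  have h2 := congrArg toK9 h1
  rw [toK9_cadd, toK9_cadd, toK9_cmul, toK9_cmul, toK9_cmul, toK9_cconj, toK9_cconj, toK9_cconj] at h2
  rw [Matrix.mul_apply, Fin.sum_univ_three]
  refine Eq.trans h2 ?_
  by_cases hij : i = j
  · subst hij
    rw [Nat.beq_refl, Matrix.one_apply_eq]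
    rfl
  · have hne : Nat.beq i.1 j.1 = false := by
      rw [← Bool.not_eq_true]
      intro e
      exact hij (Fin.ext (Nat.eq_of_beq_eq_true e))
    rw [hne, Matrix.one_apply_ne hij]
    rfl

/-- the determinant of a packed matrix -/
def detCode (A : ℕ) : ℕ :=
  cadd (cadd (cadd (cadd (cadd (cmul (cmul (ent3 A 0 0) (ent3 A 1 1)) (ent3 A 2 2))
    (cneg (cmul (cmul (ent3 A 0 0) (ent3 A 1 2)) (ent3 A 2 1))))
    (cneg (cmul (cmul (ent3 A 0 1) (ent3 A 1 0)) (ent3 A 2 2))))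
    (cmul (cmul (ent3 A 0 1) (ent3 A 1 2)) (ent3 A 2 0)))
    (cmul (cmul (ent3 A 0 2) (ent3 A 1 0)) (ent3 A 2 1)))
    (cneg (cmul (cmul (ent3 A 0 2) (ent3 A 1 1)) (ent3 A 2 0)))

theorem detCode_spec {A : ℕ} (h : Nat.beq (detCode A) 1 = true) : (toM9 A).det = 1 := by
  have h2 := congrArg toK9 (Nat.eq_of_beq_eq_true h)
  rw [detCode] at h2
  simp only [toK9_cadd, toK9_cmul, toK9_cneg, toK9_one] at h2
  rw [Matrix.det_fin_three, ← h2]
  show toK9 (ent3 A 0 0) * toK9 (ent3 A 1 1) * toK9 (ent3 A 2 2) -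
    toK9 (ent3 A 0 0) * toK9 (ent3 A 1 2) * toK9 (ent3 A 2 1) -
    toK9 (ent3 A 0 1) * toK9 (ent3 A 1 0) * toK9 (ent3 A 2 2) +
    toK9 (ent3 A 0 1) * toK9 (ent3 A 1 2) * toK9 (ent3 A 2 0) +
    toK9 (ent3 A 0 2) * toK9 (ent3 A 1 0) * toK9 (ent3 A 2 1) -
    toK9 (ent3 A 0 2) * toK9 (ent3 A 1 1) * toK9 (ent3 A 2 0) = _
  ring

/-- kernel check of `A = 1` -/
noncomputable def oneChk9 (A : ℕ) : Bool :=
  allBelow (fun i => allBelow (fun j => Nat.beq (ent3 A i j) (Bool.rec 0 1 (Nat.beq i j))) 3) 3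

theorem toK9_inj : ∀ a < 9, ∀ b < 9, toK9 a = toK9 b → a = b := by decide

theorem oneChk9_of_eq {A : ℕ} (hA : ∀ i < 3, ∀ j < 3, ent3 A i j < 9) (h : toM9 A = 1) : oneChk9 A = true := by
  rw [oneChk9, allBelow_iff]
  intro i hi
  rw [allBelow_iff]
  intro j hj
  have h1 : toK9 (ent3 A i j) = (1 : Matrix (Fin 3) (Fin 3) K9) ⟨i, hi⟩ ⟨j, hj⟩ := by
    rw [← h]; rfl
  by_cases hij : i = j
  · subst hij
    rw [Matrix.one_apply_eq, ← toK9_one] at h1
    rw [Nat.beq_refl, toK9_inj _ (hA i hi i hi) 1 (by norm_num) h1]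
    rfl
  · have hne : Nat.beq i j = false := by
      rw [← Bool.not_eq_true]
      intro e
      exact hij (Nat.eq_of_beq_eq_true e)
    rw [Matrix.one_apply_ne (by intro e; exact hij (congrArg Fin.val e)), ← toK9_zero] at h1
    rw [hne, toK9_inj _ (hA i hi j hj) 0 (by norm_num) h1]
    rfl

end Cfsg.Agent.Lib.Helper34
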