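import Cfsg.Agent.Lib.Helper34.L27Data
import Cfsg.Agent.Lib.Helper50.SUCenter
import Cfsg.Agent.Lib.Helper6.SLGen
import Cfsg.Agent.Lib.Helper6.SLCard
import Cfsg.Agent.S0495

set_option autoImplicit false

/-! A subgroup of `PSU(3,3)` isomorphic to `PSL(2,7)`. -/

namespace Cfsg.Agent.Lib.Helper34

open Matrix Cfsg.Agent.Lib.Helper33 Cfsg.Agent.Lib.Helper50.Herm

theorem gl32_det_ne (A : GL (Fin 3) (ZMod 2)) :
    gdet (A.1 0 0) (A.1 0 1) (A.1 0 2) (A.1 1 0) (A.1 1 1) (A.1 1 2) (A.1 2 0) (A.1 2 1) (A.1 2 2) ≠ 0 := by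
  have h : IsUnit A.1 := A.isUnit
  rw [Matrix.isUnit_iff_isUnit_det, Matrix.det_fin_three] at h
  exact h.ne_zero

/-- the packed matrix attached to an element of `GL(3,2)` -/
def l27P (A : GL (Fin 3) (ZMod 2)) : ℕ :=
  fld36 l27T (gcode (A.1 0 0) (A.1 0 1) (A.1 0 2) (A.1 1 0) (A.1 1 1) (A.1 1 2) (A.1 2 0) (A.1 2 1) (A.1 2 2))

theorem l27P_spec (A : GL (Fin 3) (ZMod 2)) : (toM9 (l27P A)).det = 1 ∧
    (toM9 (l27P A)).transpose * (toM9 (l27P A)).map (fun x => x ^ 3) = 1 ∧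
    ∀ i < 3, ∀ j < 3, ent3 (l27P A) i j < 9 := by
  have h := l27_mem _ _ _ _ _ _ _ _ _ (gl32_det_ne A)
  rw [forceN_eq, Bool.and_eq_true, Bool.and_eq_true] at h
  refine ⟨detCode_spec h.1, gramChk9_spec h.2.1, ?_⟩
  intro i hi j hj
  have h3 := h.2.2
  rw [rangeChk9, allBelow_iff] at h3
  exact Nat.le_of_ble_eq_true ((allBelow_iff _ _).1 (h3 i hi) j hj)

theorem l27P_mul (A B : GL (Fin 3) (ZMod 2)) : toM9 (l27P (A * B)) = toM9 (l27P A) * toM9 (l27P B) := by
  have h := l27_mul _ _ _ _ _ _ _ _ _ (gl32_det_ne A) _ _ _ _ _ _ _ _ _ (gl32_det_ne B)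
  rw [forceN_eq, forceN_eq, forceN_eq] at h
  have e : ∀ i j, (A * B).1 i j = A.1 i 0 * B.1 0 j + A.1 i 1 * B.1 1 j + A.1 i 2 * B.1 2 j := by
    intro i j
    rw [Units.val_mul, Matrix.mul_apply, Fin.sum_univ_three]
  unfold l27P
  rw [mulChk9_spec h, e, e, e, e, e, e, e, e, e]

theorem l27P_inj (A : GL (Fin 3) (ZMod 2)) (h : toM9 (l27P A) = 1) : A = 1 := by
  have h1 := oneChk9_of_eq (l27P_spec A).2.2 h
  have h4 := l27_inj _ _ _ _ _ _ _ _ _ (gl32_det_ne A) (by rw [forceN_eq]; exact h1)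
  obtain ⟨a, b, c, d, e, f, g, h, i⟩ := gcode_one _ _ _ _ _ _ _ _ _ h4
  apply Units.ext
  ext i j
  fin_cases i <;> fin_cases j <;> assumption

section

variable {F : Type*} [Field F] [Fintype F]

/-- the embedding of `GL(3,2)` into `SU(3,3)` -/
theorem exists_l27_hom (hF : Fintype.card F = 9) :
    ∃ f : GL (Fin 3) (ZMod 2) →* ↥(Cfsg.SU 3 F 3), Function.Injective f := by
  have hK : Fintype.card F = 3 ^ 2 := by rw [hF]; norm_num
  let φ : K9 ≃+* F := FiniteField.ringEquivOfCardEq (by rw [K9.card, hF])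
  have gram : ∀ M : Matrix (Fin 3) (Fin 3) K9, M.transpose * M.map (fun x => x ^ 3) = 1 →
      (φ.toRingHom.mapMatrix M)ᵀ * (φ.toRingHom.mapMatrix M).map (frobQ hK) = 1 := by
    intro M hg
    have e1 : (φ.toRingHom.mapMatrix M).map (frobQ hK) = φ.toRingHom.mapMatrix (M.map (fun x => x ^ 3)) := by
      ext i j
      simp [frobQ_apply]
    have e2 : (φ.toRingHom.mapMatrix M)ᵀ = φ.toRingHom.mapMatrix M.transpose := by
      ext i j
      rfl
    rw [e1, e2, ← map_mul, hg, map_one]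
  let f0 : GL (Fin 3) (ZMod 2) → ↥(Cfsg.SU 3 F 3) := fun A =>
    mkSU hK 3 (φ.toRingHom.mapMatrix (toM9 (l27P A)))
      (by rw [← RingHom.map_det, (l27P_spec A).1, map_one]) (gram _ (l27P_spec A).2.1)
  have hmul : ∀ A B, f0 (A * B) = f0 A * f0 B := by
    intro A B
    apply Subtype.ext
    apply Subtype.ext
    show φ.toRingHom.mapMatrix (toM9 (l27P (A * B))) =
      φ.toRingHom.mapMatrix (toM9 (l27P A)) * φ.toRingHom.mapMatrix (toM9 (l27P B))
    rw [l27P_mul, map_mul]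
  refine ⟨MonoidHom.mk' f0 hmul, ?_⟩
  rw [injective_iff_map_eq_one]
  intro A hA
  apply l27P_inj
  have h1 : φ.toRingHom.mapMatrix (toM9 (l27P A)) = 1 :=
    congrArg (fun x : ↥(Cfsg.SU 3 F 3) => (x.1 : Matrix (Fin 3) (Fin 3) F)) hA
  ext i j
  have h2 := congrFun (congrFun h1 i) j
  apply φ.injective
  refine Eq.trans h2 ?_
  rw [Matrix.one_apply, Matrix.one_apply]
  split_ifs <;> simp

end

/-- over the field with two elements the special and the general linear groups coincide -/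
noncomputable def sl32_gl_equiv : Matrix.SpecialLinearGroup (Fin 3) (ZMod 2) ≃* GL (Fin 3) (ZMod 2) :=
  MulEquiv.ofBijective Matrix.SpecialLinearGroup.toGL ⟨Matrix.SpecialLinearGroup.toGL_injective, by
    intro A
    have h : IsUnit A.1 := A.isUnit
    rw [Matrix.isUnit_iff_isUnit_det] at h
    have key : ∀ s : ZMod 2, s ≠ 0 → s = 1 := by decide
    exact ⟨⟨A.1, key _ h.ne_zero⟩, Units.ext rfl⟩⟩

theorem sl32_simple : IsSimpleGroup (Matrix.SpecialLinearGroup (Fin 3) (ZMod 2)) := by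
  have : Fact (Nat.Prime 2) := ⟨by norm_num⟩
  have hc : Subgroup.center (Matrix.SpecialLinearGroup (Fin 3) (ZMod 2)) = ⊥ := by
    apply Subgroup.eq_bot_of_card_eq
    rw [Cfsg.Agent.Lib.Helper6.card_center_SL_field (F := ZMod 2) 3 (by norm_num), ZMod.card]
    rfl
  have e2 : Matrix.ProjectiveSpecialLinearGroup (Fin 3) (ZMod 2) ≃*
      Matrix.SpecialLinearGroup (Fin 3) (ZMod 2) ⧸ (⊥ : Subgroup (Matrix.SpecialLinearGroup (Fin 3) (ZMod 2))) :=
    QuotientGroup.quotientMulEquivOfEq hc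
  have hs : IsSimpleGroup (Matrix.ProjectiveSpecialLinearGroup (Fin 3) (ZMod 2)) :=
    Cfsg.Agent.Lib.Helper6.PSL_isSimpleGroup_of_three_le (by simp)
  exact (e2.trans QuotientGroup.quotientBot).symm.isSimpleGroup

theorem gl32_card : Nat.card (GL (Fin 3) (ZMod 2)) = 168 := by
  have : Fact (Nat.Prime 2) := ⟨by norm_num⟩
  rw [Matrix.card_GL_field, ZMod.card]
  simp [Fin.prod_univ_three]

theorem gl32_equiv_psl27 {K : Type*} [Field K] [Fintype K] (hK : Fintype.card K = 7) :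
    Nonempty (GL (Fin 3) (ZMod 2) ≃* Matrix.ProjectiveSpecialLinearGroup (Fin 2) K) := by
  have hs : IsSimpleGroup (GL (Fin 3) (ZMod 2)) := by
    have := sl32_simple
    exact sl32_gl_equiv.symm.isSimpleGroup
  exact Cfsg.Agent.S0495.result gl32_card hK

theorem psu33_has_psl27 {F : Type*} [Field F] [Fintype F] (hF : Fintype.card F = 9)
    {K : Type*} [Field K] [Fintype K] (hK : Fintype.card K = 7) :
    ∃ H : Subgroup (Cfsg.PSU 3 F 3), Nonempty (H ≃* Matrix.ProjectiveSpecialLinearGroup (Fin 2) K) := by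
  have hK2 : Fintype.card F = 3 ^ 2 := by rw [hF]; norm_num
  have hc : Subgroup.center ↥(Cfsg.SU 3 F 3) = ⊥ := by
    apply Subgroup.eq_bot_of_card_eq
    rw [card_center_SU hK2 3 (by norm_num)]
    rfl
  have e : ↥(Cfsg.SU 3 F 3) ≃* Cfsg.PSU 3 F 3 :=
    ((QuotientGroup.quotientMulEquivOfEq hc).trans QuotientGroup.quotientBot).symm
  obtain ⟨f, hf⟩ := exists_l27_hom hF
  obtain ⟨E⟩ := gl32_equiv_psl27 hK
  have hinj : Function.Injective (e.toMonoidHom.comp f) := e.injective.comp hf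
  exact ⟨(e.toMonoidHom.comp f).range, ⟨(MonoidHom.ofInjective hinj).symm.trans E⟩⟩

end Cfsg.Agent.Lib.Helper34
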