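import Cfsg.Agent.Lib.Helper34.M11Cent2
import Cfsg.Agent.Lib.Helper33.SetFam

set_option autoImplicit false

/-! Abstract lemmas on the hexads and quartets of a dodecad. -/

namespace Cfsg.Agent.Lib.Helper34

open Cfsg Cfsg.Agent.Lib.Helper33
open scoped Pointwise

theorem hexadsOn_subset {d h : Finset GolayPt} (hh : h ∈ hexadsOn d) : h ⊆ d := by
  obtain ⟨_, o, _, rfl⟩ := hh
  exact Finset.inter_subset_right

theorem hexad_eq_of_inter {d h h' : Finset GolayPt} (hh : h ∈ hexadsOn d) (hh' : h' ∈ hexadsOn d)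
    (h5 : 5 ≤ (h ∩ h').card) : h = h' := by
  obtain ⟨_, o, ho, rfl⟩ := hh
  obtain ⟨_, o', ho', rfl⟩ := hh'
  have : o = o' := octad_eq_of_inter ho ho' (le_trans h5 (Finset.card_le_card (by
    intro x hx
    simp only [Finset.mem_inter] at hx ⊢
    exact ⟨hx.1.1, hx.2.1⟩)))
  rw [this]

theorem smul_mem_hexadsOn {g : Equiv.Perm GolayPt} (hg : g ∈ M24) {d h : Finset GolayPt}
    (hh : h ∈ hexadsOn d) : g • h ∈ hexadsOn (g • d) := by
  obtain ⟨hc, o, ho, rfl⟩ := hh
  exact ⟨by rw [Finset.card_smul_finset]; exact hc, g • o, smul_mem_octads hg ho,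
    (Finset.smul_finset_inter).symm⟩

theorem smul_mem_quartets {g : Equiv.Perm GolayPt} (hg : g ∈ M24) {d : Finset GolayPt}
    {Q : Finset (Finset GolayPt)} (hQ : Q ∈ quartets d) : g • Q ∈ quartets (g • d) := by
  refine ⟨by rw [Finset.card_smul_finset]; exact hQ.1, ?_, ?_⟩
  · intro t ht
    obtain ⟨t', ht', rfl⟩ := Finset.mem_smul_finset.1 ht
    exact ⟨by rw [Finset.card_smul_finset]; exact (hQ.2.1 t' ht').1,
      Finset.smul_finset_subset_smul_finset (hQ.2.1 t' ht').2⟩
  · intro t ht u hu hne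
    obtain ⟨t', ht', rfl⟩ := Finset.mem_smul_finset.1 ht
    obtain ⟨u', hu', rfl⟩ := Finset.mem_smul_finset.1 hu
    rw [← Finset.smul_finset_union]
    exact smul_mem_hexadsOn hg (hQ.2.2 t' ht' u' hu' (fun h => hne (by rw [h])))

theorem quartet_disjoint {d : Finset GolayPt} {Q : Finset (Finset GolayPt)} (hQ : Q ∈ quartets d)
    {t u : Finset GolayPt} (ht : t ∈ Q) (hu : u ∈ Q) (h : t ≠ u) : Disjoint t u := by
  rw [← Finset.card_union_eq_card_add_card, (hQ.2.1 t ht).1, (hQ.2.1 u hu).1]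
  exact (hQ.2.2 t ht u hu h).1

theorem quartet_cover {d : Finset GolayPt} (hd : d.card = 12) {Q : Finset (Finset GolayPt)}
    (hQ : Q ∈ quartets d) {p : GolayPt} (hp : p ∈ d) : ∃ t ∈ Q, p ∈ t := by
  have h1 : (Q.biUnion id).card = 12 := by
    rw [Finset.card_biUnion (t := id) (fun t ht u hu h => quartet_disjoint hQ ht hu h)]
    have h0 : ∀ u ∈ Q, (id u : Finset GolayPt).card = 3 := fun t ht => (hQ.2.1 t ht).1
    rw [Finset.sum_congr rfl h0, Finset.sum_const, hQ.1]
    rfl
  have h2 : Q.biUnion id = d := by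
    apply Finset.eq_of_subset_of_card_le
    · intro q hq
      obtain ⟨t, ht, hq'⟩ := Finset.mem_biUnion.1 hq
      exact (hQ.2.1 t ht).2 hq'
    · rw [h1, hd]
  have h3 : p ∈ Q.biUnion id := by rw [h2]; exact hp
  obtain ⟨t, ht, hp'⟩ := Finset.mem_biUnion.1 h3
  exact ⟨t, ht, hp'⟩

/-- members of two quartets through a common triple which share two points are equal -/
theorem quartet_member_eq {d : Finset GolayPt} {Q Q' : Finset (Finset GolayPt)} (hQ : Q ∈ quartets d)
    (hQ' : Q' ∈ quartets d) {t v x : Finset GolayPt} (ht : t ∈ Q) (ht' : t ∈ Q') (hv : v ∈ Q) (hvt : v ≠ t)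
    (hx : x ∈ Q') (hxt : x ≠ t) {a b : GolayPt} (hab : a ≠ b) (ha : a ∈ v) (hb : b ∈ v) (ha' : a ∈ x)
    (hb' : b ∈ x) : v = x := by
  have hd : Disjoint v t := quartet_disjoint hQ hv ht hvt
  have hd' : Disjoint x t := quartet_disjoint hQ' hx ht' hxt
  have ho := hQ.2.2 v hv t ht hvt
  have ho' := hQ'.2.2 x hx t ht' hxt
  have hat : a ∉ t := Finset.disjoint_left.1 hd ha
  have hbt : b ∉ t := Finset.disjoint_left.1 hd hb
  have h5 : 5 ≤ ((v ∪ t) ∩ (x ∪ t)).card := by
    have hsub : insert a (insert b t) ⊆ (v ∪ t) ∩ (x ∪ t) := by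
      intro q hq
      rcases Finset.mem_insert.1 hq with rfl | hq
      · exact Finset.mem_inter.2 ⟨Finset.mem_union_left _ ha, Finset.mem_union_left _ ha'⟩
      rcases Finset.mem_insert.1 hq with rfl | hq
      · exact Finset.mem_inter.2 ⟨Finset.mem_union_left _ hb, Finset.mem_union_left _ hb'⟩
      · exact Finset.mem_inter.2 ⟨Finset.mem_union_right _ hq, Finset.mem_union_right _ hq⟩
    calc 5 = (insert a (insert b t)).card := by
          rw [Finset.card_insert_of_notMem (by simp [hab, hat]), Finset.card_insert_of_notMem hbt,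
            (hQ.2.1 t ht).1]
      _ ≤ _ := Finset.card_le_card hsub
  have heq := hexad_eq_of_inter ho ho' h5
  have e1 : (v ∪ t) \ t = v := by
    rw [Finset.union_sdiff_right]; exact Finset.sdiff_eq_self_of_disjoint hd
  have e2 : (x ∪ t) \ t = x := by
    rw [Finset.union_sdiff_right]; exact Finset.sdiff_eq_self_of_disjoint hd'
  rw [← e1, heq, e2]

theorem quartet_subset {d : Finset GolayPt} (hd : d.card = 12) {Q Q' : Finset (Finset GolayPt)}
    (hQ : Q ∈ quartets d) (hQ' : Q' ∈ quartets d) {t u : Finset GolayPt} (htu : t ≠ u) (ht : t ∈ Q)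
    (hu : u ∈ Q) (ht' : t ∈ Q') (hu' : u ∈ Q') : Q ⊆ Q' := by
  intro v hv
  by_cases hvt : v = t
  · rw [hvt]; exact ht'
  by_cases hvu : v = u
  · rw [hvu]; exact hu'
  obtain ⟨a, b, c, hab, hac, hbc, rfl⟩ := Finset.card_eq_three.1 (hQ.2.1 v hv).1
  have hvd := (hQ.2.1 _ hv).2
  have hdt := quartet_disjoint hQ hv ht hvt
  have hdu := quartet_disjoint hQ hv hu hvu
  have key : ∀ p ∈ ({a, b, c} : Finset GolayPt), ∃ x ∈ Q', p ∈ x ∧ x ≠ t ∧ x ≠ u := by
    intro p hp
    obtain ⟨x, hx, hpx⟩ := quartet_cover hd hQ' (hvd hp)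
    refine ⟨x, hx, hpx, ?_, ?_⟩
    · rintro rfl; exact Finset.disjoint_left.1 hdt hp hpx
    · rintro rfl; exact Finset.disjoint_left.1 hdu hp hpx
  obtain ⟨A, hA, haA, hAt, hAu⟩ := key a (by simp)
  obtain ⟨B, hB, hbB, hBt, hBu⟩ := key b (by simp)
  obtain ⟨C, hC, hcC, hCt, hCu⟩ := key c (by simp)
  by_cases hAB : A = B
  · rw [quartet_member_eq hQ hQ' ht ht' hv hvt hA hAt hab (by simp) (by simp) haA (hAB ▸ hbB)]
    exact hA
  by_cases hAC : A = C
  · rw [quartet_member_eq hQ hQ' ht ht' hv hvt hA hAt hac (by simp) (by simp) haA (hAC ▸ hcC)]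
    exact hA
  by_cases hBC : B = C
  · rw [quartet_member_eq hQ hQ' ht ht' hv hvt hB hBt hbc (by simp) (by simp) hbB (hBC ▸ hcC)]
    exact hB
  exfalso
  have hsub : ({A, B, C, t, u} : Finset (Finset GolayPt)) ⊆ Q' := by
    intro x hx
    simp only [Finset.mem_insert, Finset.mem_singleton] at hx
    rcases hx with rfl | rfl | rfl | rfl | rfl <;> assumption
  have hc5 : ({A, B, C, t, u} : Finset (Finset GolayPt)).card = 5 := by
    rw [Finset.card_insert_of_notMem (by simp [hAB, hAC, hAt, hAu]),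
      Finset.card_insert_of_notMem (by simp [hBC, hBt, hBu]),
      Finset.card_insert_of_notMem (by simp [hCt, hCu]),
      Finset.card_insert_of_notMem (by simp [htu]), Finset.card_singleton]
  have := Finset.card_le_card hsub
  rw [hc5, hQ'.1] at this
  omega

/-- a quartet is determined by two of its triples -/
theorem quartet_unique {d : Finset GolayPt} (hd : d.card = 12) {Q Q' : Finset (Finset GolayPt)}
    (hQ : Q ∈ quartets d) (hQ' : Q' ∈ quartets d) {t u : Finset GolayPt} (htu : t ≠ u) (ht : t ∈ Q)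
    (hu : u ∈ Q) (ht' : t ∈ Q') (hu' : u ∈ Q') : Q = Q' :=
  Finset.Subset.antisymm (quartet_subset hd hQ hQ' htu ht hu ht' hu')
    (quartet_subset hd hQ' hQ htu ht' hu' ht hu)

/-- an element stabilising a quartet and mapping a point of a member into that member stabilises the member -/
theorem quartet_stab_member {d : Finset GolayPt} {Q : Finset (Finset GolayPt)} (hQ : Q ∈ quartets d)
    {g : Equiv.Perm GolayPt} (hg : g • Q = Q) {t : Finset GolayPt} (ht : t ∈ Q) {p : GolayPt} (hp : p ∈ t)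
    (hgp : g p ∈ t) : g • t = t := by
  by_contra hne
  have h1 : g • t ∈ Q := by
    have h0 : g • t ∈ g • Q := Finset.smul_mem_smul_finset ht
    rwa [hg] at h0
  have hd := quartet_disjoint hQ h1 ht hne
  exact Finset.disjoint_left.1 hd (Finset.smul_mem_smul_finset (a := g) hp) hgp

end Cfsg.Agent.Lib.Helper34
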