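import Cfsg.Agent.Lib.Helper34.Quartet

set_option autoImplicit false

/-! The base quartet of the base dodecad; transport of quartets to the base quartet. -/

namespace Cfsg.Agent.Lib.Helper34

open Cfsg Cfsg.Agent.Lib.Helper33
open Cfsg.Agent.Lib.Helper9 (D0 H12 fixL mem_fixL H12_mem_iff)
open scoped Pointwise

/-- entry `i` of quartet `k` of a table -/
def qF (tab k i : ℕ) : ℕ := fld24 tab (Nat.add (Nat.mul 4 k) i)

/-- witness octad for the pair `i, j` of quartet `k` -/
def qW (wit k i j : ℕ) : ℕ := fld24 wit (Nat.add (Nat.mul 16 k) (Nat.add (Nat.mul 4 i) j))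

/-- validity check of quartet `k` of a table -/
noncomputable def qOK (tab wit k : ℕ) : Bool :=
  allBelow (fun i => Nat.beq (popc (qF tab k i)) 3 && Nat.beq (Nat.land (qF tab k i) D0) (qF tab k i)) 4 &&
  allBelow (fun i => allBelow (fun j => Nat.beq i j ||
    (isCode (qW wit k i j) && (Nat.beq (popc (qW wit k i j)) 8 &&
      (Nat.beq (Nat.land (qW wit k i j) D0) (Nat.lor (qF tab k i) (qF tab k j)) &&
        Nat.beq (popc (Nat.lor (qF tab k i) (qF tab k j))) 6)))) 4) 4

theorem qOK_distinct {tab wit k : ℕ} (h : qOK tab wit k = true) :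
    ∀ i < 4, ∀ j < 4, fld24 tab (Nat.add (Nat.mul 4 k) i) = fld24 tab (Nat.add (Nat.mul 4 k) j) → i = j := by
  intro i hi j hj hij
  by_contra hne
  rw [qOK, Bool.and_eq_true] at h
  have h1 := (allBelow_iff _ _).1 h.1 i hi
  have h2 := (allBelow_iff _ _).1 ((allBelow_iff _ _).1 h.2 i hi) j hj
  simp only [Bool.and_eq_true, Bool.or_eq_true] at h1 h2
  rcases h2 with h2 | h2
  · exact hne (Nat.eq_of_beq_eq_true h2)
  · have h6 := Nat.eq_of_beq_eq_true h2.2.2.2
    have h3 := Nat.eq_of_beq_eq_true h1.1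
    have e : qF tab k i = qF tab k j := hij
    rw [← e] at h6
    have : Nat.lor (qF tab k i) (qF tab k i) = qF tab k i := Nat.or_self _
    rw [this, h3] at h6
    omega

theorem qOK_spec {tab wit k : ℕ} (h : qOK tab wit k = true) : objM tab 4 k ∈ quartets (unmask D0) := by
  have hdist := qOK_distinct h
  rw [qOK, Bool.and_eq_true] at h
  refine ⟨card_objM hdist, ?_, ?_⟩
  · intro t ht
    obtain ⟨i, hi, rfl⟩ := mem_objM.1 ht
    have h1 := (allBelow_iff _ _).1 h.1 i hi
    simp only [Bool.and_eq_true] at h1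
    refine ⟨by rw [card_unmask (fld24_lt _ _)]; exact Nat.eq_of_beq_eq_true h1.1, ?_⟩
    have e : qF tab k i &&& D0 = qF tab k i := Nat.eq_of_beq_eq_true h1.2
    have e2 : unmask (qF tab k i) = unmask (qF tab k i) ∩ unmask D0 := by
      rw [← unmask_and, e]
    show unmask (qF tab k i) ⊆ _
    rw [e2]
    exact Finset.inter_subset_right
  · intro t ht u hu hne
    obtain ⟨i, hi, rfl⟩ := mem_objM.1 ht
    obtain ⟨j, hj, rfl⟩ := mem_objM.1 hu
    have hij : i ≠ j := fun e => hne (by rw [e])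
    have h2 := (allBelow_iff _ _).1 ((allBelow_iff _ _).1 h.2 i hi) j hj
    simp only [Bool.and_eq_true, Bool.or_eq_true] at h2
    rcases h2 with h2 | h2
    · exact absurd (Nat.eq_of_beq_eq_true h2) hij
    · obtain ⟨a1, a2, a3, a4⟩ := h2
      rw [← unmask_or]
      refine ⟨?_, unmask (qW wit k i j), (unmask_mem_octads_iff (fld24_lt _ _)).2
        ⟨a1, Nat.eq_of_beq_eq_true a2⟩, ?_⟩
      · rw [card_unmask (Nat.or_lt_two_pow (fld24_lt _ _) (fld24_lt _ _))]
        exact Nat.eq_of_beq_eq_true a4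
      · rw [← unmask_and]
        congr 1
        exact Nat.eq_of_beq_eq_true a3

def q0c : ℕ := 0x2300050040001018000007
def q0w : ℕ := 0x527c00237180223870527c00000000710d80704470237180710d800000000149f02238707044700149f000000

/-- the base quartet -/
def Q0 : Finset (Finset GolayPt) := objM q0c 4 0

theorem Q0_ok : qOK q0c q0w 0 = true := by decide +kernel

theorem Q0_mem : Q0 ∈ quartets (unmask D0) := qOK_spec Q0_ok

theorem mem_Q0 {t : Finset GolayPt} :
    t ∈ Q0 ↔ t = unmask 0x7 ∨ t = unmask 0x1018 ∨ t = unmask 0x50040 ∨ t = unmask 0x2300 := by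
  rw [Q0, mem_objM]
  constructor
  · rintro ⟨i, hi, rfl⟩
    interval_cases i
    · left; rfl
    · right; left; rfl
    · right; right; left; rfl
    · right; right; right; rfl
  · rintro (rfl | rfl | rfl | rfl)
    · exact ⟨0, by norm_num, rfl⟩
    · exact ⟨1, by norm_num, rfl⟩
    · exact ⟨2, by norm_num, rfl⟩
    · exact ⟨3, by norm_num, rfl⟩

theorem unmask_pair (i j : ℕ) (hi : i < 24) (hj : j < 24) :
    unmask (Nat.shiftLeft 1 i ||| Nat.shiftLeft 1 j) = {pt i, pt j} := by
  rw [unmask_or, unmask_shift i hi, unmask_shift j hj]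
  rfl

theorem unmask_triple (i j k : ℕ) (hi : i < 24) (hj : j < 24) (hk : k < 24) :
    unmask (Nat.shiftLeft 1 i ||| (Nat.shiftLeft 1 j ||| Nat.shiftLeft 1 k)) = {pt i, pt j, pt k} := by
  rw [unmask_or, unmask_pair j k hj hk, unmask_shift i hi]
  rfl

theorem hex0_mem : unmask 0x101f ∈ hexadsOn (unmask D0) := by
  refine ⟨by rw [card_unmask (by norm_num)]; decide +kernel, unmask 0x149f,
    (unmask_mem_octads_iff (by norm_num)).2 (by decide +kernel), ?_⟩
  rw [← unmask_and]
  congr 1

/-- two disjoint triples of a dodecad whose union is a hexad can be moved to the base triples -/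
theorem triples_to_base {d : Finset GolayPt} (hd : d ∈ dodecads) {t u : Finset GolayPt} (ht : t.card = 3)
    (hu : u.card = 3) (htu : Disjoint t u) (hh : t ∪ u ∈ hexadsOn d) :
    ∃ g ∈ M24, g • d = unmask D0 ∧ g • t = unmask 0x7 ∧ g • u = unmask 0x1018 := by
  obtain ⟨a, b, c, hab, hac, hbc, rfl⟩ := Finset.card_eq_three.1 ht
  obtain ⟨x, y, z, hxy, hxz, hyz, rfl⟩ := Finset.card_eq_three.1 hu
  have hsub := hexadsOn_subset hh
  have hdl := Finset.disjoint_left.1 htu
  have nax : a ≠ x := fun e => hdl (a := a) (by simp) (by simp [e])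
  have nay : a ≠ y := fun e => hdl (a := a) (by simp) (by simp [e])
  have nbx : b ≠ x := fun e => hdl (a := b) (by simp) (by simp [e])
  have nby : b ≠ y := fun e => hdl (a := b) (by simp) (by simp [e])
  have ncx : c ≠ x := fun e => hdl (a := c) (by simp) (by simp [e])
  have ncy : c ≠ y := fun e => hdl (a := c) (by simp) (by simp [e])
  obtain ⟨X, hXd, hX⟩ := exists_emb d 5 (by rw [hd.2]; norm_num) [a, b, c, x, y]
    (by simp [hab, hac, hbc, hxy, nax, nay, nbx, nby, ncx, ncy])
    (by
      intro p hp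
      apply hsub
      simp only [List.mem_cons, List.not_mem_nil, or_false] at hp
      simp only [Finset.mem_union, Finset.mem_insert, Finset.mem_singleton]
      tauto) (by simp)
  obtain ⟨g, hg, hgd, hgX⟩ := Cfsg.Agent.Lib.Helper9.dod5_to_base hd X hXd
  have e0 : g a = pt 0 := by
    have h1 := hgX 0; have h2 := hX 0 (by simp); rw [h2] at h1; exact h1
  have e1 : g b = pt 1 := by
    have h1 := hgX 1; have h2 := hX 1 (by simp); rw [h2] at h1; exact h1
  have e2 : g c = pt 2 := by
    have h1 := hgX 2; have h2 := hX 2 (by simp); rw [h2] at h1; exact h1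
  have e3 : g x = pt 3 := by
    have h1 := hgX 3; have h2 := hX 3 (by simp); rw [h2] at h1; exact h1
  have e4 : g y = pt 4 := by
    have h1 := hgX 4; have h2 := hX 4 (by simp); rw [h2] at h1; exact h1
  have ht7 : g • ({a, b, c} : Finset GolayPt) = unmask 0x7 := by
    rw [Finset.smul_finset_insert, Finset.smul_finset_insert, Finset.smul_finset_singleton,
      Equiv.Perm.smul_def, Equiv.Perm.smul_def, Equiv.Perm.smul_def, e0, e1, e2]
    exact (unmask_triple 0 1 2 (by norm_num) (by norm_num) (by norm_num)).symm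
  have h34 : unmask 0x18 ⊆ g • ({x, y, z} : Finset GolayPt) := by
    have : unmask 0x18 = {pt 3, pt 4} := unmask_pair 3 4 (by norm_num) (by norm_num)
    rw [this, Finset.smul_finset_insert, Finset.smul_finset_insert, Finset.smul_finset_singleton,
      Equiv.Perm.smul_def, Equiv.Perm.smul_def, e3, e4]
    intro p hp
    simp only [Finset.mem_insert, Finset.mem_singleton] at hp ⊢
    tauto
  have hh' : g • ({a, b, c} : Finset GolayPt) ∪ g • ({x, y, z} : Finset GolayPt) ∈ hexadsOn (unmask D0) := by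
    rw [← Finset.smul_finset_union, ← hgd]
    exact smul_mem_hexadsOn hg hh
  have h5 : 5 ≤ ((g • ({a, b, c} : Finset GolayPt) ∪ g • ({x, y, z} : Finset GolayPt)) ∩ unmask 0x101f).card := by
    have hs : unmask 0x1f ⊆ (g • ({a, b, c} : Finset GolayPt) ∪ g • ({x, y, z} : Finset GolayPt)) ∩ unmask 0x101f := by
      have s1 : unmask 0x1f = unmask 0x7 ∪ unmask 0x18 := by rw [← unmask_or]; rfl
      have s2 : unmask 0x1f = unmask 0x1f ∩ unmask 0x101f := by rw [← unmask_and]; rfl
      apply Finset.subset_inter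
      · rw [s1, ht7]
        exact Finset.union_subset_union_right h34
      · rw [s2]; exact Finset.inter_subset_right
    calc 5 = (unmask 0x1f).card := by rw [card_unmask (by norm_num)]; decide +kernel
      _ ≤ _ := Finset.card_le_card hs
  have heq := hexad_eq_of_inter hh' hex0_mem h5
  refine ⟨g, hg, hgd, ht7, ?_⟩
  have hd1 : Disjoint (g • ({x, y, z} : Finset GolayPt)) (g • ({a, b, c} : Finset GolayPt)) := by
    rw [Finset.disjoint_iff_inter_eq_empty, ← Finset.smul_finset_inter,
      Finset.disjoint_iff_inter_eq_empty.1 htu.symm, Finset.smul_finset_empty]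
  have hd2 : Disjoint (unmask 0x1018) (unmask 0x7) := by
    rw [Finset.disjoint_iff_inter_eq_empty, ← unmask_and]
    exact unmask_zero
  have s3 : unmask 0x101f = unmask 0x7 ∪ unmask 0x1018 := by rw [← unmask_or]; rfl
  have f1 : (g • ({a, b, c} : Finset GolayPt) ∪ g • ({x, y, z} : Finset GolayPt)) \ g • ({a, b, c} : Finset GolayPt)
      = g • ({x, y, z} : Finset GolayPt) := by
    rw [Finset.union_sdiff_left]; exact Finset.sdiff_eq_self_of_disjoint hd1
  have f2 : (unmask 0x7 ∪ unmask 0x1018) \ unmask 0x7 = unmask 0x1018 := by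
    rw [Finset.union_sdiff_left]; exact Finset.sdiff_eq_self_of_disjoint hd2
  rw [← f1, heq, ht7, s3, f2]

theorem unmask_ne {a b : ℕ} (ha : a < 2 ^ 24) (hb : b < 2 ^ 24) (h : a ≠ b) : unmask a ≠ unmask b :=
  fun e => h (unmask_inj ha hb e)

/-- every quartet with two of its triples can be moved to the base quartet -/
theorem quartet_to_base {d : Finset GolayPt} (hd : d ∈ dodecads) {Q : Finset (Finset GolayPt)}
    (hQ : Q ∈ quartets d) {t u : Finset GolayPt} (ht : t ∈ Q) (hu : u ∈ Q) (htu : t ≠ u) :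
    ∃ g ∈ M24, g • d = unmask D0 ∧ g • Q = Q0 ∧ g • t = unmask 0x7 ∧ g • u = unmask 0x1018 := by
  obtain ⟨g, hg, hgd, h7, h18⟩ := triples_to_base hd (hQ.2.1 t ht).1 (hQ.2.1 u hu).1
    (quartet_disjoint hQ ht hu htu) (hQ.2.2 t ht u hu htu)
  refine ⟨g, hg, hgd, ?_, h7, h18⟩
  have hQ' : g • Q ∈ quartets (unmask D0) := hgd ▸ smul_mem_quartets hg hQ
  refine quartet_unique Cfsg.Agent.Lib.Helper9.D0_mem.2 hQ' Q0_mem
    (unmask_ne (a := 0x7) (b := 0x1018) (by norm_num) (by norm_num) (by norm_num)) ?_ ?_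
    (mem_Q0.2 (Or.inl rfl)) (mem_Q0.2 (Or.inr (Or.inl rfl)))
  · rw [← h7]; exact Finset.smul_mem_smul_finset ht
  · rw [← h18]; exact Finset.smul_mem_smul_finset hu

theorem exists_two_members {d : Finset GolayPt} {Q : Finset (Finset GolayPt)} (hQ : Q ∈ quartets d) :
    ∃ t ∈ Q, ∃ u ∈ Q, t ≠ u := by
  have : 1 < Q.card := by rw [hQ.1]; norm_num
  obtain ⟨t, ht, u, hu, h⟩ := Finset.one_lt_card.1 this
  exact ⟨t, ht, u, hu, h⟩

end Cfsg.Agent.Lib.Helper34
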