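import Cfsg.Agent.Lib.Helper34.QuartetStab

set_option autoImplicit false

/-! Quartets of an arbitrary dodecad: transitivity, the order of the stabiliser, the count. -/

namespace Cfsg.Agent.Lib.Helper34

open Cfsg Cfsg.Agent.Lib.Helper33
open Cfsg.Agent.Lib.Helper9 (D0 H12 fixL mem_fixL H12_mem_iff)
open scoped Pointwise

theorem quartet_to_base' {d : Finset GolayPt} (hd : d ∈ dodecads) {Q : Finset (Finset GolayPt)}
    (hQ : Q ∈ quartets d) : ∃ g ∈ M24, g • d = unmask D0 ∧ g • Q = Q0 := by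
  obtain ⟨t, ht, u, hu, htu⟩ := exists_two_members hQ
  obtain ⟨g, hg, h1, h2, _⟩ := quartet_to_base hd hQ ht hu htu
  exact ⟨g, hg, h1, h2⟩

theorem quartet_key {d : Finset GolayPt} {Q : Finset (Finset GolayPt)} {g : Equiv.Perm GolayPt}
    (hg : g ∈ M24) (hgd : g • d = unmask D0) (hgQ : g • Q = Q0) (x : ↥M24) :
    x ∈ MulAction.stabilizer M24 d ⊓ MulAction.stabilizer M24 Q ↔ g * x.1 * g⁻¹ ∈ HQ0 := by
  have h1 : g * x.1 * g⁻¹ ∈ MulAction.stabilizer (Equiv.Perm GolayPt) (unmask D0) ↔ x.1 • d = d := by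
    rw [MulAction.mem_stabilizer_iff, ← hgd, conj_smul_iff]
  have h2 : g * x.1 * g⁻¹ ∈ MulAction.stabilizer (Equiv.Perm GolayPt) Q0 ↔ x.1 • Q = Q := by
    rw [MulAction.mem_stabilizer_iff, ← hgQ, conj_smul_iff]
  constructor
  · rintro ⟨a, b⟩
    exact ⟨⟨M24.mul_mem (M24.mul_mem hg x.2) (M24.inv_mem hg), h1.2 a⟩, h2.2 b⟩
  · rintro ⟨⟨_, a⟩, b⟩
    exact ⟨h1.1 a, h2.1 b⟩

theorem HQ0_le_M24 : HQ0 ≤ M24 := fun _ h => h.1.1

theorem card_quartet_stab {d : Finset GolayPt} (hd : d ∈ dodecads) {Q : Finset (Finset GolayPt)}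
    (hQ : Q ∈ quartets d) :
    Nat.card ↥(MulAction.stabilizer M24 d ⊓ MulAction.stabilizer M24 Q) = 432 := by
  obtain ⟨g, hg, hgd, hgQ⟩ := quartet_to_base' hd hQ
  rw [Nat.card_congr (conjEquiv HQ0_le_M24 hg (quartet_key hg hgd hgQ)).toEquiv]
  exact card_HQ0

theorem quartet_trans {d : Finset GolayPt} (hd : d ∈ dodecads) {Q Q' : Finset (Finset GolayPt)}
    (hQ : Q ∈ quartets d) (hQ' : Q' ∈ quartets d) :
    ∃ g : Equiv.Perm GolayPt, g ∈ M24 ∧ g • d = d ∧ g • Q = Q' := by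
  obtain ⟨g, hg, hgd, hgQ⟩ := quartet_to_base' hd hQ
  obtain ⟨g', hg', hgd', hgQ'⟩ := quartet_to_base' hd hQ'
  refine ⟨g'⁻¹ * g, M24.mul_mem (M24.inv_mem hg') hg, ?_, ?_⟩
  · rw [mul_smul, hgd, ← hgd', inv_smul_smul]
  · rw [mul_smul, hgQ, ← hgQ', inv_smul_smul]

theorem exists_quartet {d : Finset GolayPt} (hd : d ∈ dodecads) : ∃ Q, Q ∈ quartets d := by
  obtain ⟨g, hg, hgd⟩ := Cfsg.Agent.Lib.Helper9.dod_to_base hd
  refine ⟨g⁻¹ • Q0, ?_⟩
  have := smul_mem_quartets (M24.inv_mem hg) Q0_mem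
  rwa [← hgd, inv_smul_smul] at this

theorem card_dodecad_stab {d : Finset GolayPt} (hd : d ∈ dodecads) :
    Nat.card (MulAction.stabilizer M24 d) = 95040 := by
  have h2 := Subgroup.card_mul_index (MulAction.stabilizer M24 d)
  rw [MulAction.index_stabilizer, dod_rank.orbit_eq hd, Cfsg.Agent.Lib.Helper9.ncard_dodecads,
    Cfsg.Agent.Lib.Helper9.card_M24] at h2
  exact Nat.eq_of_mul_eq_mul_right (by decide : 0 < 2576) (h2.trans (by norm_num))

theorem orbit_quartet {d : Finset GolayPt} (hd : d ∈ dodecads) {Q : Finset (Finset GolayPt)}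
    (hQ : Q ∈ quartets d) : MulAction.orbit (MulAction.stabilizer M24 d) Q = quartets d := by
  ext Q'
  constructor
  · rintro ⟨g, rfl⟩
    have h1 : ((g : M24) : Equiv.Perm GolayPt) • d = d := g.2
    have h2 := smul_mem_quartets (g : M24).2 hQ
    rw [h1] at h2
    exact h2
  · intro hQ'
    obtain ⟨g, hg, hgd, hgQ⟩ := quartet_trans hd hQ hQ'
    exact ⟨⟨⟨g, hg⟩, hgd⟩, hgQ⟩

theorem ncard_quartets {d : Finset GolayPt} (hd : d ∈ dodecads) : (quartets d).ncard = 220 := by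
  obtain ⟨Q, hQ⟩ := exists_quartet hd
  have h1 := Subgroup.card_mul_index (MulAction.stabilizer (MulAction.stabilizer M24 d) Q)
  rw [MulAction.index_stabilizer, orbit_quartet hd hQ, card_dodecad_stab hd,
    Nat.card_congr (Cfsg.Agent.Lib.Helper9.stabSubgroupEquiv (MulAction.stabilizer M24 d) Q).toEquiv,
    card_quartet_stab hd hQ] at h1
  omega

end Cfsg.Agent.Lib.Helper34
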