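import Cfsg.Agent.Lib.Helper34.QuartetGen

set_option autoImplicit false

/-! Structure of the stabiliser of the base quartet: a normal subgroup of order 9 with quotient `GL(2,3)`. -/

namespace Cfsg.Agent.Lib.Helper34

open Cfsg Cfsg.Agent.Lib.Helper33
open Cfsg.Agent.Lib.Helper9 (D0 H12 fixL mem_fixL H12_mem_iff)
open scoped Pointwise

/-- kernel-friendly bounded existential -/
noncomputable def anyBelow (f : ℕ → Bool) (n : ℕ) : Bool := !(allBelow (fun k => !(f k)) n)

theorem anyBelow_iff (f : ℕ → Bool) (n : ℕ) : anyBelow f n = true ↔ ∃ k < n, f k = true := by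
  rw [anyBelow, Bool.not_eq_true', ← Bool.not_eq_true, allBelow_iff]
  push Not
  constructor
  · rintro ⟨k, hk, h⟩
    exact ⟨k, hk, by simpa using h⟩
  · rintro ⟨k, hk, h⟩
    exact ⟨k, hk, by simpa using h⟩

/-! ### the normal subgroup of order 9 -/

set_option maxRecDepth 1000000 in
theorem qN_mem : ∀ a b : ZMod 3, inHQ [] (fldP qN (a.val + 3 * b.val)) = true := by decide +kernel

set_option maxRecDepth 1000000 in
theorem qN_mul : ∀ a b c d : ZMod 3, mulChk (fldP qN ((a + c).val + 3 * (b + d).val))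
    (fldP qN (a.val + 3 * b.val)) (fldP qN (c.val + 3 * d.val)) = true := by decide +kernel

set_option maxRecDepth 1000000 in
theorem qN_inj : ∀ a b : ZMod 3, fld5 (fldP qN (a.val + 3 * b.val)) 5 = 5 → a = 0 ∧ b = 0 := by
  decide +kernel

/-- the packed permutation attached to a vector -/
def qNP (x : Multiplicative (ZMod 3 × ZMod 3)) : ℕ :=
  fldP qN ((Multiplicative.toAdd x).1.val + 3 * (Multiplicative.toAdd x).2.val)

theorem qNP_spec (x : Multiplicative (ZMod 3 × ZMod 3)) : isPerm (qNP x) = true ∧ permOf (qNP x) ∈ HQ0 := by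
  obtain ⟨h1, h2⟩ := inHQ_spec (l := []) (by simp) (qN_mem (Multiplicative.toAdd x).1 (Multiplicative.toAdd x).2)
  exact ⟨h1, h2.1⟩

noncomputable def qNFun (x : Multiplicative (ZMod 3 × ZMod 3)) : Equiv.Perm GolayPt := permOf (qNP x)

theorem qNFun_mul (x y : Multiplicative (ZMod 3 × ZMod 3)) : qNFun (x * y) = qNFun x * qNFun y := by
  unfold qNFun
  apply mulChk_spec (qNP_spec _).1 (qNP_spec _).1 (qNP_spec _).1
  exact qN_mul _ _ _ _

noncomputable def qNHom : Multiplicative (ZMod 3 × ZMod 3) →* Equiv.Perm GolayPt :=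
  MonoidHom.mk' qNFun qNFun_mul

theorem qNHom_apply (x : Multiplicative (ZMod 3 × ZMod 3)) : qNHom x = permOf (qNP x) := by
  unfold qNHom
  rw [MonoidHom.mk'_apply, qNFun]

theorem qNHom_fix5 {x : Multiplicative (ZMod 3 × ZMod 3)} (h : qNHom x (pt 5) = pt 5) : x = 1 := by
  rw [qNHom_apply] at h
  have h1 := idx_permOf (qNP_spec x).1 (pt 5)
  rw [h, idx_pt (by norm_num)] at h1
  obtain ⟨a, b⟩ := qN_inj _ _ h1.symm
  apply Multiplicative.toAdd.injective
  exact Prod.ext a b

theorem qNHom_injective : Function.Injective qNHom := by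
  rw [injective_iff_map_eq_one]
  intro x hx
  apply qNHom_fix5
  rw [hx, Equiv.Perm.one_apply]

/-- the normal subgroup of order 9 -/
noncomputable def N9 : Subgroup (Equiv.Perm GolayPt) := qNHom.range

theorem card_N9 : Nat.card N9 = 9 := by
  rw [N9, ← Nat.card_congr (MonoidHom.ofInjective qNHom_injective).toEquiv, Nat.card_eq_fintype_card]
  rfl

theorem N9_le : N9 ≤ HQ0 := by
  rintro _ ⟨x, rfl⟩
  rw [qNHom_apply]
  exact (qNP_spec x).2

theorem mem_N9_of_idx {k : ℕ} (hk : k < 9) : permOf (fldP qN k) ∈ N9 := by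
  refine ⟨Multiplicative.ofAdd (((k % 3 : ℕ) : ZMod 3), ((k / 3 : ℕ) : ZMod 3)), ?_⟩
  rw [qNHom_apply]
  congr 1
  unfold qNP
  congr 1
  interval_cases k <;> rfl

theorem exists_idx_of_mem_N9 {g : Equiv.Perm GolayPt} (hg : g ∈ N9) :
    ∃ k < 9, isPerm (fldP qN k) = true ∧ g = permOf (fldP qN k) := by
  obtain ⟨x, rfl⟩ := hg
  refine ⟨(Multiplicative.toAdd x).1.val + 3 * (Multiplicative.toAdd x).2.val, ?_, (qNP_spec x).1,
    qNHom_apply x⟩
  have h1 := ZMod.val_lt (Multiplicative.toAdd x).1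
  have h2 := ZMod.val_lt (Multiplicative.toAdd x).2
  omega

/-- kernel check of `T ∘ A = B ∘ T` for packed permutations -/
noncomputable def conjChk (T A B : ℕ) : Bool :=
  allBelow (fun i => Nat.beq (fld5 T (fld5 A i)) (fld5 B (fld5 T i))) 24

theorem conjChk_spec {T A B : ℕ} (hT : isPerm T = true) (hA : isPerm A = true) (hB : isPerm B = true)
    (h : conjChk T A B = true) : permOf T * permOf A = permOf B * permOf T := by
  rw [conjChk, allBelow_iff] at h
  ext1 p
  rw [Equiv.Perm.mul_apply, Equiv.Perm.mul_apply, permOf_apply hT, idx_permOf hA,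
    permOf_apply hB, idx_permOf hT, Nat.eq_of_beq_eq_true (h _ (idx_lt p))]

/-- kernel check that `T` normalises the subgroup of order 9 -/
noncomputable def normChk (T : ℕ) : Bool :=
  allBelow (fun x => anyBelow (fun y => conjChk T (fldP qN x) (fldP qN y)) 9) 9 &&
  allBelow (fun y => anyBelow (fun x => conjChk T (fldP qN x) (fldP qN y)) 9) 9

theorem normChk_spec {T : ℕ} (hT : isPerm T = true) (h : normChk T = true) :
    permOf T ∈ Subgroup.normalizer (N9 : Set (Equiv.Perm GolayPt)) := by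
  rw [normChk, Bool.and_eq_true, allBelow_iff, allBelow_iff] at h
  rw [Subgroup.mem_normalizer_iff]
  have hperm : ∀ k < 9, isPerm (fldP qN k) = true := by decide +kernel
  intro g
  constructor
  · intro hg
    obtain ⟨x, hx, hpx, rfl⟩ := exists_idx_of_mem_N9 hg
    obtain ⟨y, hy, hc⟩ := (anyBelow_iff _ _).1 (h.1 x hx)
    rw [conjChk_spec hT hpx (hperm y hy) hc, mul_inv_cancel_right]
    exact mem_N9_of_idx hy
  · intro hg
    obtain ⟨y, hy, hpy, e⟩ := exists_idx_of_mem_N9 hg
    obtain ⟨x, hx, hc⟩ := (anyBelow_iff _ _).1 (h.2 y hy)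
    have h1 := conjChk_spec hT (hperm x hx) hpy hc
    have h2 : g = permOf (fldP qN x) := by
      have : permOf T * g = permOf T * permOf (fldP qN x) := by
        rw [h1, ← e]; group
      exact mul_left_cancel this
    rw [h2]
    exact mem_N9_of_idx hx

set_option maxRecDepth 1000000 in
theorem qT_norm : (allBelow (fun q => !(Nat.testBit 0x5335f q) || normChk (fldP qT1 q)) 24 &&
    (allBelow (fun q => !(Nat.testBit 0x6 q) || normChk (fldP qT2 q)) 24 &&
    (allBelow (fun q => !(Nat.testBit 0x53358 q) || normChk (fldP qT3 q)) 24 &&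
    allBelow (fun q => !(Nat.testBit 0x1010 q) || normChk (fldP qT4 q)) 24))) = true := by
  decide +kernel

theorem HQ0_le_normalizer : HQ0 ≤ Subgroup.normalizer (N9 : Set (Equiv.Perm GolayPt)) := by
  have h := qT_norm
  simp only [Bool.and_eq_true, allBelow_iff] at h
  obtain ⟨h1, h2, h3, h4⟩ := h
  have key : ∀ {l : List ℕ} {tab b D : ℕ} (hl : ∀ i ∈ l, i < 24) (hb : b < 24)
      (ht : transQ l tab b D = true)
      (hn : ∀ q < 24, (!(Nat.testBit D q) || normChk (fldP tab q)) = true),
      ∀ q < 24, D.testBit q = true → permOf (fldP tab q) ∈ Subgroup.normalizer (N9 : Set (Equiv.Perm GolayPt)) := by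
    intro l tab b D hl hb ht hn q hq hD
    obtain ⟨P, hp, _, _, rfl⟩ := transQ_spec hl hb ht q hq hD
    have := hn q hq
    rw [hD] at this
    exact normChk_spec hp (by simpa using this)
  exact HQ0_le _ (key (by decide) (by decide) qT1_ok h1) (key (by decide) (by decide) qT2_ok h2)
    (key (by decide) (by decide) qT3_ok h3) (key (by decide) (by decide) qT4_ok h4)

end Cfsg.Agent.Lib.Helper34
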