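import Cfsg.Agent.Lib.Helper34.QuartetStr2

set_option autoImplicit false

/-! Stabilisers in `M24` of families of sets: the action on the members, swaps, kernels. -/

namespace Cfsg.Agent.Lib.Helper34

open Cfsg Cfsg.Agent.Lib.Helper33
open scoped Pointwise

/-- action of the stabiliser of a family on its members -/
def famSmul (S : Finset (Finset GolayPt)) (g : ↥(MulAction.stabilizer M24 S)) (t : ↥S) : ↥S :=
  ⟨g.1.1 • t.1, by
    have h1 : g.1.1 • S = S := g.2
    have h2 := Finset.smul_mem_smul_finset (a := g.1.1) t.2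
    rwa [h1] at h2⟩

/-- the permutation representation of the stabiliser of a family on its members -/
def famHom (S : Finset (Finset GolayPt)) : ↥(MulAction.stabilizer M24 S) →* Equiv.Perm ↥S where
  toFun g :=
    { toFun := famSmul S g
      invFun := famSmul S g⁻¹
      left_inv := fun t => by
        apply Subtype.ext
        show g.1.1⁻¹ • g.1.1 • t.1 = t.1
        rw [inv_smul_smul]
      right_inv := fun t => by
        apply Subtype.ext
        show g.1.1 • g.1.1⁻¹ • t.1 = t.1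
        rw [smul_inv_smul] }
  map_one' := by
    ext1 t
    apply Subtype.ext
    show (1 : Equiv.Perm GolayPt) • t.1 = t.1
    rw [one_smul]
  map_mul' a b := by
    ext1 t
    apply Subtype.ext
    show (a.1.1 * b.1.1) • t.1 = a.1.1 • b.1.1 • t.1
    rw [mul_smul]

theorem famHom_apply (S : Finset (Finset GolayPt)) (g : ↥(MulAction.stabilizer M24 S)) (t : ↥S) :
    (famHom S g t).1 = g.1.1 • t.1 := rfl

/-- any two members can be swapped, fixing all the others -/
def SwapProp (S : Finset (Finset GolayPt)) : Prop :=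
  ∀ A ∈ S, ∀ B ∈ S, A ≠ B → ∃ g ∈ M24, g • A = B ∧ g • B = A ∧ ∀ C ∈ S, C ≠ A → C ≠ B → g • C = C

theorem SwapProp.smul {S : Finset (Finset GolayPt)} (h : SwapProp S) {u : Equiv.Perm GolayPt} (hu : u ∈ M24) :
    SwapProp (u • S) := by
  intro A hA B hB hAB
  obtain ⟨A', hA', rfl⟩ := Finset.mem_smul_finset.1 hA
  obtain ⟨B', hB', rfl⟩ := Finset.mem_smul_finset.1 hB
  obtain ⟨g, hg, h1, h2, h3⟩ := h A' hA' B' hB' (fun e => hAB (by rw [e]))
  refine ⟨u * g * u⁻¹, M24.mul_mem (M24.mul_mem hu hg) (M24.inv_mem hu), ?_, ?_, ?_⟩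
  · rw [mul_smul, mul_smul, inv_smul_smul, h1]
  · rw [mul_smul, mul_smul, inv_smul_smul, h2]
  · intro C hC hCA hCB
    obtain ⟨C', hC', rfl⟩ := Finset.mem_smul_finset.1 hC
    rw [mul_smul, mul_smul, inv_smul_smul, h3 C' hC' (fun e => hCA (by rw [e])) (fun e => hCB (by rw [e]))]

theorem famHom_surjective {S : Finset (Finset GolayPt)} (hsw : SwapProp S) :
    Function.Surjective (famHom S) := by
  classical
  rw [← MonoidHom.range_eq_top, eq_top_iff, ← Equiv.Perm.closure_isSwap, Subgroup.closure_le]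
  rintro σ ⟨a, b, hab, rfl⟩
  obtain ⟨g, hg, h1, h2, h3⟩ := hsw a.1 a.2 b.1 b.2 (fun h => hab (Subtype.ext h))
  have hS : g • S = S := by
    apply Finset.eq_of_subset_of_card_le
    · intro t ht
      obtain ⟨t', ht', rfl⟩ := Finset.mem_smul_finset.1 ht
      by_cases e1 : t' = a.1
      · rw [e1, h1]; exact b.2
      by_cases e2 : t' = b.1
      · rw [e2, h2]; exact a.2
      rw [h3 t' ht' e1 e2]; exact ht'
    · rw [Finset.card_smul_finset]
  refine ⟨⟨⟨g, hg⟩, hS⟩, ?_⟩
  ext1 t
  apply Subtype.ext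
  show g • t.1 = (Equiv.swap a b t).1
  by_cases e1 : t = a
  · rw [e1, Equiv.swap_apply_left, h1]
  by_cases e2 : t = b
  · rw [e2, Equiv.swap_apply_right, h2]
  · rw [Equiv.swap_apply_of_ne_of_ne e1 e2,
      h3 t.1 t.2 (fun e => e1 (Subtype.ext e)) (fun e => e2 (Subtype.ext e))]

theorem mem_famHom_ker {S : Finset (Finset GolayPt)} {g : ↥(MulAction.stabilizer M24 S)} :
    g ∈ (famHom S).ker ↔ ∀ t ∈ S, g.1.1 • t = t := by
  rw [MonoidHom.mem_ker]
  constructor
  · intro h t ht
    have := congrArg (fun σ : Equiv.Perm ↥S => (σ ⟨t, ht⟩).1) h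
    exact this
  · intro h
    ext1 t
    apply Subtype.ext
    exact h t.1 t.2

theorem card_famHom_ker {S : Finset (Finset GolayPt)} (hsw : SwapProp S) :
    Nat.card (famHom S).ker * S.card.factorial = Nat.card ↥(MulAction.stabilizer M24 S) := by
  classical
  have h := Subgroup.card_mul_index (famHom S).ker
  have hp : Nat.card (Equiv.Perm ↥S) = S.card.factorial := by
    rw [Nat.card_eq_fintype_card, Fintype.card_perm, Fintype.card_coe]
  rw [Subgroup.index_ker, MonoidHom.range_eq_top.2 (famHom_surjective hsw), Subgroup.card_top, hp] at h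
  exact h

/-- kernel test for the swap property of the first object of a table -/
noncomputable def swOK (tab sw m : ℕ) : Bool :=
  allBelow (fun i => allBelow (fun j => Nat.beq i j || (inM24 (fldP sw (Nat.add (Nat.mul m i) j)) &&
    allBelow (fun l => Nat.beq (permMask (fldP sw (Nat.add (Nat.mul m i) j)) (fld24 tab (Nat.add (Nat.mul m 0) l)))
      (fld24 tab (Nat.add (Nat.mul m 0) (bif Nat.beq l i then j else (bif Nat.beq l j then i else l))))) m)) m) m

theorem swOK_spec {tab sw m : ℕ} (h : swOK tab sw m = true) : SwapProp (objM tab m 0) := by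
  rw [swOK, allBelow_iff] at h
  intro A hA B hB hAB
  obtain ⟨i, hi, rfl⟩ := mem_objM.1 hA
  obtain ⟨j, hj, rfl⟩ := mem_objM.1 hB
  have hij : i ≠ j := fun e => hAB (by rw [e])
  have h1 := (allBelow_iff _ _).1 (h i hi) j hj
  rw [Bool.or_eq_true, Bool.and_eq_true, allBelow_iff] at h1
  rcases h1 with h1 | ⟨h1, h2⟩
  · exact absurd (Nat.eq_of_beq_eq_true h1) hij
  have hp := isPerm_of_inM24 h1
  refine ⟨_, permOf_mem_M24 h1, ?_, ?_, ?_⟩
  · rw [smul_unmask hp, Nat.eq_of_beq_eq_true (h2 i hi)]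
    simp
  · rw [smul_unmask hp, Nat.eq_of_beq_eq_true (h2 j hj)]
    have : Nat.beq j i = false := by
      rw [← Bool.not_eq_true]
      intro e
      exact hij (Nat.eq_of_beq_eq_true e).symm
    rw [this]
    simp
  · intro C hC hCA hCB
    obtain ⟨l, hl, rfl⟩ := mem_objM.1 hC
    have e1 : Nat.beq l i = false := by
      rw [← Bool.not_eq_true]
      intro e
      exact hCA (by rw [Nat.eq_of_beq_eq_true e])
    have e2 : Nat.beq l j = false := by
      rw [← Bool.not_eq_true]
      intro e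
      exact hCB (by rw [Nat.eq_of_beq_eq_true e])
    rw [smul_unmask hp, Nat.eq_of_beq_eq_true (h2 l hl), e1, e2]
    simp

/-- the stabiliser of a family, as a group of permutations -/
def StabP (S : Finset (Finset GolayPt)) : Subgroup (Equiv.Perm GolayPt) :=
  M24 ⊓ MulAction.stabilizer (Equiv.Perm GolayPt) S

/-- the subgroup fixing every member of a family, as a group of permutations -/
def KerP (S : Finset (Finset GolayPt)) : Subgroup (Equiv.Perm GolayPt) where
  carrier := {g | g ∈ M24 ∧ ∀ t ∈ S, g • t = t}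
  one_mem' := ⟨M24.one_mem, fun t _ => one_smul _ t⟩
  mul_mem' := fun {a b} ha hb => ⟨M24.mul_mem ha.1 hb.1, fun t ht => by rw [mul_smul, hb.2 t ht, ha.2 t ht]⟩
  inv_mem' := fun {a} ha => ⟨M24.inv_mem ha.1, fun t ht => by rw [inv_smul_eq_iff, ha.2 t ht]⟩

theorem mem_KerP {S : Finset (Finset GolayPt)} {g : Equiv.Perm GolayPt} :
    g ∈ KerP S ↔ g ∈ M24 ∧ ∀ t ∈ S, g • t = t := Iff.rfl

theorem KerP_le (S : Finset (Finset GolayPt)) : KerP S ≤ StabP S := by
  intro g hg
  refine ⟨hg.1, ?_⟩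
  show g • S = S
  apply Finset.eq_of_subset_of_card_le
  · intro t ht
    obtain ⟨t', ht', rfl⟩ := Finset.mem_smul_finset.1 ht
    rw [hg.2 t' ht']; exact ht'
  · rw [Finset.card_smul_finset]

theorem KerP_conj {S : Finset (Finset GolayPt)} {h k : Equiv.Perm GolayPt} (hh : h ∈ KerP S)
    (hk : k ∈ StabP S) : k * h * k⁻¹ ∈ KerP S := by
  refine ⟨M24.mul_mem (M24.mul_mem hk.1 hh.1) (M24.inv_mem hk.1), fun t ht => ?_⟩
  have hkS : k • S = S := hk.2
  have h1 : k⁻¹ • t ∈ S := by
    have : k⁻¹ • t ∈ k⁻¹ • S := Finset.smul_mem_smul_finset ht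
    rwa [inv_smul_eq_iff.2 hkS.symm] at this
  rw [mul_smul, mul_smul, hh.2 _ h1, smul_inv_smul]

theorem card_KerP (S : Finset (Finset GolayPt)) : Nat.card (KerP S) = Nat.card (famHom S).ker := by
  apply Nat.card_congr
  refine ⟨fun g => ⟨⟨⟨g.1, g.2.1⟩, (KerP_le S g.2).2⟩, mem_famHom_ker.2 g.2.2⟩,
    fun g => ⟨g.1.1.1, g.1.1.2, mem_famHom_ker.1 g.2⟩, fun _ => rfl, fun _ => rfl⟩

theorem stabP_key {S S0 : Finset (Finset GolayPt)} {u : Equiv.Perm GolayPt} (hu : u ∈ M24)
    (huS : u • S = S0) (g : ↥M24) : g ∈ MulAction.stabilizer M24 S ↔ u * g.1 * u⁻¹ ∈ StabP S0 := by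
  have h2 : u * g.1 * u⁻¹ ∈ MulAction.stabilizer (Equiv.Perm GolayPt) S0 ↔ g.1 • S = S := by
    rw [MulAction.mem_stabilizer_iff, ← huS, conj_smul_iff]
  constructor
  · intro a
    exact ⟨M24.mul_mem (M24.mul_mem hu g.2) (M24.inv_mem hu), h2.2 a⟩
  · rintro ⟨_, a⟩
    exact h2.1 a

theorem StabP_le_M24 (S : Finset (Finset GolayPt)) : StabP S ≤ M24 := fun _ h => h.1

/-- enumeration of a finite subgroup by a table with distinct entries -/
theorem enum_of_card {K : Subgroup (Equiv.Perm GolayPt)} {n : ℕ} (f : ℕ → Equiv.Perm GolayPt)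
    (hmem : ∀ i < n, f i ∈ K) (hinj : ∀ i < n, ∀ j < n, f i = f j → i = j) (hc : Nat.card K = n) :
    ∀ g ∈ K, ∃ i < n, g = f i := by
  classical
  have hc' : ((Finset.range n).image f).card = n := by
    rw [Finset.card_image_of_injOn, Finset.card_range]
    intro a ha b hb hab
    exact hinj a (Finset.mem_range.1 ha) b (Finset.mem_range.1 hb) hab
  have hsub : (((Finset.range n).image f : Finset (Equiv.Perm GolayPt)) : Set (Equiv.Perm GolayPt)) ⊆
      (K : Set (Equiv.Perm GolayPt)) := by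
    intro g hg
    obtain ⟨k, hk, rfl⟩ := Finset.mem_image.1 (Finset.mem_coe.1 hg)
    exact hmem k (Finset.mem_range.1 hk)
  have heq := Set.eq_of_subset_of_ncard_le hsub (by
    rw [Set.ncard_coe_finset, hc']
    have : (K : Set (Equiv.Perm GolayPt)).ncard = Nat.card K := rfl
    rw [this, hc]) (Set.toFinite _)
  intro g hg
  have hg' : g ∈ (K : Set (Equiv.Perm GolayPt)) := hg
  rw [← heq] at hg'
  obtain ⟨k, hk, rfl⟩ := Finset.mem_image.1 (Finset.mem_coe.1 hg')
  exact ⟨k, Finset.mem_range.1 hk, rfl⟩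

end Cfsg.Agent.Lib.Helper34
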