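import Cfsg.Agent.Lib.Helper34.SetStab

set_option autoImplicit false

/-! Subgroups of the symmetric group on the 24 points given by tables of packed permutations. -/

namespace Cfsg.Agent.Lib.Helper34

open Cfsg Cfsg.Agent.Lib.Helper33
open scoped Pointwise

/-- kernel test: the first `n` entries of a table of packed permutations form a group -/
noncomputable def tabGrpOK (tab n : ℕ) : Bool :=
  allBelow (fun i => isPerm (fldP tab i)) n &&
  (allBelow (fun p => Nat.beq (fld5 (fldP tab 0) p) p) 24 &&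
  (allBelow (fun i => allBelow (fun j => anyBelow (fun k => mulChk (fldP tab k) (fldP tab i) (fldP tab j)) n) n) n &&
  allBelow (fun i => allBelow (fun j => Nat.beq i j ||
    anyBelow (fun p => !(Nat.beq (fld5 (fldP tab i) p) (fld5 (fldP tab j) p))) 24) n) n))

structure TabGrp (tab n : ℕ) : Prop where
  pos : 0 < n
  ok : tabGrpOK tab n = true

namespace TabGrp

variable {tab n : ℕ}

theorem perm (h : TabGrp tab n) {i : ℕ} (hi : i < n) : isPerm (fldP tab i) = true := by
  have := h.ok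
  rw [tabGrpOK, Bool.and_eq_true, allBelow_iff] at this
  exact this.1 i hi

theorem one (h : TabGrp tab n) : permOf (fldP tab 0) = 1 := by
  have := h.ok
  rw [tabGrpOK, Bool.and_eq_true, Bool.and_eq_true, allBelow_iff, allBelow_iff] at this
  ext1 p
  apply idx_injective
  rw [idx_permOf (h.perm h.pos), Equiv.Perm.one_apply]
  exact Nat.eq_of_beq_eq_true (this.2.1 _ (idx_lt p))

theorem mul (h : TabGrp tab n) {i j : ℕ} (hi : i < n) (hj : j < n) :
    ∃ k < n, permOf (fldP tab i) * permOf (fldP tab j) = permOf (fldP tab k) := by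
  have := h.ok
  rw [tabGrpOK, Bool.and_eq_true, Bool.and_eq_true, Bool.and_eq_true] at this
  obtain ⟨k, hk, e⟩ := (anyBelow_iff _ _).1 ((allBelow_iff _ _).1 ((allBelow_iff _ _).1 this.2.2.1 i hi) j hj)
  exact ⟨k, hk, (mulChk_spec (h.perm hk) (h.perm hi) (h.perm hj) e).symm⟩

theorem inj (h : TabGrp tab n) : ∀ i < n, ∀ j < n, permOf (fldP tab i) = permOf (fldP tab j) → i = j := by
  intro i hi j hj e
  have := h.ok
  rw [tabGrpOK, Bool.and_eq_true, Bool.and_eq_true, Bool.and_eq_true] at this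
  have h1 := (allBelow_iff _ _).1 ((allBelow_iff _ _).1 this.2.2.2 i hi) j hj
  rw [Bool.or_eq_true] at h1
  rcases h1 with h1 | h1
  · exact Nat.eq_of_beq_eq_true h1
  · exfalso
    obtain ⟨p, hp, h2⟩ := (anyBelow_iff _ _).1 h1
    have h3 : idx (permOf (fldP tab i) (pt p)) = idx (permOf (fldP tab j) (pt p)) := by rw [e]
    rw [idx_permOf (h.perm hi), idx_permOf (h.perm hj), idx_pt hp] at h3
    rw [h3, Nat.beq_refl] at h2
    exact absurd h2 (by decide)

/-- the subgroup formed by the entries of the table -/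
def sub (h : TabGrp tab n) : Subgroup (Equiv.Perm GolayPt) where
  carrier := {g | ∃ i < n, g = permOf (fldP tab i)}
  one_mem' := ⟨0, h.pos, h.one.symm⟩
  mul_mem' := by
    rintro _ _ ⟨i, hi, rfl⟩ ⟨j, hj, rfl⟩
    obtain ⟨k, hk, e⟩ := h.mul hi hj
    exact ⟨k, hk, e⟩
  inv_mem' := by
    intro g hg
    have hpow : ∀ m : ℕ, ∃ i < n, g ^ m = permOf (fldP tab i) := by
      intro m
      induction m with
      | zero => exact ⟨0, h.pos, by rw [pow_zero, h.one]⟩
      | succ m ih =>
        obtain ⟨i, hi, e⟩ := ih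
        obtain ⟨j, hj, rfl⟩ := hg
        obtain ⟨k, hk, e'⟩ := h.mul hi hj
        exact ⟨k, hk, by rw [pow_succ, e, e']⟩
    have h1 : g⁻¹ = g ^ (orderOf g - 1) := by
      rw [inv_eq_iff_mul_eq_one, ← pow_succ', Nat.sub_add_cancel (orderOf_pos g), pow_orderOf_eq_one]
    show ∃ i < n, g⁻¹ = permOf (fldP tab i)
    rw [h1]
    exact hpow _

theorem mem_sub (h : TabGrp tab n) {g : Equiv.Perm GolayPt} :
    g ∈ h.sub ↔ ∃ i < n, g = permOf (fldP tab i) := Iff.rfl

theorem entry_mem (h : TabGrp tab n) {i : ℕ} (hi : i < n) : permOf (fldP tab i) ∈ h.sub := ⟨i, hi, rfl⟩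

theorem card_sub (h : TabGrp tab n) : Nat.card h.sub = n := by
  have e : Fin n ≃ ↥h.sub := Equiv.ofBijective
    (fun i => ⟨permOf (fldP tab i.1), h.entry_mem i.2⟩) ⟨by
      intro a b hab
      apply Fin.ext
      exact h.inj _ a.2 _ b.2 (congrArg Subtype.val hab), by
      rintro ⟨g, i, hi, rfl⟩
      exact ⟨⟨i, hi⟩, rfl⟩⟩
  rw [← Nat.card_congr e, Nat.card_eq_fintype_card, Fintype.card_fin]

end TabGrp

/-- all subgroups of prime order `p` are conjugate when this holds inside one Sylow subgroup -/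
theorem all_conj_of_sylow {G : Type*} [Group G] [Finite G] {p : ℕ} [Fact p.Prime] (P : Sylow p G)
    (A : Subgroup G) (hA : Nat.card A = p)
    (hconj : ∀ x ∈ (P : Subgroup G), x ≠ 1 → ∃ h : G, h * x * h⁻¹ ∈ A)
    (X : Subgroup G) (hX : Nat.card X = p) : ∃ g : G, MulAut.conj g • X = A := by
  have hp : p.Prime := Fact.out
  have hXp : IsPGroup p X := IsPGroup.of_card (n := 1) (by rw [hX, pow_one])
  obtain ⟨S, hS⟩ := hXp.exists_le_sylow
  obtain ⟨g, hg⟩ := MulAction.exists_smul_eq G S P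
  have hne : ∃ x ∈ X, x ≠ 1 := by
    by_contra hc
    push Not at hc
    have : X = ⊥ := (Subgroup.eq_bot_iff_forall X).2 hc
    rw [this, Subgroup.card_bot] at hX
    exact hp.one_lt.ne hX
  obtain ⟨x, hx, hx1⟩ := hne
  have hgx : g * x * g⁻¹ ∈ (P : Subgroup G) := by
    rw [← hg]
    have : g * x * g⁻¹ ∈ MulAut.conj g • (S : Subgroup G) :=
      ⟨x, hS hx, rfl⟩
    exact this
  obtain ⟨h, hh⟩ := hconj _ hgx (by
    intro e
    apply hx1
    have : x = g⁻¹ * (g * x * g⁻¹) * g := by group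
    rw [this, e]; group)
  refine ⟨h * g, ?_⟩
  have hcard : Nat.card ↥(MulAut.conj (h * g) • X) = p := by
    rw [← hX]
    exact Nat.card_congr (Subgroup.equivSMul (MulAut.conj (h * g)) X).symm.toEquiv
  set y := h * g * x * (h * g)⁻¹ with hy
  have hyA : y ∈ A := by
    have : y = h * (g * x * g⁻¹) * h⁻¹ := by rw [hy]; group
    rw [this]; exact hh
  have hyX : y ∈ MulAut.conj (h * g) • X := ⟨x, hx, rfl⟩
  have hy1 : y ≠ 1 := by
    intro e
    apply hx1
    have : x = (h * g)⁻¹ * y * (h * g) := by rw [hy]; group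
    rw [this, e]; group
  have key : ∀ B : Subgroup G, Nat.card B = p → y ∈ B → B = Subgroup.zpowers y := by
    intro B hB hyB
    symm
    apply Subgroup.eq_of_le_of_card_ge (Subgroup.zpowers_le.2 hyB)
    rw [Nat.card_zpowers, hB]
    have hdvd : orderOf y ∣ p := by
      have h1 := Subgroup.orderOf_dvd_natCard B hyB
      rwa [hB] at h1
    rcases (Nat.dvd_prime hp).1 hdvd with h1 | h1
    · exact absurd (orderOf_eq_one_iff.1 h1) hy1
    · rw [h1]
  rw [key _ hcard hyX, key _ hA hyA]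

/-- transport of conjugacy of subgroups of a given order along an isomorphism -/
theorem conj_transport {G H : Type*} [Group G] [Group H] (e : G ≃* H) {n : ℕ}
    (h : ∀ X Y : Subgroup H, Nat.card X = n → Nat.card Y = n → ∃ g : H, MulAut.conj g • X = Y)
    (X Y : Subgroup G) (hX : Nat.card X = n) (hY : Nat.card Y = n) : ∃ g : G, MulAut.conj g • X = Y := by
  obtain ⟨k, hk⟩ := h (X.map e.toMonoidHom) (Y.map e.toMonoidHom)
    (by rw [← hX]; exact Nat.card_congr (e.subgroupMap X).symm.toEquiv)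
    (by rw [← hY]; exact Nat.card_congr (e.subgroupMap Y).symm.toEquiv)
  refine ⟨e.symm k, ?_⟩
  ext x
  have h1 : e x ∈ MulAut.conj k • X.map e.toMonoidHom ↔ e x ∈ Y.map e.toMonoidHom := by rw [hk]
  have h2 : e x ∈ Y.map e.toMonoidHom ↔ x ∈ Y := by
    constructor
    · rintro ⟨y, hy, hxy⟩
      have : y = x := e.injective hxy
      rw [← this]; exact hy
    · intro hx; exact ⟨x, hx, rfl⟩
  rw [← h2, ← h1]
  constructor
  · rintro ⟨y, hy, rfl⟩
    refine ⟨e y, ⟨y, hy, rfl⟩, ?_⟩
    simp [MulAut.conj_apply]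
  · rintro ⟨_, ⟨y, hy, rfl⟩, hxy⟩
    refine ⟨y, hy, ?_⟩
    apply e.injective
    rw [← hxy]
    simp [MulAut.conj_apply]

end Cfsg.Agent.Lib.Helper34
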